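import Cfsg.Agent.H35.S4Defs

/-!
# Standard subgroups of type `Sp₄(q)`: the action of `X̂_1` on `W_2` and `W_4`
-/

set_option autoImplicit false

namespace Cfsg.Agent.H70.S4L

open Cfsg Cfsg.Agent.H63 Cfsg.Agent.H63.SL Cfsg.Agent.H35.S4 Subgroup
open scoped commutatorElement

universe u v

variable {F : Type v} [Field F] {G : Type u} [Group G] {A : Type v} [CommRing A]
  {L : Subgroup G} {x : ZMod 8 → F → G} {t : G} {j : F →+* A} {σ : A ≃+* A} {y : ZMod 8 → A → G}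
  {Yh : ZMod 8 → Subgroup G} {S P R W2 W4 : Subgroup G}

theorem wt1 (α β : Fˣ) : wt α β 1 = α := rfl
theorem wt2 (α β : Fˣ) : wt α β 2 = α ^ 2 * β := rfl
theorem wt3 (α β : Fˣ) : wt α β 3 = α * β := rfl
theorem wt4 (α β : Fˣ) : wt α β 4 = β := rfl

theorem cm_mul_left (a b c : G) : ⁅a * b, c⁆ = a * ⁅b, c⁆ * a⁻¹ * ⁅a, c⁆ := by
  simp only [commutatorElement_def]; group

theorem conj_of_cm {a b c : G} (h : ⁅a, b⁆ = c) : a * b * a⁻¹ = c * b := by
  rw [← h, commutatorElement_def]; group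

theorem one_of_add {B : Type v} [AddCommGroup B] {f : B → G} (h : ∀ a b, f (a + b) = f a * f b) :
    f 0 = 1 := by
  have := h 0 0
  rw [add_zero] at this
  exact left_eq_mul.1 this

section
variable (hC : Ctx L x t) (T : T3 L x t j σ y Yh S P R W2 W4)
include hC T

theorem j_inj {u : F} (h : j u = 0) : u = 0 :=
  hC.mod.pin.inj 1 u (by rw [← T.ds.res 1 (by decide), h, one_of_add (T.ds.add 1 (by decide))])

omit hC in
theorem ex_tr (a : A) : ∃ n, j n = a + σ a :=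
  let ⟨n, h⟩ := (T.ds.quad.fix (a + σ a)).1 (by rw [map_add, T.ds.quad.sq, add_comm])
  ⟨n, h.symm⟩

omit hC in
theorem ex_nm (a : A) : ∃ n, j n = a * σ a :=
  let ⟨n, h⟩ := (T.ds.quad.fix (a * σ a)).1 (by rw [map_mul, T.ds.quad.sq, mul_comm])
  ⟨n, h.symm⟩

theorem mulS (f k f' k' : F) (g g' : A) : x 2 f * y 3 g * x 4 k * (x 2 f' * y 3 g' * x 4 k') =
    x 2 (f + f') * y 3 (g + g') * x 4 (k + k') := by
  have c1 : Commute (y 3 g) (x 2 f') := (T.ds.c1 3 (by decide) g f').2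
  have c2 : Commute (x 2 f') (x 4 k) := hC.mod.pin.c2 2 f' k
  have c3 : Commute (y 3 g') (x 4 k) := (T.ds.c1 3 (by decide) g' k).1
  rw [hC.mod.pin.add, T.ds.add 3 (by decide), hC.mod.pin.add]
  simp only [mul_assoc]
  rw [← c2.left_comm, ← c3.left_comm, c1.left_comm]

theorem injS {f k f' k' : F} {g g' : A} (h : x 2 f * y 3 g * x 4 k = x 2 f' * y 3 g' * x 4 k') :
    f = f' ∧ g = g' ∧ k = k' := by
  have e := T.l1.sqS _ ((T.l1.memS _).2 ⟨f, g, k, rfl⟩)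
  nth_rewrite 2 [h] at e
  rw [mulS hC T] at e
  obtain ⟨e1, e2, e3⟩ := T.l1.uniqS _ _ _ e
  exact ⟨by linear_combination e1 - f' * hC.mod.pin.two,
    by linear_combination e2 - g' * T.ds.quad.two, by linear_combination e3 - k' * hC.mod.pin.two⟩

theorem conjS {a g : A} {τ n : F} (hτ : j τ = a * g + σ (a * g)) (hn : j n = a * σ a) (f k : F) :
    y 1 a * (x 2 f * y 3 g * x 4 k) * (y 1 a)⁻¹ =
      x 2 (f + τ + n * k) * y 3 (g + σ a * j k) * x 4 k := by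
  have e1 : y 1 a * x 2 f * (y 1 a)⁻¹ = x 2 f := by
    rw [show y 1 a * x 2 f = x 2 f * y 1 a from (T.ds.c1 1 (by decide) a f).1.eq,
      mul_inv_cancel_right]
  have e2 : y 1 a * y 3 g * (y 1 a)⁻¹ = x 2 τ * y 3 g :=
    conj_of_cm (T.ds.s2 1 (by decide) a g τ hτ)
  have e3 : y 1 a * x 4 k * (y 1 a)⁻¹ = x 2 (n * k) * y 3 (σ a * j k) * x 4 k :=
    conj_of_cm (T.ds.s3 1 (by decide) a n hn k).1
  have e4 := mulS hC T (f + τ) 0 (n * k) k g (σ a * j k)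
  rw [zero_add, one_of_add (hC.mod.pin.add 4), mul_one] at e4
  rw [← conj_mul, ← conj_mul, e1, e2, e3, ← e4, hC.mod.pin.add]
  simp only [mul_assoc]

omit hC in
theorem torS {h : G} (hL : h ∈ L) {α β : Fˣ} (H : Tor x h α β) (f k : F) (g : A) :
    h * (x 2 f * y 3 g * x 4 k) * h⁻¹ =
      x 2 ((α ^ 2 * β : Fˣ) * f) * y 3 (j (α * β : Fˣ) * g) * x 4 (β * k) := by
  rw [← conj_mul, ← conj_mul, H, H, T.ds.tor h hL α β H 3 (by decide), wt2, wt3, wt4]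

omit T in
theorem split (γ : Fˣ) (hγ : γ ≠ 1) (a : A) : ∃ b, a = j γ * b + b := by
  have h : (γ : F) + 1 ≠ 0 := fun e => hγ (Units.ext (by
    rw [Units.val_one]; linear_combination e - hC.mod.pin.two))
  refine ⟨j ((γ : F) + 1)⁻¹ * a, ?_⟩
  have : j γ * j ((γ : F) + 1)⁻¹ + j ((γ : F) + 1)⁻¹ = 1 := by
    rw [← map_mul, ← map_add, ← map_one j]; congr 1; field_simp
  linear_combination -a * this

theorem c1 (H : ∀ a, ∀ e ∈ W2, ⁅y 1 a, e⁆ ∈ S) (a : A) (e : G) (he : e ∈ W2) :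
    Commute (y 1 a) e := by
  have q := T.ds.quad
  choose f g k hψ using fun a => (T.l1.memS _).1 (H a e he)
  choose τ hτ using ex_tr T
  choose n hn using ex_nm T
  have add : ∀ a a', f (a + a') = f a' + τ (a * g a') + n a * k a' + f a ∧
      g (a + a') = g a' + σ a * j (k a') + g a ∧ k (a + a') = k a' + k a := fun a a' =>
    injS hC T (by rw [← hψ, T.ds.add 1 (by decide), cm_mul_left, hψ, hψ,
      conjS hC T (hτ _) (hn a), mulS hC T])
  have z : f 0 = 0 ∧ g 0 = 0 ∧ k 0 = 0 := T.l1.uniqS _ _ _ (by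
    rw [← hψ, one_of_add (T.ds.add 1 (by decide)), commutatorElement_one_left])
  have k0 : ∀ a, k a = 0 := fun a => by
    by_contra hk
    have e1 := (add a a).2.1
    rw [show a + a = 0 by linear_combination a * q.two, z.2.1] at e1
    have e2 : j (k a)⁻¹ * j (k a) = 1 := by rw [← map_mul, inv_mul_cancel₀ hk, map_one]
    have e3 : σ a = 0 := by
      linear_combination -σ a * e2 - j (k a)⁻¹ * e1 - j (k a)⁻¹ * g a * q.two
    rw [map_eq_zero_iff _ σ.injective] at e3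
    exact hk (e3 ▸ z.2.2)
  obtain ⟨γ, γ1, γ2⟩ := hC.kb.ne1
  obtain ⟨h, hh, hT⟩ := hC.kp.tor γ (γ ^ 2)⁻¹
  have hT2 : h ∈ TT x L 2 := (hC.kb.memT 2 h).2 ⟨hh.1, _, _, hT, by rw [wt2, mul_inv_cancel]⟩
  have hc : h * e * h⁻¹ = e := by
    rw [show h * e = e * h from (T.l3.two ▸ he : e ∈ R ⊓ C[TT x L 2]).2 h hT2, mul_inv_cancel_right]
  have tor : ∀ a, f (j γ * a) = f a ∧ j γ * g (j γ * a) = g a := fun a => by
    have e1 := torS T hh.1 hT (f a) (k a) (g a)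
    rw [← hψ, conjugate_commutatorElement, hc, T.ds.tor h hh.1 _ _ hT 1 (by decide), wt1, hψ] at e1
    obtain ⟨e2, e3, -⟩ := injS hC T e1
    refine ⟨by simpa using e2, ?_⟩
    rw [e3, ← mul_assoc, ← map_mul, ← Units.val_mul, ← mul_assoc, ← sq, mul_inv_cancel]
    simp
  have sym : ∀ a a', a * g a' + σ (a * g a') = a' * g a + σ (a' * g a) := fun a a' => by
    have e1 := (add a a').1
    have e2 := (add a' a).1
    rw [add_comm a' a, e1, k0, k0] at e2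
    rw [← hτ, ← hτ, show τ (a * g a') = τ (a' * g a) by linear_combination e2]
  have jγ : σ (j γ) = j γ := (q.fix _).2 ⟨_, rfl⟩
  have τ0 : ∀ a a', a * g a' + σ (a * g a') = 0 := fun a a' => by
    have e1 := sym a (j γ * a')
    have e2 := sym a a'
    have e3 := (tor a').2
    have e4 := congrArg σ e3
    have hu : ((γ : F) ^ 2 - 1) ≠ 0 := fun e => γ2 (Units.ext (by simpa using sub_eq_zero.1 e))
    have e5 : j ((γ : F) ^ 2 - 1)⁻¹ * (j γ ^ 2 - 1) = 1 := by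
      rw [← map_pow, ← map_one j, ← map_sub, ← map_mul, inv_mul_cancel₀ hu]
    simp only [map_mul, jγ] at e1 e2 e4 ⊢
    have e6 : (j γ ^ 2 - 1) * (a * g a' + σ a * σ (g a')) = 0 := by
      linear_combination j γ ^ 2 * e2 - j γ * e1 + a * e3 + σ a * e4
    linear_combination j ((γ : F) ^ 2 - 1)⁻¹ * e6 - (a * g a' + σ a * σ (g a')) * e5
  have g0 : ∀ a, g a = 0 := fun a => by
    obtain ⟨ω, hω⟩ := q.tr
    have e1 := τ0 1 a
    have e2 := τ0 ω a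
    rw [one_mul] at e1
    rw [map_mul, hω] at e2
    linear_combination (ω + 1) * e1 - e2
  have f0 : f a = 0 := by
    obtain ⟨b, rfl⟩ := split (j := j) hC γ γ1 a
    have e1 : τ (j γ * b * g b) = 0 := j_inj hC T (by rw [hτ, τ0])
    rw [(add _ _).1, e1, k0, (tor b).1]
    linear_combination f b * hC.mod.pin.two
  rw [← commutatorElement_eq_one_iff_commute, hψ, f0, g0, k0, one_of_add (hC.mod.pin.add 2),
    one_of_add (hC.mod.pin.add 4), one_of_add (T.ds.add 3 (by decide)), mul_one, mul_one]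

theorem l3 (hc : ∀ a, ∀ e ∈ W2, Commute (y 1 a) e)
    (H : ∀ a, ∀ e' ∈ W4, ∃ e ∈ W2, ∃ g ∈ S, ⁅y 1 a, e'⁆ = e * g) (a : A) (e' : G) (he : e' ∈ W4) :
    ∃ e ∈ W2, ∃ b, ⁅y 1 a, e'⁆ = e * y 3 b := by
  obtain ⟨γ, γ1, -⟩ := hC.kb.ne1
  obtain ⟨h, hh, hT⟩ := hC.kp.tor γ 1
  have hT4 : h ∈ TT x L 4 := (hC.kb.memT 4 h).2 ⟨hh.1, _, _, hT, rfl⟩
  have hc' : h * e' * h⁻¹ = e' := by
    rw [show h * e' = e' * h from (T.l3.four ▸ he : e' ∈ R ⊓ C[TT x L 4]).2 h hT4,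
      mul_inv_cancel_right]
  obtain ⟨b, rfl⟩ := split (j := j) hC γ γ1 a
  obtain ⟨e, h1, s, h2, h3⟩ := H b e' he
  obtain ⟨f, g, k, rfl⟩ := (T.l1.memS _).1 h2
  have h4 : h * _ * h⁻¹ = h * _ * h⁻¹ := congrArg (fun z => h * z * h⁻¹) h3
  rw [conjugate_commutatorElement, hc', T.ds.tor h hh.1 _ _ hT 1 (by decide), wt1, ← conj_mul,
    torS T hh.1 hT] at h4
  have h1' : e ∈ R ⊓ C[TT x L 2] := T.l3.two ▸ h1
  have h5' : h * e * h⁻¹ ∈ R ⊓ C[TT x L 2] :=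
    ⟨(mem_normalizer_iff.1 (T.l2.nR.2.1 hh) e).1 h1'.1, fun h' hh' => by
      have c1 : Commute h' h := hC.kb.comH h' hh'.1 h hh
      have c2 : Commute h' e := h1'.2 h' hh'
      exact ((c1.mul_right c2).mul_right c1.inv_right).eq⟩
  have h5 : h * e * h⁻¹ ∈ W2 := T.l3.two ▸ h5'
  obtain ⟨τ, hτ⟩ := ex_tr T (j γ * b * g)
  obtain ⟨n, hn⟩ := ex_nm T (j γ * b)
  have h6 : ∀ s ∈ S, s * (h * e * h⁻¹) = h * e * h⁻¹ * s := ((T.l2.mem _).1 h5'.1).2.1
  refine ⟨e * (h * e * h⁻¹) * x 2 (f + τ + n * k + (γ ^ 2 * 1 : Fˣ) * f),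
    mul_mem (mul_mem h1 h5) (T.l3.le (T.hl.le 2 (by decide) _)),
    g + σ (j γ * b) * j k + j (γ * 1 : Fˣ) * g, ?_⟩
  rw [T.ds.add 1 (by decide), cm_mul_left, h3, h4, ← conj_mul, (hc _ e h1).eq, mul_inv_cancel_right,
    conjS hC T hτ hn, mul_assoc e, ← mul_assoc _ (h * e * h⁻¹), h6 _ ((T.l1.memS _).2 ⟨_, _, _, rfl⟩),
    mul_assoc (h * e * h⁻¹), mulS hC T, Units.val_one, one_mul,
    show k + k = 0 by linear_combination k * hC.mod.pin.two, one_of_add (hC.mod.pin.add 4), mul_one]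
  simp only [mul_assoc]

end

/-- **LV3B2** -/
theorem lv3b2 : Lv3b2Stmt.{u, v} := by
  intro F _ _ G _ _ L x t hC A _ j σ y Yh S P R W2 W4 T H
  have h := c1 hC T fun a => (H a).1
  exact ⟨h, l3 hC T h fun a => (H a).2⟩

end Cfsg.Agent.H70.S4L
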