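import Cfsg.Agent.H98.GbH

/-! Project GB, piece DER0: the middle double cosets do not contribute to the derivation rule. -/

set_option autoImplicit false

namespace Cfsg.Agent.H70.GbDer0

open Cfsg Finset Matrix Cfsg.Agent.H98.GB
open scoped ComplexConjugate MatrixGroups

universe u

variable {F : Type u} [Field F] {a b n : ℕ} (h : a + b = n)

theorem mem_stdS {w : Fin n → F} : w ∈ stdS F n a ↔ ∀ j, w (eqv h (Sum.inr j)) = 0 := by
  refine ⟨fun H j => H _ (by simp [eqv]), fun H i hi => ?_⟩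
  obtain ⟨i | j, rfl⟩ := (eqv h).surjective i
  · simp [eqv] at hi
    omega
  · exact H j

/-- the embedding of the first coordinates -/
def emb : (Fin a → F) →ₗ[F] (Fin n → F) :=
  LinearMap.funLeft F F (eqv h).symm ∘ₗ (LinearEquiv.sumArrowLequivProdArrow _ _ F F).symm.toLinearMap ∘ₗ
    LinearMap.inl F _ _

theorem emb_inl (w : Fin a → F) (i : Fin a) : emb h w (eqv h (Sum.inl i)) = w i := by
  simp [emb, LinearMap.funLeft]

theorem emb_inr (w : Fin a → F) (j : Fin b) : emb h w (eqv h (Sum.inr j)) = 0 := by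
  simp [emb, LinearMap.funLeft]

theorem emb_inj : Function.Injective (emb (F := F) h) := fun w w' e =>
  funext fun i => by rw [← emb_inl h w, e, emb_inl]

theorem emb_mem (w : Fin a → F) : emb h w ∈ stdS F n a := (mem_stdS h).2 (emb_inr h w)

theorem exists_emb {w : Fin n → F} (hw : w ∈ stdS F n a) : ∃ w', emb h w' = w :=
  ⟨fun i => w (eqv h (Sum.inl i)), funext fun i => by
    obtain ⟨i | j, rfl⟩ := (eqv h).surjective i
    · rw [emb_inl]
    · rw [emb_inr, (mem_stdS h).1 hw]⟩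

theorem tri_inl (u : GL (Fin a) F) (c : Matrix (Fin a) (Fin b) F) (v : GL (Fin b) F)
    (w : Fin n → F) (i : Fin a) : ((tri h u c v).1 *ᵥ w) (eqv h (Sum.inl i)) =
      (u.1 *ᵥ fun i => w (eqv h (Sum.inl i))) i + (c *ᵥ fun j => w (eqv h (Sum.inr j))) i := by
  simp [coe_tri, submatrix_mulVec_equiv, fromBlocks_mulVec, Function.comp_def]

theorem tri_inr (u : GL (Fin a) F) (c : Matrix (Fin a) (Fin b) F) (v : GL (Fin b) F)
    (w : Fin n → F) (j : Fin b) : ((tri h u c v).1 *ᵥ w) (eqv h (Sum.inr j)) =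
      (v.1 *ᵥ fun j => w (eqv h (Sum.inr j))) j := by
  simp [coe_tri, submatrix_mulVec_equiv, fromBlocks_mulVec, Function.comp_def]

theorem tri_emb (u : GL (Fin a) F) (c : Matrix (Fin a) (Fin b) F) (v : GL (Fin b) F)
    (w : Fin a → F) : (tri h u c v).1 *ᵥ emb h w = emb h (u.1 *ᵥ w) := by
  funext i
  obtain ⟨i | j, rfl⟩ := (eqv h).surjective i
  · rw [tri_inl]
    simp [emb_inl, emb_inr, mulVec, dotProduct]
  · rw [tri_inr]
    simp [emb_inr, mulVec, dotProduct]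

theorem exists_tri {g : GL (Fin n) F} (hg : ∀ w ∈ stdS F n a, g.1 *ᵥ w ∈ stdS F n a) :
    ∃ u c v, g = tri h u c v := by
  have h1 : (g.1.submatrix (eqv h) (eqv h)).toBlocks₂₁ = 0 := by
    ext j i
    have := (mem_stdS h).1 (hg (Pi.single (eqv h (Sum.inl i)) 1)
      ((mem_stdS h).2 fun j => by simp)) j
    simpa [toBlocks₂₁] using this
  have h2 := fromBlocks_toBlocks (g.1.submatrix (eqv h) (eqv h))
  rw [h1] at h2
  have h3 := congrArg det h2
  rw [det_fromBlocks_zero₂₁, det_submatrix_equiv_self] at h3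
  have h4 := mul_ne_zero_iff.1 (h3 ▸ g.det_ne_zero)
  refine ⟨GeneralLinearGroup.mkOfDetNeZero _ h4.1, (g.1.submatrix (eqv h) (eqv h)).toBlocks₁₂,
    GeneralLinearGroup.mkOfDetNeZero _ h4.2, Units.ext ?_⟩
  rw [coe_tri]
  erw [h2]
  simp

theorem exists_tri_one {g : GL (Fin n) F} {s : GL (Fin a) F}
    (h1 : ∀ w, g.1 *ᵥ w - w ∈ stdS F n a) (h2 : ∀ w, g.1 *ᵥ emb h w = emb h (s.1 *ᵥ w)) :
    ∃ c, g = tri h s c 1 := by
  obtain ⟨u, c, v, rfl⟩ := exists_tri h (g := g) fun w hw => by simpa using add_mem (h1 w) hw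
  have e1 : u = s := Units.ext (toLin'.injective (LinearMap.ext fun w =>
    emb_inj h ((tri_emb h u c v w).symm.trans (h2 w))))
  have e2 : v = 1 := Units.ext (toLin'.injective (LinearMap.ext fun w => funext fun j => by
    have := (mem_stdS h).1 (h1 (Sum.elim 0 w ∘ (eqv h).symm)) j
    simpa [tri_inr, sub_eq_zero] using this))
  exact ⟨c, by rw [e1, e2]⟩

theorem mem_imS {x : GL (Fin n) F} {w : Fin n → F} : w ∈ imS a x ↔ x⁻¹.1 *ᵥ w ∈ stdS F n a := by
  refine ⟨?_, fun H => ⟨_, H, by simp [H22.Cusp.natRep_apply]⟩⟩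
  rintro ⟨w, hw, rfl⟩
  simpa [H22.Cusp.natRep_apply] using hw

include h in
theorem exists_imS (X : Submodule F (Fin n → F)) (hX : Module.finrank F X = a) :
    ∃ y : GL (Fin n) F, imS a y = X := by
  have h1 : LinearMap.range (emb (F := F) h) = stdS F n a :=
    le_antisymm (by rintro _ ⟨w, rfl⟩; exact emb_mem h w) fun w hw => exists_emb h hw
  have h2 : Module.finrank F (stdS F n a) = Module.finrank F X := by
    rw [← h1, LinearMap.finrank_range_of_inj (emb_inj h), hX, Module.finrank_fin_fun]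
  obtain ⟨g, hg⟩ := Submodule.exists_linearEquiv_restrict_eq (LinearEquiv.ofFinrankEq _ _ h2)
  refine ⟨GeneralLinearGroup.toLin.symm (LinearMap.GeneralLinearGroup.ofLinearEquiv g), ?_⟩
  have e : H22.Cusp.natRep F n (GeneralLinearGroup.toLin.symm
      (LinearMap.GeneralLinearGroup.ofLinearEquiv g)) = g := by
    simp [H22.Cusp.natRep]
    rfl
  rw [imS, e]
  refine Submodule.eq_of_le_of_finrank_eq ?_ (by rw [LinearEquiv.finrank_map_eq, h2])
  rintro _ ⟨w, hw, rfl⟩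
  exact (hg ⟨w, hw⟩).subst (motive := (· ∈ X)) (Subtype.prop _)

theorem exists_factor {A B C : Type*} [AddCommGroup A] [Module F A] [AddCommGroup B] [Module F B]
    [AddCommGroup C] [Module F C] (f : A →ₗ[F] B) (θ : A →ₗ[F] C)
    (hk : LinearMap.ker f ≤ LinearMap.ker θ) : ∃ ψ : B →ₗ[F] C, ∀ w, ψ (f w) = θ w := by
  obtain ⟨ψ, hψ⟩ := LinearMap.exists_extend
    ((LinearMap.ker f).liftQ θ hk ∘ₗ f.quotKerEquivRange.symm.toLinearMap)
  refine ⟨ψ, fun w => (LinearMap.congr_fun hψ ⟨f w, w, rfl⟩).trans ?_⟩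
  exact congrArg ((LinearMap.ker f).liftQ θ hk) (f.quotKerEquivRange_symm_apply_image w _)

/-- an element acting trivially on `W` and on the quotient by `W ⊓ U` with given action on `U` -/
theorem exists_lift (W : Submodule F (Fin n → F)) (s : GL (Fin a) F)
    (h1 : ∀ w, emb h (s.1 *ᵥ w - w) ∈ W) (h2 : ∀ w, emb h w ∈ W → s.1 *ᵥ w = w) :
    ∃ t, (∀ w, (tri h s t 1).1 *ᵥ w - w ∈ W) ∧ ∀ w ∈ W, (tri h s t 1).1 *ᵥ w = w := by
  obtain ⟨ψ, hψ⟩ := exists_factor (W.mkQ ∘ₗ emb h) (((toLin' s.1 - 1).codRestrict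
    (W.comap (emb h)) h1)) fun w hw => Subtype.ext (sub_eq_zero.2 (h2 w (by simpa using hw)))
  let φ := emb h ∘ₗ (W.comap (emb h)).subtype ∘ₗ ψ ∘ₗ W.mkQ
  have p1 : ∀ w, φ w ∈ W := fun w => (ψ (W.mkQ w)).2
  have p2 : ∀ w ∈ W, φ w = 0 := fun w hw => by
    simp [φ, (Submodule.Quotient.mk_eq_zero W).2 hw]
  have p3 : LinearMap.toMatrix' φ * LinearMap.toMatrix' φ = 0 := by
    rw [← LinearMap.toMatrix'_mul, show φ * φ = 0 from LinearMap.ext fun w => p2 _ (p1 w), map_zero]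
  let g : GL (Fin n) F := ⟨1 + LinearMap.toMatrix' φ, 1 - LinearMap.toMatrix' φ,
    by rw [add_mul, mul_sub, mul_sub, p3]; simp, by rw [mul_add, sub_mul, sub_mul, p3]; simp⟩
  have p4 : ∀ w, g.1 *ᵥ w = w + φ w := fun w => by
    simp [g, add_mulVec, LinearMap.toMatrix'_mulVec]
  obtain ⟨t, ht⟩ := exists_tri_one h (g := g) (s := s) (fun w => by
    rw [p4, add_sub_cancel_left]; exact emb_mem h _) fun w => by
    rw [p4, show φ (emb h w) = emb h (s.1 *ᵥ w - w) from
      congrArg (fun y => emb h y.1) (hψ w), ← map_add, add_sub_cancel]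
  exact ⟨t, fun w => by rw [← ht, p4, add_sub_cancel_left]; exact p1 w,
    fun w hw => by rw [← ht, p4, p2 w hw, add_zero]⟩

variable [Fintype F] [DecidableEq F]

omit [DecidableEq F] in
/-- multiplication by invertible matrices followed by a translation -/
def aff (s : GL (Fin a) F) (v : GL (Fin b) F) (t : Matrix (Fin a) (Fin b) F) :
    Matrix (Fin a) (Fin b) F ≃ Matrix (Fin a) (Fin b) F where
  toFun c := s.1 * c * v.1 + t
  invFun c := s⁻¹.1 * (c - t) * v⁻¹.1
  left_inv c := by simp [Matrix.mul_assoc]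
  right_inv c := by simp [Matrix.mul_assoc]

theorem van {η : Fˣ →* ℂˣ} {P : GL (Fin a) F → ℂ} (hP : Prim a P) (hT : Tw (dl η a) P)
    {W : Submodule F (Fin n → F)} (h0 : ¬ stdS F n a ≤ W) (h1 : stdS F n a ⊓ W ≠ ⊥)
    (Φ : GL (Fin n) F → ℂ) (hΦ : ∀ g, Φ g ≠ 0 → ∀ w ∈ W, g.1 *ᵥ w ∈ W)
    (hΦ' : ∀ k : GL (Fin n) F, (∀ w, k.1 *ᵥ w - w ∈ W) → (∀ w ∈ W, k.1 *ᵥ w = w) →
      ∀ g, Φ (k * g) = Φ g) (v : GL (Fin b) F) :
    ∑ u, ∑ c, Φ (tri h u c v) * conj (P u) = 0 := by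
  obtain ⟨d, hd⟩ : ∃ d, Module.finrank F (W.comap (emb h)) = d := ⟨_, rfl⟩
  have d1 : d < a := by
    have := Submodule.finrank_lt (s := W.comap (emb h)) fun e => h0 fun w hw => by
      obtain ⟨w, rfl⟩ := exists_emb h hw
      exact (e.ge (Submodule.mem_top (x := w)) :)
    rwa [hd, Module.finrank_fin_fun] at this
  have d0 : 0 < d := Nat.pos_of_ne_zero fun e => h1 ((Submodule.eq_bot_iff _).2 fun w hw => by
    obtain ⟨w, rfl⟩ := exists_emb h hw.1
    rw [(Submodule.eq_bot_iff _).1 (Submodule.finrank_eq_zero.1 (hd.trans e)) w hw.2, map_zero])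
  obtain ⟨e, he⟩ := Nat.exists_eq_add_of_le d1.le
  replace he := he.symm
  obtain ⟨y, hy⟩ := exists_imS he _ hd
  have my : ∀ w, emb h w ∈ W ↔ y⁻¹.1 *ᵥ w ∈ stdS F a d := fun w => by
    rw [← mem_imS, hy, Submodule.mem_comap]
  have k1 : ∀ c0, ∑ u, ∑ c, Φ (tri h u c v) * conj (P u) =
      ∑ u, ∑ c, Φ (tri h u c v) * conj (P (y * tri he 1 c0 1 * y⁻¹ * u)) := fun c0 => by
    obtain ⟨t, t1, t2⟩ := exists_lift h W (y * tri he 1 c0 1 * y⁻¹) (fun w => by
      rw [my, mulVec_sub, mulVec_mulVec, ← Units.val_mul, ← mul_assoc, ← mul_assoc, inv_mul_cancel,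
        one_mul, Units.val_mul, ← mulVec_mulVec, mem_stdS he]
      intro j
      rw [Pi.sub_apply, tri_inr, Units.val_one, one_mulVec, sub_self]) fun w hw => by
      obtain ⟨w', hw'⟩ := exists_emb he ((my w).1 hw)
      rw [Units.val_mul, Units.val_mul, ← mulVec_mulVec, ← mulVec_mulVec, ← hw', tri_emb,
        Units.val_one, one_mulVec, hw', mulVec_mulVec, ← Units.val_mul, mul_inv_cancel,
        Units.val_one, one_mulVec]
    generalize y * tri he 1 c0 1 * y⁻¹ = s at t1 t2 ⊢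
    rw [← Equiv.sum_comp (Equiv.mulLeft s)]
    refine sum_congr rfl fun u _ => ?_
    rw [← Equiv.sum_comp (aff s 1 (t * v.1))]
    refine sum_congr rfl fun c _ => ?_
    rw [← hΦ' _ t1 t2 (tri h u c v), tri_mul, one_mul]
    simp [aff]
  have k2 : ∀ u c, ∑ c0, Φ (tri h u c v) * conj (P (y * tri he 1 c0 1 * y⁻¹ * u)) = 0 := by
    intro u c
    by_cases e0 : Φ (tri h u c v) = 0
    · simp [e0]
    obtain ⟨u1, c1, u2, e1⟩ := exists_tri he (g := y⁻¹ * u * y) fun w hw => by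
      have := hΦ _ e0 _ ((my (y.1 *ᵥ w)).2 (by simpa using hw))
      rw [tri_emb, my] at this
      simpa [mul_assoc] using this
    have e2 : ∀ c0, P (y * tri he 1 c0 1 * y⁻¹ * u) =
        dl η a y * P (tri he u1 (aff 1 u2 c1 c0) u2) := fun c0 => by
      rw [← hT, show u = y * tri he u1 c1 u2 * y⁻¹ by rw [← e1]; group,
        show y * tri he 1 c0 1 * y⁻¹ * (y * tri he u1 c1 u2 * y⁻¹) =
          y * (tri he 1 c0 1 * tri he u1 c1 u2) * y⁻¹ by group, tri_mul]
      simp [aff, add_comm]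
    have e3 := hP.2 d e he d0 (by omega) u1 u2
    rw [res, mul_eq_zero, inv_eq_zero, Nat.cast_eq_zero] at e3
    rw [← mul_sum, ← map_sum, sum_congr rfl fun c0 _ => e2 c0, ← mul_sum]
    have e4 := e3.resolve_left (pow_ne_zero _ Fintype.card_ne_zero)
    rw [← Equiv.sum_comp (aff 1 u2 c1)] at e4
    rw [e4]
    simp
  have k3 := sum_congr rfl fun c0 (_ : c0 ∈ univ) => k1 c0
  rw [sum_const, nsmul_eq_mul] at k3
  exact (mul_eq_zero.1 (k3.trans (sum_comm.trans (sum_eq_zero fun u _ => sum_comm.trans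
    (sum_eq_zero fun c _ => k2 u c))))).resolve_left (Nat.cast_ne_zero.2 Fintype.card_ne_zero)

/-- **GB-DER0** -/
theorem der0 : DER0Stmt.{u} := by
  intro F _ _ _ η a b m k n h1 h2 P f f' hP hT
  classical
  funext v
  have key : ∀ x : GL (Fin n) F, ∑ u, ∑ c, (∑ u', ∑ c', ∑ v',
      if (¬ stdS F n m ≤ imS a x ∧ stdS F n m ⊓ imS a x ≠ ⊥) ∧
        tri h2 u c v = x * tri h1 u' c' v' * x⁻¹ then (dl η n x : ℂ) * f u' * f' v' else 0) *
      conj (P u) = 0 := fun x => by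
    by_cases hx : ¬ stdS F n m ≤ imS a x ∧ stdS F n m ⊓ imS a x ≠ ⊥
    swap
    · simp [hx]
    refine van h2 hP hT hx.1 hx.2 (fun g => ∑ u', ∑ c', ∑ v',
      if (¬ stdS F n m ≤ imS a x ∧ stdS F n m ⊓ imS a x ≠ ⊥) ∧
        g = x * tri h1 u' c' v' * x⁻¹ then (dl η n x : ℂ) * f u' * f' v' else 0)
      (fun g hg w hw => ?_) (fun s s1 s2 g => ?_) v
    · obtain ⟨u', -, hg⟩ := exists_ne_zero_of_sum_ne_zero hg
      obtain ⟨c', -, hg⟩ := exists_ne_zero_of_sum_ne_zero hg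
      obtain ⟨v', -, hg⟩ := exists_ne_zero_of_sum_ne_zero hg
      obtain ⟨w', hw'⟩ := exists_emb h1 (mem_imS.1 hw)
      rw [(ite_ne_right_iff.1 hg).1.2, mem_imS, mulVec_mulVec, ← Units.val_mul, ← mul_assoc,
        ← mul_assoc, inv_mul_cancel, one_mul, Units.val_mul, ← mulVec_mulVec, ← hw', tri_emb]
      exact emb_mem h1 _
    · obtain ⟨t, ht⟩ := exists_tri_one h1 (g := x⁻¹ * s * x) (s := 1) (fun w => by
        simpa [mulVec_sub, mul_assoc] using mem_imS.1 (s1 (x.1 *ᵥ w))) fun w => by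
        rw [Units.val_mul, Units.val_mul, ← mulVec_mulVec, ← mulVec_mulVec,
          s2 _ (mem_imS.2 (by simpa using emb_mem h1 w))]
        simp
      refine sum_congr rfl fun u' _ => ?_
      rw [sum_comm, sum_comm (s := univ) (t := univ) (f := fun c' v' => if _ ∧ g = _ then _ else _)]
      refine sum_congr rfl fun v' _ => ?_
      rw [← Equiv.sum_comp (aff 1 1 (t * v'.1))]
      refine sum_congr rfl fun c' _ => if_congr (and_congr_right fun _ => ?_) rfl rfl
      have : tri h1 u' (aff 1 1 (t * v'.1) c') v' = x⁻¹ * s * x * tri h1 u' c' v' := by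
        rw [ht, tri_mul]
        simp [aff]
      rw [this, ← mul_right_inj s (b := g)]
      group
  simp only [perp1, classInner, res, cmpS, Pi.zero_apply, mul_assoc, ← mul_sum]
  refine mul_eq_zero_of_right _ (mul_eq_zero_of_right _ (mul_eq_zero_of_right _ ?_))
  simp only [sum_mul (s := (univ : Finset (Matrix (Fin m) (Fin k) F))),
    sum_mul (s := (univ : Finset (GL (Fin n) F)))]
  rw [sum_congr rfl fun u _ => sum_comm, sum_comm]
  exact sum_eq_zero fun x _ => by simpa only [mul_assoc] using key x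

end Cfsg.Agent.H70.GbDer0
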