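import Cfsg.Agent.H53.DgDefs
import Cfsg.Agent.H11.PermChar
import Cfsg.Agent.H11.Inner
import Cfsg.Agent.H12.Values

/-!
Project DG, piece HC: Harish-Chandra induction gives characters, and the inner product formula.
-/

set_option autoImplicit false
set_option linter.style.haveILetI false

namespace Cfsg.Agent.H70.DgHc

open Module Cfsg.Agent.H26 Cfsg.Agent.H78 Cfsg.Agent.H53.Dg
open scoped ComplexConjugate

section Grp

theorem ip_surj {S A B : Type} [Group S] [Group A] [Group B] [Finite S] [Finite A] [Finite B]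
    (a : S →* A) (b : S →* B) (hs : ∀ x y, ∃ s, a s = x ∧ b s = y) (ψ ψ' : A → ℂ)
    (φ φ' : B → ℂ) :
    ip (fun s => ψ (a s) * φ (b s)) (fun s => ψ' (a s) * φ' (b s)) = ip ψ ψ' * ip φ φ' := by
  unfold ip
  letI := Fintype.ofFinite S
  letI := Fintype.ofFinite A
  letI := Fintype.ofFinite B
  have hsurj : Function.Surjective (a.prod b) := by
    rintro ⟨x, y⟩
    obtain ⟨s, h1, h2⟩ := hs x y
    exact ⟨s, Prod.ext h1 h2⟩
  have h1 := H11.classInner_comp_of_surjective (a.prod b) hsurj (fun x => ψ x.1 * φ x.2)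
    (fun x => ψ' x.1 * φ' x.2)
  rw [H11.classInner_prod_mul] at h1
  exact h1

theorem ip_eq_finsum {S : Type} [Group S] [Finite S] (φ ψ : S → ℂ) :
    ip φ ψ = (Nat.card S : ℂ)⁻¹ * ∑ᶠ s, φ s * conj (ψ s) := by
  unfold ip classInner
  letI := Fintype.ofFinite S
  rw [finsum_eq_sum_of_fintype]

end Grp

section Geo

variable {F V : Type} [Field F] [AddCommGroup V] [Module F V] {P : PForm F V} {k : ℕ}
  (L : Lev P k)

theorem W_le_perp : L.W ≤ P.perp L.X := PForm.perp_anti le_sup_left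

theorem W_le_perp' : L.W ≤ P.perp L.X' := PForm.perp_anti le_sup_right

theorem eq_zero_of_mem {v : V} (hX : v ∈ L.X) (hW : v ∈ L.W) : v = 0 := by
  have : v ∈ L.X ⊓ P.perp L.X' := ⟨hX, W_le_perp' L hW⟩
  rwa [L.opp, Submodule.mem_bot] at this

theorem X_inf_W : L.X ⊓ L.W = ⊥ :=
  (Submodule.eq_bot_iff _).2 fun _ h => eq_zero_of_mem L h.1 h.2

theorem X_inf_X' : L.X ⊓ L.X' = ⊥ := by
  rw [eq_bot_iff, ← L.opp]
  exact inf_le_inf_left _ L.ts'.2

theorem perp_eq [FiniteDimensional F V] : P.perp L.X = L.X ⊔ L.W := by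
  symm
  apply Submodule.eq_of_le_of_finrank_eq (sup_le L.ts.2 (W_le_perp L))
  have h1 := Submodule.finrank_sup_add_finrank_inf_eq L.X L.W
  have h2 := Submodule.finrank_sup_add_finrank_inf_eq L.X L.X'
  rw [X_inf_W, finrank_bot] at h1
  rw [X_inf_X', finrank_bot] at h2
  have h3 := P.finrank_perp (L.X ⊔ L.X')
  have h4 := P.finrank_perp L.X
  have h5 := L.dim
  have h6 := L.dim'
  change finrank F ↥(L.X ⊔ L.X') + finrank F L.W = _ at h3
  omega

/-- The projection is determined by its defining property. -/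
theorem pr_eq {g : V ≃ₗ[F] V} (hg : g ∈ P.isom) (hX : g ∈ stabSub L.X) (v u : L.W)
    (h : g v - u ∈ L.X) : (L.pr g).1 v = u := by
  have h1 := L.pr_spec g hg hX v
  have h2 := L.X.sub_mem h h1
  rw [sub_sub_sub_cancel_left] at h2
  have h3 := eq_zero_of_mem L h2 (L.W.sub_mem ((L.pr g).1 v).2 u.2)
  exact Subtype.ext (sub_eq_zero.1 h3)

theorem pr_one : L.pr 1 = 1 := by
  apply Subtype.ext
  ext v
  rw [pr_eq L (one_mem _) (one_mem _) v v (by simp)]
  rfl

theorem stab_of_top [FiniteDimensional F V] {g : V ≃ₗ[F] V} (h : Top P L.X g) :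
    g ∈ stabSub L.X :=
  mem_stabSub.2 fun x hx => by
    have := L.X.add_mem (h x (L.ts.2 hx)) hx
    rwa [sub_add_cancel] at this

theorem pr_of_top [FiniteDimensional F V] {g : V ≃ₗ[F] V} (hg : g ∈ P.isom)
    (h : Top P L.X g) : L.pr g = 1 := by
  apply Subtype.ext
  ext v
  rw [pr_eq L hg (stab_of_top L h) v v (h v (W_le_perp L v.2))]
  rfl

theorem rs_of_rad [FiniteDimensional F V] {g : V ≃ₗ[F] V} (h : Rad P L.X g) :
    rs L.X g = 1 := by
  ext x
  rw [rs_apply (stab_of_top L h.2), h.1 x x.2]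
  rfl

/-- The restriction to `X` as a homomorphism on a subgroup of the stabilizer. -/
noncomputable def rsH (M : Subgroup P.isom) (hM : M ≤ stab P.isom L.X) : M →* (L.X ≃ₗ[F] L.X) where
  toFun h := rs L.X h.1.1
  map_one' := rs_one _
  map_mul' a b := rs_mul (hM a.2) (hM b.2)

/-- The projection as a homomorphism on a subgroup of the stabilizer. -/
noncomputable def prH (M : Subgroup P.isom) (hM : M ≤ stab P.isom L.X) : M →* L.PW.isom where
  toFun h := L.pr h.1.1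
  map_one' := pr_one L
  map_mul' a b := L.pr_mul _ a.1.2 (hM a.2) _ b.1.2 (hM b.2)

theorem isCharacter_xi {ψ : (L.X ≃ₗ[F] L.X) → ℂ} {φ : L.PW.isom → ℂ} (hψ : IsCharacter _ ψ)
    (hφ : IsCharacter _ φ) : IsCharacter (stab P.isom L.X) fun h => L.xi ψ φ h :=
  H11.isCharacter_mul (H11.isCharacter_comp hψ (rsH L _ le_rfl))
    (H11.isCharacter_comp hφ (prH L _ le_rfl))

theorem clOn_xi {ψ : (L.X ≃ₗ[F] L.X) → ℂ} {φ : L.PW.isom → ℂ} (hψ : IsCharacter _ ψ)
    (hφ : IsCharacter _ φ) : ClOn (stab P.isom L.X) (L.xi ψ φ) := fun g hg h hh =>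
  H14.IsCharacter.isClassFunction (isCharacter_xi L hψ hφ) ⟨h, hh⟩ ⟨g, hg⟩

/-- The subspace of `V` attached to a subspace of `W`. -/
def up (Y : Submodule F L.W) : Submodule F V := L.X ⊔ Y.map L.W.subtype

theorem mem_up {Y : Submodule F L.W} {v : V} : v ∈ up L Y ↔ ∃ x ∈ L.X, ∃ y ∈ Y, x + y.1 = v := by
  rw [up, Submodule.mem_sup]
  constructor
  · rintro ⟨x, hx, _, ⟨y, hy, rfl⟩, h⟩
    exact ⟨x, hx, y, hy, h⟩
  · rintro ⟨x, hx, y, hy, h⟩
    exact ⟨x, hx, _, ⟨y, hy, rfl⟩, h⟩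

theorem comap_up (Y : Submodule F L.W) : (up L Y).comap L.W.subtype = Y := by
  ext v
  rw [Submodule.mem_comap, mem_up]
  constructor
  · rintro ⟨x, hx, y, hy, h⟩
    have hx' : x = v.1 - y.1 := eq_sub_of_add_eq h
    have h0 : x = 0 := eq_zero_of_mem L hx (hx' ▸ L.W.sub_mem v.2 y.2)
    rw [h0, zero_add] at h
    have : y = v := Subtype.ext h
    rwa [← this]
  · intro hv
    exact ⟨0, zero_mem _, v, hv, zero_add _⟩

theorem up_comap [FiniteDimensional F V] {Y : Submodule F V} (hY : TS P Y) (hX : L.X ≤ Y) :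
    up L (Y.comap L.W.subtype) = Y := by
  apply le_antisymm
  · exact sup_le hX (Submodule.map_comap_le _ _)
  · intro v hv
    have h1 : v ∈ P.perp L.X := PForm.perp_anti hX (hY.2 hv)
    rw [perp_eq, Submodule.mem_sup] at h1
    obtain ⟨x, hx, y, hy, rfl⟩ := h1
    refine (mem_up L).2 ⟨x, hx, ⟨y, hy⟩, ?_, rfl⟩
    have := Y.sub_mem hv (hX hx)
    rwa [add_sub_cancel_left] at this

theorem finrank_up [FiniteDimensional F V] (Y : Submodule F L.W) :
    finrank F (up L Y) = finrank F L.X + finrank F Y := by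
  have h1 := Submodule.finrank_sup_add_finrank_inf_eq L.X (Y.map L.W.subtype)
  have h2 : L.X ⊓ Y.map L.W.subtype = ⊥ := by
    rw [eq_bot_iff, ← X_inf_W L]
    exact inf_le_inf_left _ (Submodule.map_subtype_le _ _)
  rw [h2, finrank_bot, Submodule.finrank_map_subtype_eq] at h1
  exact h1

theorem ts_up {Y : Submodule F L.W} : TS P (up L Y) ↔ TS L.PW Y := by
  constructor
  · intro h
    have hm : ∀ y ∈ Y, y.1 ∈ up L Y := fun y hy => (mem_up L).2 ⟨0, zero_mem _, y, hy, zero_add _⟩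
    exact ⟨fun y hy => h.1 _ (hm y hy), fun y hy z hz => h.2 (hm y hy) _ (hm z hz)⟩
  · intro h
    constructor
    · intro v hv
      obtain ⟨x, hx, y, hy, rfl⟩ := (mem_up L).1 hv
      exact (L.ts.1 x hx).add (h.1 y hy) (PForm.f_symm_zero (W_le_perp L y.2 x hx))
    · intro v hv v' hv'
      obtain ⟨x, hx, y, hy, rfl⟩ := (mem_up L).1 hv
      obtain ⟨x', hx', y', hy', rfl⟩ := (mem_up L).1 hv'
      have h1 : P.f y.1 y'.1 = 0 := h.2 hy y' hy'
      rw [P.f_add_left, P.f_add_right, P.f_add_right, L.ts.2 hx x' hx',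
        PForm.f_symm_zero (W_le_perp L y'.2 x hx), W_le_perp L y.2 x' hx', h1]
      simp

theorem stab_up [FiniteDimensional F V] {g : V ≃ₗ[F] V} (hg : g ∈ P.isom)
    (hX : g ∈ stabSub L.X) {Y : Submodule F L.W} :
    g ∈ stabSub (up L Y) ↔ (L.pr g).1 ∈ stabSub Y := by
  rw [mem_stabSub, mem_stabSub]
  constructor
  · intro h y hy
    have h1 := h _ ((mem_up L).2 ⟨0, zero_mem _, y, hy, zero_add _⟩)
    have h2 : g y - ((L.pr g).1 y : V) ∈ up L Y :=
      (le_sup_left : L.X ≤ up L Y) (L.pr_spec g hg hX y)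
    have h3 := (up L Y).sub_mem h1 h2
    rw [sub_sub_cancel] at h3
    rw [← comap_up L Y]
    exact h3
  · intro h v hv
    obtain ⟨x, hx, y, hy, rfl⟩ := (mem_up L).1 hv
    refine (mem_up L).2 ⟨g x + (g y - ((L.pr g).1 y : V)),
      L.X.add_mem ((hX x).1 hx) (L.pr_spec g hg hX y), _, h y hy, ?_⟩
    rw [map_add]; abel

theorem npt_eq [FiniteDimensional F V] {g : V ≃ₗ[F] V} (hg : g ∈ P.isom)
    (hX : g ∈ stabSub L.X) : npt P L.X g = npt L.PW ⊥ (L.pr g) := by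
  unfold npt
  symm
  refine Nat.card_congr
    { toFun := fun Y => ⟨up L Y.1, (ts_up L).2 Y.2.1, le_sup_left, by
        rw [finrank_up, Y.2.2.2.1, finrank_bot], (stab_up L hg hX).2 Y.2.2.2.2⟩
      invFun := fun Y => ⟨Y.1.comap L.W.subtype, ?_, bot_le, ?_, ?_⟩
      left_inv := fun Y => Subtype.ext (comap_up L Y.1)
      right_inv := fun Y => Subtype.ext (up_comap L Y.2.1 Y.2.2.1) }
  · rw [← ts_up, up_comap L Y.2.1 Y.2.2.1]; exact Y.2.1
  · have h1 := finrank_up L (Y.1.comap L.W.subtype)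
    rw [up_comap L Y.2.1 Y.2.2.1, Y.2.2.2.1] at h1
    rw [finrank_bot]
    omega
  · rw [← stab_up L hg hX, up_comap L Y.2.1 Y.2.2.1]; exact Y.2.2.2.2

theorem mem_W_of_stab [FiniteDimensional F V] {g : V ≃ₗ[F] V} (hg : g ∈ P.isom)
    (hX : g ∈ stabSub L.X) (hX' : g ∈ stabSub L.X') {v : V} (hv : v ∈ L.W) : g v ∈ L.W := by
  refine PForm.map_perp hg (W := L.X ⊔ L.X') (fun w hw => ?_) hv
  obtain ⟨x, hx, y, hy, rfl⟩ := Submodule.mem_sup.1 hw
  rw [map_add]
  exact Submodule.add_mem_sup ((inv_mem hX x).1 hx) ((inv_mem hX' y).1 hy)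

theorem conj_stab_iff [FiniteDimensional F V] {g : V ≃ₗ[F] V} :
    L.w0⁻¹ * g * L.w0 ∈ stabSub L.X ↔ g ∈ stabSub L.X' := by
  have hm : ∀ v, v ∈ L.X ↔ L.w0 v ∈ L.X' := fun v => by
    rw [← L.w0_X]
    constructor
    · intro hv; exact ⟨v, hv, rfl⟩
    · rintro ⟨u, hu, h⟩
      have : u = v := L.w0.injective h
      rwa [← this]
  rw [mem_stabSub, mem_stabSub]
  constructor
  · intro h y hy
    have h1 : L.w0⁻¹ y ∈ L.X := by rw [hm, PForm.apply_inv_apply]; exact hy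
    have h2 := h _ h1
    rw [hm, PForm.mul_apply', PForm.mul_apply', PForm.apply_inv_apply,
      PForm.apply_inv_apply] at h2
    exact h2
  · intro h x hx
    rw [hm, PForm.mul_apply', PForm.mul_apply', PForm.apply_inv_apply]
    exact h _ ((hm x).1 hx)

theorem pr_conj [FiniteDimensional F V] {g : V ≃ₗ[F] V} (hg : g ∈ P.isom)
    (hX : g ∈ stabSub L.X) (hX' : g ∈ stabSub L.X') : L.pr (L.w0⁻¹ * g * L.w0) = L.pr g := by
  apply Subtype.ext
  ext v
  have hv := mem_W_of_stab L hg hX hX' v.2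
  have h1 : (L.pr g).1 v = ⟨g v, hv⟩ := pr_eq L hg hX v _ (by simp)
  have h2 : L.w0⁻¹ (g v) = g v := by
    conv_lhs => rw [← L.w0_W _ hv]
    exact PForm.inv_apply_apply _ _
  have h3 : (L.pr (L.w0⁻¹ * g * L.w0)).1 v = ⟨g v, hv⟩ :=
    pr_eq L (mul_mem (mul_mem (inv_mem L.w0_mem) hg) L.w0_mem) ((conj_stab_iff L).2 hX') v _ (by
      rw [PForm.mul_apply', PForm.mul_apply', L.w0_W _ v.2, h2]; simp)
  rw [h1, h3]

end Geo

/-- HC (a). -/
theorem hc1 : Hc1Stmt := by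
  intro F V _ _ _ _ _ P k L ψ φ hψ hφ
  haveI : FiniteDimensional F V := Module.Finite.of_finite
  letI := Fintype.ofFinite P.isom
  have h1 : L.hc ψ φ 1 = (stab P.isom L.X).index * ψ 1 * φ 1 := by
    have := H14.indFun_one (stab P.isom L.X) fun h => L.xi ψ φ h
    refine this.trans ?_
    simp only [Lev.xi, OneMemClass.coe_one, rs_one, pr_one, mul_assoc]
  refine ⟨H14.IsCharacter.indFun _ (isCharacter_xi L hψ hφ), h1, ?_, fun g hg => npt_eq L g.2 hg⟩
  intro s t hs ht z hz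
  have hzX : z.1 ∈ stabSub L.X := mem_stabSub.2 fun x hx => by
    rw [hz]; exact L.X.neg_mem hx
  have hzc : z ∈ Subgroup.center P.isom := Subgroup.mem_center_iff.2 fun g => by
    apply Subtype.ext
    ext v
    simp only [Subgroup.coe_mul, PForm.mul_apply', hz, LinearEquiv.neg_apply, map_neg]
  have h2 := H14.indFun_of_mem_center (stab P.isom L.X) (fun h => L.xi ψ φ h) ⟨z, hzX⟩ hzc
  have h3 : rs L.X z.1 = LinearEquiv.neg F := by
    ext x
    rw [rs_apply hzX, hz]; rfl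
  have h4 : (L.pr z.1).1 = LinearEquiv.neg F := by
    ext v
    rw [pr_eq L z.2 hzX v (-v) (by rw [hz]; simp)]
    rfl
  rw [h1]
  refine h2.trans ?_
  simp only [Lev.xi]
  rw [h3, hs, ht _ h4]
  ring

/-- HC (b). -/
theorem hc2 (hN : NormStmt) : Hc2Stmt := by
  intro F V _ _ _ _ _ P k L ψ ψ' φ φ' hσ hk hψ hψ' hφ hφ' hc hm
  haveI : FiniteDimensional F V := Module.Finite.of_finite
  have hX0 : L.X ≠ ⊥ := fun h => by
    have := L.dim
    rw [h, finrank_bot] at this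
    omega
  let w : P.isom := ⟨L.w0, L.w0_mem⟩
  have h := hN F V P P.isom L.X ψ (fun g => φ (L.pr g)) (L.xi ψ' φ') w hσ PForm.E_le_isom
    (fun g hg => ⟨fun x y h => by rw [PForm.isom_f hg, h], fun x h => h.map hg⟩) L.ts hX0 hc
    (clOn_xi L hψ hφ) (clOn_xi L hψ' hφ')
    (fun h hh g _ hg => by
      rw [Subgroup.coe_mul, L.pr_mul _ h.2 hh _ g.2 (stab_of_top L hg), pr_of_top L g.2 hg,
        mul_one])
    (fun h hh g hg => by
      simp only [Lev.xi]
      rw [Subgroup.coe_mul, L.pr_mul _ h.2 hh _ g.2 (stab_of_top L hg.2), pr_of_top L g.2 hg.2,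
        mul_one, rs_mul (g := h.1) hh (stab_of_top L hg.2), rs_of_rad L hg, mul_one])
    (by rw [L.w0_X]; exact L.opp) hm
  refine h.trans ?_
  have e1 : ip (fun h : stab P.isom L.X => ψ (rs L.X h.1.1) * φ (L.pr h.1.1))
      (fun h : stab P.isom L.X => L.xi ψ' φ' h) = ip ψ ψ' * ip φ φ' :=
    ip_surj (rsH L _ le_rfl) (prH L _ le_rfl) (fun A B => by
      obtain ⟨g, hg, h1, -, h3, h4⟩ := L.surj A B
      exact ⟨⟨⟨g, hg⟩, h1⟩, h3, h4⟩) ψ ψ' φ φ'
  let M : Subgroup P.isom := stab P.isom L.X ⊓ stab P.isom L.X'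
  have e2 : ip (fun h : M => ψ (rs L.X h.1.1) * φ (L.pr h.1.1))
      (fun h : M => conj (ψ' (rs L.X h.1.1)) * φ' (L.pr h.1.1)) =
      ip ψ (fun g => conj (ψ' g)) * ip φ φ' :=
    ip_surj (rsH L M inf_le_left) (prH L M inf_le_left) (fun A B => by
      obtain ⟨g, hg, h1, h2, h3, h4⟩ := L.surj A B
      exact ⟨⟨⟨g, hg⟩, h1, h2⟩, h3, h4⟩) ψ (fun g => conj (ψ' g)) φ φ'
  let e : {h : P.isom // h ∈ stab P.isom L.X ∧ w⁻¹ * h * w ∈ stab P.isom L.X} ≃ M :=
    Equiv.subtypeEquivRight fun h => and_congr_right fun _ => conj_stab_iff L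
  rw [e1, add_mul, ← e2, ip_eq_finsum (S := M), Nat.card_congr e, mT,
    ← finsum_comp_equiv e.symm]
  congr 2
  refine congrArg finsum (funext fun h => ?_)
  have hX : h.1.1 ∈ stabSub L.X := h.2.1
  have hX' : h.1.1 ∈ stabSub L.X' := h.2.2
  have h1 : L.xi ψ' φ' (w⁻¹ * h.1 * w) = conj (ψ' (rs L.X h.1.1)) * φ' (L.pr h.1.1) := by
    change ψ' (rs L.X (L.w0⁻¹ * h.1.1 * L.w0)) * φ' (L.pr (L.w0⁻¹ * h.1.1 * L.w0)) = _
    rw [pr_conj L h.1.2 hX hX', ← H12.IsCharacter_inv hψ']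
    obtain ⟨c, hc⟩ := isConj_iff.1 (L.dual _ h.1.2 hX hX')
    rw [← hc, H14.IsCharacter.isClassFunction hψ']
  change ψ (rs L.X h.1.1) * φ (L.pr h.1.1) * conj (L.xi ψ' φ' (w⁻¹ * h.1 * w)) = _
  rw [h1]

end Cfsg.Agent.H70.DgHc
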