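import Cfsg.Agent.H53.AhKit
import Cfsg.Agent.H53.MWOrd

/-!
Project AH: the trace argument TRP and the enumeration ENUM.
-/

set_option autoImplicit false

namespace Cfsg.Agent.H70.AhTrp

open MulAction Cfsg.Agent.H12.RO Cfsg.Agent.H53.MW Cfsg.Agent.H53.AH

universe u

section Px

variable {G V K W : Type*} [Group G] [AddCommGroup V] [DistribMulAction G V] [Field K]
  [Module K V] [AddCommGroup W] [DistribMulAction G W] {σ : G →* RingAut K}
  {U To E M : Subgroup G} {π : G → W} {b : W → W → Kˣ} {e p : ℕ} {β : V →+ V →+ ZMod p}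
  (h : Px G V K W σ U To E M π b e p β)
include h

/-- conjugation by `g` multiplies the elements over a fixed vector by a sign -/
theorem exists_sign [Nontrivial V] (g : G) {w : W} (hw : g • w = w) :
    ∃ c : Kˣ, ∀ s ∈ M, π s = w → ∀ v : V, g • s • v = (c : K) • s • g • v := by
  obtain ⟨t, ht, rfl⟩ := h.pk.sec.surj w
  have key : ∀ c : K, (∀ v : V, g • t • v = c • t • g • v) →
      ∀ s ∈ M, π s = π t → ∀ v : V, g • s • v = c • s • g • v := by
    intro c hc s hs e v
    rcases h.eq_or_neg hs ht e with rfl | h1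
    · exact hc v
    · rw [h1, h1, smul_neg, hc, smul_neg]
  rcases h.eq_or_neg (h.conj_mem g ht) ht ((h.pk.sec.conj g t ht).trans hw) with h1 | h1
  · refine ⟨1, key _ fun v => ?_⟩
    rw [Units.val_one, one_smul]
    conv_rhs => rw [← h1, mul_smul, mul_smul, inv_smul_smul]
  · refine ⟨-1, key _ fun v => ?_⟩
    rw [Units.val_neg, Units.val_one, neg_smul, one_smul, ← h1, mul_smul, mul_smul, inv_smul_smul]

/-- modulo `M` every element centralizes the preimage of its fixed points -/
theorem exists_comm [Finite W] [Nontrivial V] (g : G) :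
    ∃ g' : G, (∀ w : W, g' • w = g • w) ∧
      ∀ s ∈ M, g • π s = π s → ∀ v : V, g' • s • v = s • g' • v := by
  classical
  have := h.pk.Mn
  have h0 : ∀ w : W, ∃ c : Kˣ, g • w = w →
      ∀ s ∈ M, π s = w → ∀ v : V, g • s • v = (c : K) • s • g • v := fun w => by
    by_cases hw : g • w = w
    · exact (exists_sign h g hw).imp fun c hc _ => hc
    · exact ⟨1, fun e => absurd e hw⟩
  choose χ hχ using h0
  let C : AddSubgroup W :=
    { carrier := {w | g • w = w}
      add_mem' := fun {x y} hx hy => by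
        change g • (x + y) = x + y
        rw [smul_add, show g • x = x from hx, show g • y = y from hy]
      zero_mem' := smul_zero g
      neg_mem' := fun {x} hx => by
        change g • (-x) = -x
        rw [smul_neg, show g • x = x from hx] }
  obtain ⟨a, ha⟩ := h.alt.exists_ext C χ (by
    intro x hx y hy
    obtain ⟨s, hs, rfl⟩ := h.pk.sec.surj x
    obtain ⟨t, ht, rfl⟩ := h.pk.sec.surj y
    refine unit_ext (V := V) fun v => ?_
    have h1 := hχ _ (C.add_mem hx hy) (s * t) (M.mul_mem hs ht) (h.pk.sec.mul s hs t ht)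
      (g⁻¹ • t⁻¹ • s⁻¹ • v)
    rw [mul_smul, mul_smul, hχ _ hx s hs rfl, hχ _ hy t ht rfl, h.lin] at h1
    simp only [smul_inv_smul] at h1
    rw [← h1, Units.val_mul, mul_smul])
  obtain ⟨r, hr, rfl⟩ := h.pk.sec.surj a
  refine ⟨g * r, fun w => by rw [mul_smul, h.pk.sec.smul_of_mem hr], fun s hs hw v => ?_⟩
  rw [mul_smul, mul_smul, h.swap hr hs, h.lin, hχ _ hw s hs rfl, ← ha _ hw, smul_smul,
    ← Units.val_mul, h.alt.swap, inv_mul_cancel, Units.val_one, one_smul]

/-- over the prime field an element and its inverse have the same trace -/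
theorem trace_inv [Finite V] [Finite K] [Nontrivial V] (hK : Nat.card K = p) (g : G) :
    LinearMap.trace K V (h.ρ g⁻¹) = LinearMap.trace K V (h.ρ g) := by
  have := Fact.mk h.mod.prime
  have := Fintype.ofFinite K
  have : Module.Finite K V := Module.Finite.of_finite
  let φ : ZMod p ≃+* K := ZMod.ringEquivOfPrime K h.mod.prime
    (by rw [← Nat.card_eq_fintype_card, hK])
  let L : V →ₗ[K] Module.Dual K V := LinearMap.mk₂ K (fun v w => φ (β v w))
    (fun x y z => by rw [add_left, map_add])
    (fun c x y => by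
      obtain ⟨k, rfl⟩ := h.exists_nat hK c
      rw [Nat.cast_smul_eq_nsmul, nsmul_left, map_mul, map_natCast, smul_eq_mul])
    (fun x y z => by rw [map_add, map_add])
    (fun c x y => by
      obtain ⟨k, rfl⟩ := h.exists_nat hK c
      rw [Nat.cast_smul_eq_nsmul, nsmul_right, map_mul, map_natCast, smul_eq_mul])
  have hL : Function.Injective L := (injective_iff_map_eq_zero L).2 fun v hv =>
    h.mod.nd v fun w => (map_eq_zero_iff φ φ.injective).1 (LinearMap.congr_fun hv w)
  let ε := LinearMap.linearEquivOfInjective L hL Subspace.dual_finrank_eq.symm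
  rw [← LinearMap.trace_conj' _ ε, ← LinearMap.trace_transpose' (h.ρ g)]
  congr 1
  refine LinearMap.ext fun f => ?_
  obtain ⟨v, rfl⟩ := ε.surjective f
  rw [LinearEquiv.conj_apply_apply, LinearEquiv.symm_apply_apply]
  refine LinearMap.ext fun w => ?_
  change φ (β (g⁻¹ • v) w) = φ (β v (g • w))
  rw [h.mod.toFrm.adj']

/-- the trace formula -/
theorem trace_mul [Finite V] [Finite W] [Nontrivial V] (hd : Module.finrank K V = e) (g : G)
    (hg : ∀ s ∈ M, g • π s = π s → ∀ v : V, g • s • v = s • g • v) :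
    LinearMap.trace K V (h.ρ g⁻¹) * LinearMap.trace K V (h.ρ g) = Nat.card (fixedBy W g) := by
  classical
  have := Fintype.ofFinite W
  have : Module.Finite K V := Module.Finite.of_finite
  choose t ht hπ using h.pk.sec.surj
  let B : Module.Basis W K (V →ₗ[K] V) := basisOfLinearIndependentOfCardEqFinrank'
    (fun w => h.ρ (t w)) (h.ind t ht fun x y e => by simpa only [hπ] using e) (by
      rw [Module.finrank_linearMap, hd, ← Nat.card_eq_fintype_card, h.pk.card, sq])
  have hB : ∀ w, B w = h.ρ (t w) := fun w => by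
    simp only [B, coe_basisOfLinearIndependentOfCardEqFinrank']
  have h1 := Representation.char_linHom (k := K) (h.ρ : Representation K G V) h.ρ g
  simp only [Representation.character] at h1
  rw [← h1, LinearMap.trace_eq_matrix_trace K B, Matrix.trace]
  have h2 : ∀ w, (LinearMap.toMatrix B B
      (Representation.linHom (h.ρ : Representation K G V) h.ρ g)).diag w =
      if w ∈ fixedBy W g then 1 else 0 := fun w => by
    rw [Matrix.diag_apply, LinearMap.toMatrix_apply, Representation.linHom_apply]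
    split_ifs with hw
    · have : h.ρ g ∘ₗ B w ∘ₗ h.ρ g⁻¹ = B w := LinearMap.ext fun v => by
        rw [hB]
        change g • t w • g⁻¹ • v = t w • v
        rw [hg _ (ht w) (by rw [hπ]; exact hw), smul_inv_smul]
      rw [this, B.repr_self, Finsupp.single_eq_same]
    · have hne : g • w ≠ w := hw
      rcases h.eq_or_neg (h.conj_mem g (ht w)) (ht (g • w))
        (by rw [h.pk.sec.conj g _ (ht w), hπ, hπ]) with h3 | h3
      · have : h.ρ g ∘ₗ B w ∘ₗ h.ρ g⁻¹ = B (g • w) := LinearMap.ext fun v => by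
          rw [hB, hB]
          change g • t w • g⁻¹ • v = t (g • w) • v
          rw [← h3, mul_smul, mul_smul]
        rw [this, B.repr_self, Finsupp.single_eq_of_ne' hne]
      · have : h.ρ g ∘ₗ B w ∘ₗ h.ρ g⁻¹ = -B (g • w) := LinearMap.ext fun v => by
          rw [hB, hB]
          change g • t w • g⁻¹ • v = -(t (g • w) • v)
          rw [← h3, mul_smul, mul_smul]
        rw [this, map_neg, B.repr_self, Finsupp.neg_apply, Finsupp.single_eq_of_ne' hne, neg_zero]
  simp only [h2]
  rw [Finset.sum_boole, Nat.card_eq_fintype_card, Fintype.card_subtype]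

end Px

theorem trp : TrpStmt.{u} := by
  intro G V K W _ _ _ _ _ _ _ _ _ _ _ _ _ σ U To E M π b e p β h he hK hd g hg
  obtain ⟨g', h1, h2⟩ := exists_comm h g
  have hp : p = 5 := by
    obtain ⟨f, hf, h3⟩ := h.card_K
    rw [hK] at h3
    exact (Nat.prime_dvd_prime_iff_eq h.mod.prime (by norm_num)).1
      (h3 ▸ dvd_pow_self p hf.ne')
  have h3 := trace_mul h (hd.trans he.symm) g' fun s hs e => h2 s hs ((h1 _).symm.trans e)
  have h4 : fixedBy W g' = fixedBy W g := Set.ext fun w => by
    rw [mem_fixedBy, mem_fixedBy, h1]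
  rw [trace_inv h (hK.trans hp.symm), h4, hg] at h3
  have := Fintype.ofFinite K
  let φ : ZMod 5 ≃+* K := ZMod.ringEquivOfPrime K (by norm_num)
    (by rw [← Nat.card_eq_fintype_card, hK])
  obtain ⟨x, hx⟩ := φ.surjective (LinearMap.trace K V (h.ρ g'))
  rw [← hx, ← map_mul, ← map_natCast φ, φ.injective.eq_iff] at h3
  have h5 : ∀ x : ZMod 5, x * x ≠ ((8 : ℕ) : ZMod 5) := by decide
  exact h5 x h3

theorem num (e : ℕ) (he : 16 ≤ e) : 6 * e ^ 8 < 5 ^ (e + 1) := by
  induction e, he using Nat.le_induction with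
  | base => norm_num
  | succ e he ih =>
    have h1 : (16 * (e + 1)) ^ 8 ≤ (17 * e) ^ 8 := Nat.pow_le_pow_left (by omega) 8
    rw [mul_pow, mul_pow] at h1
    rw [pow_succ 5 (e + 1)]
    omega

theorem enum (hc : H53.AH.CntStmt.{u}) (ht : TrpStmt.{u}) (ho : O64Stmt.{u}) : EnumStmt.{u} := by
  intro G V K W _ _ _ _ _ _ _ _ _ _ _ _ _ σ U To E M π b e p β h
  have h1 : Nat.card V ≤ 6 * e ^ 2 * Nat.card (img G W) := by
    have h2 := hc G V p β h.mod
    have h3 : Nat.card U ≤ 2 := Nat.le_of_dvd two_pos h.card_U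
    beta_reduce at h2
    rw [h.card_img, h.card_G] at h2
    calc Nat.card V ≤ 3 * (Nat.card U * e ^ 2 * Nat.card (img G W)) := h2
      _ ≤ 3 * (2 * e ^ 2 * Nat.card (img G W)) := by gcongr
      _ = _ := by ring
  have h5 := h.mod.ge
  have hK : 5 ≤ Nat.card K := by
    obtain ⟨f, hf, h3⟩ := h.card_K
    rw [h3]
    exact h5.trans (Nat.le_self_pow hf.ne' p)
  have hV := h.card_V
  have hle := h.pk.le
  obtain ⟨k, hk⟩ := h.e_pow
  rcases k with _ | _ | _ | _ | k
  · exfalso
    have : Subsingleton W := (Nat.card_eq_one_iff_unique.1 (by rw [h.pk.card, hk]; rfl)).1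
    have h2 : Nat.card (img G W) = 1 := Nat.card_of_subsingleton 1
    have h3 := h.mod.sq_le
    rw [h2, hk] at h1
    nlinarith
  · exact Or.inl hk
  · exact Or.inr hk
  · exfalso
    have he : e = 8 := hk
    subst he
    obtain ⟨h2, h3⟩ := ho G W h.pk.cr (by rw [h.pk.card]; rfl) h.sm
    have h4 : Nat.card K ^ 8 ≤ Nat.card V := hV ▸ Nat.pow_le_pow_right (by omega) hle
    have h6 : Nat.card K = 5 := by
      by_contra hne
      have : 6 ^ 8 ≤ Nat.card K ^ 8 := Nat.pow_le_pow_left (by omega) 8
      omega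
    have h7 : Module.finrank K V = 8 := by
      by_contra hne
      have : 5 ^ 9 ≤ Nat.card V := by
        rw [hV, h6]
        exact Nat.pow_le_pow_right (by norm_num) (by omega)
      omega
    rw [h6] at h4
    obtain ⟨g, hg⟩ := h3 (by omega)
    exact ht G V K W σ U To E M π b 8 p β h rfl h6 h7 g hg
  · exfalso
    have he : 16 ≤ e := by
      rw [hk]
      exact Nat.pow_le_pow_right (n := 2) two_pos (show 4 ≤ k + 1 + 1 + 1 + 1 by omega)
    have : Nontrivial W := Finite.one_lt_card_iff_nontrivial.1 (by rw [h.pk.card]; nlinarith)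
    have h2 := ord_base h.pk.cr
    rw [h.pk.card] at h2
    have h3 : 5 ^ e ≤ Nat.card V := hV ▸ (Nat.pow_le_pow_left hK e).trans
      (Nat.pow_le_pow_right (by omega) hle)
    have h4 := num e he
    have h6 : 6 * e ^ 2 * (5 * Nat.card (img G W)) ≤ 6 * e ^ 2 * (e ^ 2) ^ 3 := by gcongr
    have h7 : 6 * e ^ 2 * (e ^ 2) ^ 3 = 6 * e ^ 8 := by ring
    have h8 : 6 * e ^ 2 * (5 * Nat.card (img G W)) = 5 * (6 * e ^ 2 * Nat.card (img G W)) := by ring
    rw [pow_succ 5 e] at h4
    omega

end Cfsg.Agent.H70.AhTrp
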