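import Cfsg.Agent.H9.C3Defs
import Cfsg.Agent.H8.SylowIn

/-!
Project C3, piece SCF: the elementary abelian group of order 256 is strongly closed.
-/

set_option autoImplicit false

namespace Cfsg.Agent.H70.C3Scf

open Subgroup Cfsg.Agent.H62 Cfsg.Agent.H9.C3 Cfsg.Agent.H8
open scoped Pointwise

universe u

variable {G : Type u} [Group G]

theorem mem_C1 {x g : G} : g ∈ C1 x ↔ x * g = g * x := by
  rw [mem_centralizer_iff]
  simp

theorem nm_conj {A : Subgroup G} {t a : G} (ht : t ∈ Nm A) (ha : a ∈ A) : t * a * t⁻¹ ∈ A :=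
  (mem_normalizer_iff.1 ht a).1 ha

theorem ks_conj {A : Subgroup G} (h : KS A) (g : G) : KS (MulAut.conj g • A) where
  ea := h.ea.conj g
  card := by rw [card_conj_smul, h.card]
  cen := by
    rw [centralizer_conj_smul]
    exact pointwise_smul_le_pointwise_smul_iff.2 h.cen
  al t ht hA h2 := by
    rw [Nm, normalizer_conj_smul, mem_conj_smul] at ht
    rw [mem_conj_smul] at hA h2
    have h3 := h.al _ ht hA (by
      have : g⁻¹ * t * g * (g⁻¹ * t * g) = g⁻¹ * (t * t) * g := by group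
      rwa [this])
    have h4 : (MulAut.conj g • A ⊓ C1 t : Subgroup G) =
        MulAut.conj g • (A ⊓ C1 (g⁻¹ * t * g)) := by
      ext y
      rw [mem_conj_smul, mem_inf, mem_inf, mem_conj_smul, mem_C1, mem_C1]
      refine and_congr_right fun _ => ⟨fun h => ?_, fun h => ?_⟩
      · calc g⁻¹ * t * g * (g⁻¹ * y * g) = g⁻¹ * (t * y) * g := by group
          _ = g⁻¹ * y * g * (g⁻¹ * t * g) := by rw [h]; group
      · calc t * y = g * (g⁻¹ * t * g * (g⁻¹ * y * g)) * g⁻¹ := by group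
          _ = y * t := by rw [h]; group
    rw [h4, card_conj_smul]
    exact h3
  be E h1 h2 h3 := by
    have h4 := h.be (MulAut.conj g⁻¹ • E) (by
      rw [← conj_inv_smul_conj_smul A g]
      exact pointwise_smul_le_pointwise_smul_iff.2 h1) (by
      intro y hy
      rw [mem_conj_smul, inv_inv] at hy
      have := h2 hy
      rw [Nm, normalizer_conj_smul, conj_mem_conj_smul] at this
      exact this) (by
      intro y hy
      rw [mem_conj_smul, inv_inv] at hy
      have h5 := h3 _ hy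
      have : g * y * g⁻¹ * (g * y * g⁻¹) = g * (y * y) * g⁻¹ := by group
      rwa [this, conj_mem_conj_smul] at h5)
    rw [← relIndex_pointwise_smul (MulAut.conj g), conj_smul_conj_inv_smul] at h4
    exact h4

variable [Finite G]

/-- An elementary abelian subgroup of `N(A)` meets `A` in index at most 4. -/
theorem card_le_four {A Y : Subgroup G} (h : KS A) (hY : EA Y) (hn : Y ≤ Nm A) :
    Nat.card Y ≤ Nat.card (A ⊓ Y : Subgroup G) * 4 := by
  have h1 := h.be (A ⊔ Y) le_sup_left (sup_le le_normalizer hn) (by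
    intro g hg
    have hg' : g ∈ ((A ⊔ Y : Subgroup G) : Set G) := hg
    rw [coe_mul_of_right_le_normalizer_left A Y hn] at hg'
    obtain ⟨a, ha, y, hy, rfl⟩ := hg'
    have : a * y * (a * y) = a * (y * a * y⁻¹) * (y * y) := by group
    change a * y * (a * y) ∈ A
    rw [this, hY y hy, mul_one]
    exact A.mul_mem ha (nm_conj (hn hy) ha))
  have h2 : A.relIndex Y ≤ A.relIndex (A ⊔ Y) :=
    relIndex_le_of_le_right le_sup_right (by
      rw [relIndex]; exact index_ne_zero_of_finite)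
  rw [card_eq_card_mul_relIndex (inf_le_right : A ⊓ Y ≤ Y), inf_relIndex_right]
  exact Nat.mul_le_mul_left _ (h2.trans h1)

theorem eq_of_le_nm {A B : Subgroup G} (hA : KS A) (hB : KS B) (hn : B ≤ Nm A) : B = A := by
  have hle : B ≤ A := by
    intro b hb
    by_contra hbA
    have h1 := card_le_four hA hB.ea hn
    have h2 := hA.al b (hn hb) hbA (by rw [hB.ea b hb]; exact A.one_mem)
    have h3 : Nat.card (A ⊓ B : Subgroup G) ≤ Nat.card (A ⊓ C1 b : Subgroup G) :=
      card_le_of_le (inf_le_inf_left _ fun y hy => mem_C1.2 (hB.ea.comm hb hy))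
    rw [hB.card] at h1
    omega
  exact eq_of_le_of_card_ge hle (by rw [hA.card, hB.card])

theorem le_nm {A R : Subgroup G} (hA : KS A) (hR : IsPGroup 2 R) (hAR : A ≤ R) : R ≤ Nm A := by
  by_contra hc
  have hlt : R ⊓ Nm A < R := lt_of_le_of_ne inf_le_left fun h => hc (h ▸ inf_le_right)
  obtain ⟨g, hg, hgn⟩ := SetLike.exists_of_lt (lt_inf_normalizer_of_lt hR hlt)
  apply hgn
  refine ⟨hg.1, mem_normalizer_iff_conj_smul_eq.2 (eq_of_le_nm hA (ks_conj hA g) ?_)⟩
  have h1 : MulAut.conj g • A ≤ MulAut.conj g • (R ⊓ Nm A) :=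
    pointwise_smul_le_pointwise_smul_iff.2 (le_inf hAR le_normalizer)
  rw [mem_normalizer_iff_conj_smul_eq.1 hg.2] at h1
  exact h1.trans inf_le_right

/-- For an involution `t` in `N(A) \ A`: `C_A(t) = [A,t]` has order 16. -/
theorem comm_surj {A : Subgroup G} (hA : KS A) {t : G} (ht : t ∈ Nm A) (htA : t ∉ A)
    (h2 : t * t = 1) : Nat.card (A ⊓ C1 t : Subgroup G) = 16 ∧
      (∀ a ∈ A, a * t * a⁻¹ * t⁻¹ ∈ A ⊓ C1 t) ∧
      ∀ w ∈ A ⊓ C1 t, ∃ a ∈ A, a * t * a⁻¹ = w * t := by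
  have hm : ∀ a ∈ A, a * t * a⁻¹ * t⁻¹ ∈ A := fun a ha => by
    have := A.mul_mem ha (nm_conj ht (A.inv_mem ha))
    rwa [← mul_assoc, ← mul_assoc] at this
  have hti : t⁻¹ = t := inv_eq_of_mul_eq_one_right h2
  have hc : ∀ a ∈ A, a * t * a⁻¹ * t⁻¹ ∈ A ⊓ C1 t := fun a ha => by
    refine ⟨hm a ha, mem_C1.2 ?_⟩
    have h3 := hA.ea.comm ha (nm_conj ht ha)
    rw [hA.ea.inv ha, hti] at *
    calc t * (a * t * a * t) = (t * a * t) * a * t := by group
      _ = a * (t * a * t) * t := by rw [← h3]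
      _ = a * t * a * t * t := by group
  let d : A →* G :=
    { toFun := fun a => a * t * a⁻¹ * t⁻¹
      map_one' := by simp
      map_mul' := fun a b => by
        have h3 := hA.ea.comm (hm b b.2) (nm_conj ht (A.inv_mem a.2))
        simp only [Subgroup.coe_mul, Subgroup.coe_inv]
        calc (a : G) * b * t * ((a : G) * b)⁻¹ * t⁻¹
            = a * ((b * t * (b : G)⁻¹ * t⁻¹) * (t * (a : G)⁻¹ * t⁻¹)) := by group
          _ = a * t * (a : G)⁻¹ * t⁻¹ * (b * t * (b : G)⁻¹ * t⁻¹) := by rw [h3]; group }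
  have hr : d.range ≤ A ⊓ C1 t := by
    rintro _ ⟨a, rfl⟩
    exact hc a a.2
  have hk : d.ker = (A ⊓ C1 t).subgroupOf A := by
    ext a
    rw [MonoidHom.mem_ker, mem_subgroupOf, mem_inf, mem_C1]
    change (a : G) * t * (a : G)⁻¹ * t⁻¹ = 1 ↔ _
    constructor
    · intro h
      refine ⟨a.2, ?_⟩
      calc t * a = (a * t * (a : G)⁻¹ * t⁻¹) * (t * a) := by rw [h, one_mul]
        _ = a * t := by group
    · rintro ⟨-, h⟩
      rw [← h]; group
  have h16 := hA.al t ht htA (by rw [h2]; exact A.one_mem)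
  have h4 : Nat.card d.ker = Nat.card (A ⊓ C1 t : Subgroup G) := by
    rw [hk]
    exact Nat.card_congr (subgroupOfEquivOfLe inf_le_left).toEquiv
  have h5 : Nat.card d.ker * Nat.card d.range = 256 := by
    rw [← index_ker, card_mul_index, hA.card]
  have h6 := card_le_of_le hr
  rw [h4] at h5
  have h7 : 16 ≤ Nat.card d.range := by nlinarith
  have h8 : d.range = A ⊓ C1 t := eq_of_le_of_card_ge hr (by omega)
  refine ⟨by omega, hc, fun w hw => ?_⟩
  rw [← h8] at hw
  obtain ⟨a, rfl⟩ := hw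
  refine ⟨a, a.2, ?_⟩
  change _ = (a : G) * t * (a : G)⁻¹ * t⁻¹ * t
  group

theorem exists_conj {H K M : Subgroup G} (hH : IsPGroup 2 H) (hK : IsPGroup 2 K) (hHM : H ≤ M)
    (hKM : K ≤ M) : ∃ m ∈ M, ∃ R : Subgroup G, IsPGroup 2 R ∧ MulAut.conj m • H ≤ R ∧ K ≤ R := by
  obtain ⟨R, hR, hKR⟩ := exists_isSylowIn_ge hK hKM
  obtain ⟨m, hm, h⟩ := hR.exists_conj_le hH hHM
  exact ⟨m, hm, R, hR.isPGroup, h, hKR⟩

theorem not_mem (hP : P3 G) {A B : Subgroup G} (hA : KS A) (hB : KS B) {t : G} (ht : t ∈ Nm A)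
    (htB : t ∈ B) : t ∈ A := by
  by_contra htA
  have h2 : t * t = 1 := hB.ea t htB
  obtain ⟨h16, hc, hs⟩ := comm_surj hA ht htA h2
  set Y := A ⊓ C1 t with hY
  have eY : EA Y := hA.ea.mono inf_le_left
  have eQ : EA (Y ⊔ zpowers t) := eY.sup (ea_zpowers h2) fun y hy z hz => by
    obtain ⟨k, rfl⟩ := mem_zpowers_iff.1 hz
    exact ((Commute.symm (mem_C1.1 hy.2)).zpow_right k).eq
  have htQ : t ∈ Y ⊔ zpowers t := mem_sup_right (mem_zpowers t)
  obtain ⟨c, hc1, R, hR, hBR, hQR⟩ := exists_conj (M := C1 t) hB.ea.isPGroup eQ.isPGroup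
    (fun b hb => mem_C1.2 (hB.ea.comm htB hb)) (fun y hy => mem_C1.2 (eQ.comm htQ hy))
  have hB' := ks_conj hB c
  have htB' : t ∈ MulAut.conj c • B := by
    rw [mem_conj_smul, mul_assoc, mem_C1.1 hc1, inv_mul_cancel_left]
    exact htB
  generalize MulAut.conj c • B = B' at hB' htB' hBR
  have hYn : Y ≤ Nm B' := (le_sup_left.trans hQR).trans (le_nm hB' hR hBR)
  have h4 := card_le_four hB' eY hYn
  have hYB : Y ≤ B' := by
    intro w hw
    by_contra hwB
    have hw2 : w * w = 1 := eY w hw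
    have htw : t * w = w * t := mem_C1.1 hw.2
    obtain ⟨a, ha, ha'⟩ := hs w hw
    obtain ⟨b, hb, hb'⟩ := (comm_surj hB' (hYn hw) hwB hw2).2.2 t ⟨htB', mem_C1.2 htw.symm⟩
    refine hP (B' ⊓ Y) a b t w (eY.mono inf_le_right) (by omega) (hA.ea a ha) (hB'.ea b hb)
      (fun d hd => hA.ea.comm ha hd.2.1) (fun d hd => hB'.ea.comm hb hd.1) h2 hw2 htw
      (fun h => hwB (h ▸ B'.one_mem)) (by rw [ha', htw]) ?_ (by rw [hb', htw]) ?_
    · rw [hA.ea.comm ha hw.1, mul_inv_cancel_right]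
    · rw [hB'.ea.comm hb htB', mul_inv_cancel_right]
  have hQB : Y ⊔ zpowers t ≤ B' := sup_le hYB (zpowers_le.2 htB')
  have hAn : A ≤ Nm (Y ⊔ zpowers t) := fun a ha => by
    apply mem_normalizer_of_conj_smul_le
    rw [smul_sup]
    refine sup_le (fun y hy => mem_sup_left ?_) ?_
    · rw [mem_conj_smul] at hy
      have hyA : y ∈ A := by
        have := A.mul_mem (A.mul_mem ha hy.1) (A.inv_mem ha)
        simpa [mul_assoc] using this
      rwa [mul_assoc, hA.ea.comm hyA ha, inv_mul_cancel_left] at hy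
    · intro y hy
      rw [mem_conj_smul] at hy
      obtain ⟨k, hk⟩ := mem_zpowers_iff.1 hy
      have h5 : y = (a * t * a⁻¹) ^ k := by rw [conj_zpow, hk]; group
      have h6 : a * t * a⁻¹ = a * t * a⁻¹ * t⁻¹ * t := by group
      rw [h5, h6]
      exact zpow_mem (mul_mem (mem_sup_left (hc a ha)) htQ) k
  have hBn : B' ≤ Nm (Y ⊔ zpowers t) := fun b hb =>
    centralizer_le_normalizer _ fun y hy => hB'.ea.comm (hQB hy) hb
  obtain ⟨n, hn, R', hR', h1, h2'⟩ := exists_conj hA.ea.isPGroup hB'.ea.isPGroup hAn hBn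
  have h7 := eq_of_le_nm (ks_conj hA n) hB' (h2'.trans (le_nm (ks_conj hA n) hR' h1))
  have h8 : n * t * n⁻¹ ∈ B' := hQB (nm_conj hn htQ)
  rw [h7, conj_mem_conj_smul] at h8
  exact htA h8

/-- SCF. -/
theorem scf : SCFStmt.{u} := by
  intro G _ _ hP S A hA hAS
  refine ⟨hAS, fun x hx g hg => ?_⟩
  exact not_mem hP hA (ks_conj hA g) (le_nm hA S.isPGroup' hAS hg) (conj_mem_conj_smul.2 hx)

end Cfsg.Agent.H70.C3Scf
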