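import Mathlib
import Cfsg.Agent.H99.E72Defs

/-!
# Fixed spaces of elements of order five
-/

set_option autoImplicit false

namespace Cfsg.Agent.H70.E72Five

open Cfsg.Agent.H99.E72 Module Subgroup

variable {Γ : Type} [Group Γ]

theorem mem_fix (A : EV) (v : V) : v ∈ LinearMap.ker (1 - A) ↔ A v = v := by
  rw [LinearMap.mem_ker, LinearMap.sub_apply, Module.End.one_apply, sub_eq_zero, eq_comm]

theorem fd_pow (ρ : Γ →* EV) (z : Γ) (k : ℕ) : fd (ρ z) ≤ fd (ρ (z ^ k)) := by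
  refine Submodule.finrank_mono fun v hv => ?_
  rw [mem_fix] at hv ⊢
  induction k with
  | zero => simp
  | succ k ih => rw [pow_succ, map_mul, Module.End.mul_apply, hv, ih]

theorem fd_conj (ρ : Γ →* EV) (h g : Γ) : fd (ρ (h * g * h⁻¹)) ≤ fd (ρ g) := by
  refine le_trans (Submodule.finrank_mono (t := (LinearMap.ker (1 - ρ g)).map (ρ h)) fun v hv => ?_)
    (Submodule.finrank_map_le _ _)
  rw [mem_fix] at hv
  refine ⟨ρ h⁻¹ v, (mem_fix _ _).2 ?_, ?_⟩
  · conv_rhs => rw [← hv]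
    rw [← Module.End.mul_apply, ← Module.End.mul_apply, ← map_mul, ← map_mul]
    congr 2; group
  · rw [← Module.End.mul_apply, ← map_mul, mul_inv_cancel, map_one, Module.End.one_apply]

theorem pow_mod5 {a : Γ} (h : a ^ 5 = 1) (n : ℕ) : a ^ n = a ^ (n % 5) := pow_eq_pow_mod n h

/-- The group generated by two commuting elements of order five. -/
def PP {x y : Γ} (h : P25 x y) : Subgroup Γ where
  carrier := {z | ∃ i j : ℕ, z = x ^ i * y ^ j}
  one_mem' := ⟨0, 0, by simp⟩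
  mul_mem' := by
    rintro _ _ ⟨i, j, rfl⟩ ⟨k, l, rfl⟩
    have c : Commute x y := h.ab
    exact ⟨i + k, j + l, by rw [pow_add, pow_add, (c.symm.pow_pow j k).mul_mul_mul_comm]⟩
  inv_mem' := by
    rintro _ ⟨i, j, rfl⟩
    have c : Commute x y := h.ab
    refine ⟨4 * i, 4 * j, inv_eq_of_mul_eq_one_right ?_⟩
    rw [(c.symm.pow_pow j (4 * i)).mul_mul_mul_comm, ← pow_add, ← pow_add,
      show i + 4 * i = 5 * i by ring, show j + 4 * j = 5 * j by ring, pow_mul, pow_mul, h.a5, h.b5]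
    simp

theorem PP_grp {x y : Γ} (h : P25 x y) : IsPGroup 5 (PP h) := by
  rintro ⟨_, i, j, rfl⟩
  have c : Commute x y := h.ab
  refine ⟨1, Subtype.ext ?_⟩
  change (x ^ i * y ^ j) ^ 5 ^ 1 = 1
  rw [pow_one, (c.pow_pow i j).mul_pow, ← pow_mul, ← pow_mul, mul_comm i, mul_comm j, pow_mul,
    pow_mul, h.a5, h.b5]
  simp

theorem PP_card [Finite Γ] {x y : Γ} (h : P25 x y) : 25 ≤ Nat.card (PP h) := by
  have c : Commute x y := h.ab
  have := Nat.card_le_card_of_injective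
    (fun p : Fin 5 × Fin 5 => (⟨x ^ p.1.1 * y ^ p.2.1, _, _, rfl⟩ : PP h)) (by
      rintro ⟨i, j⟩ ⟨k, l⟩ e
      have e1 : x ^ i.1 * y ^ j.1 = x ^ k.1 * y ^ l.1 := congrArg Subtype.val e
      have e2 : x ^ ((i.1 + 4 * k.1) % 5) * y ^ ((j.1 + 4 * l.1) % 5) = 1 := by
        rw [← pow_mod5 h.a5, ← pow_mod5 h.b5, pow_add, pow_add,
          ← (c.symm.pow_pow j (4 * k)).mul_mul_mul_comm, e1,
          (c.symm.pow_pow l (4 * k)).mul_mul_mul_comm, ← pow_add, ← pow_add,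
          show k.1 + 4 * k.1 = 5 * k.1 by ring, show l.1 + 4 * l.1 = 5 * l.1 by ring, pow_mul,
          pow_mul, h.a5, h.b5]
        simp
      have e3 := h.ind _ (Nat.mod_lt _ (by norm_num)) _ (Nat.mod_lt _ (by norm_num)) e2
      ext <;> dsimp only <;> omega)
  simpa using this

theorem conj_PP [Finite Γ] (hn : ¬ 125 ∣ Nat.card Γ) {x y : Γ} (h : P25 x y) {g : Γ}
    (hg : g ^ 5 = 1) : ∃ k, k * g * k⁻¹ ∈ PP h := by
  have : Fact (Nat.Prime 5) := ⟨by norm_num⟩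
  obtain ⟨S, hS⟩ := (PP_grp h).exists_le_sylow
  obtain ⟨n, hn'⟩ := S.2.exists_card_eq
  have h2 : n ≤ 2 := by
    by_contra a
    exact hn (((pow_dvd_pow 5 (show 3 ≤ n by omega)).trans (hn' ▸ card_subgroup_dvd_card _)))
  have h3 : PP h = S := eq_of_le_of_card_ge hS (by
    rw [hn']; exact (Nat.pow_le_pow_right (by norm_num) h2).trans (PP_card h))
  have hp : IsPGroup 5 (zpowers g) := by
    rintro ⟨_, i, rfl⟩
    refine ⟨1, Subtype.ext ?_⟩
    change (g ^ i) ^ 5 ^ 1 = 1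
    rw [pow_one, ← zpow_natCast, ← zpow_mul, mul_comm, zpow_mul, zpow_natCast, hg, one_zpow]
  obtain ⟨Q, hQ⟩ := hp.exists_le_sylow
  obtain ⟨k, hk⟩ := MulAction.exists_smul_eq Γ Q S
  refine ⟨k, ?_⟩
  rw [h3, ← hk]
  exact Subgroup.smul_mem_pointwise_smul _ (MulAut.conj k) _ (hQ (mem_zpowers _))

theorem five : FiveStmt := by
  intro Γ _ _ hn ρ x y h hx hy g hg
  have c : Commute x y := h.ab
  obtain ⟨k, i, j, e⟩ := conj_PP hn h hg
  refine le_trans ?_ (fd_conj ρ k g)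
  rw [e, pow_mod5 h.a5, pow_mod5 h.b5]
  have hi : i % 5 < 5 := Nat.mod_lt _ (by norm_num)
  have hj : j % 5 < 5 := Nat.mod_lt _ (by norm_num)
  generalize i % 5 = a at hi
  generalize j % 5 = b at hj
  have : ∀ a < 5, ∀ b < 5, b = 0 ∨ ∃ l < 5, l * b % 5 = a := by decide
  rcases this a hi b hj with rfl | ⟨l, hl, rfl⟩
  · rw [pow_zero, mul_one]; exact hx.trans (fd_pow ρ x a)
  · rw [← pow_mod5 h.a5, pow_mul, ← (c.pow_left l).mul_pow]
    exact (hy l hl).trans (fd_pow ρ _ b)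

end Cfsg.Agent.H70.E72Five
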