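import Mathlib
import Cfsg.Agent.H50.E72Defs
import Cfsg.Agent.S1054

/-!
# The representation of `E₇` of dimension 56 in characteristic two
-/

set_option autoImplicit false
set_option maxRecDepth 100000

namespace Cfsg.Agent.H70.E72Rep

open Cfsg.Lie Cfsg.Agent.H50.E72 Cfsg.Agent.H37 Cfsg.Agent.H34 Cfsg.Agent.H29
open scoped Matrix

variable {F : Type} [Field F]

theorem JJ : J56 F * J56 F = 1 := by
  ext a b
  simp only [J56, Matrix.mul_apply, Matrix.of_apply, ite_mul, one_mul, zero_mul]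
  rw [Finset.sum_ite_eq', if_pos (Finset.mem_univ _), Fin.rev_rev, Matrix.one_apply]
  exact if_congr eq_comm rfl rfl

theorem inv_ex {A : M56 F} (h : Aᵀ * J56 F * A = J56 F) : ∃ B : M56 F, B * A = 1 ∧ A * B = 1 := by
  have : (J56 F * (Aᵀ * J56 F)) * A = 1 := by rw [Matrix.mul_assoc, h, JJ]
  exact ⟨_, this, mul_eq_one_comm.1 this⟩

theorem rel_one : Rel F 1 1 := ⟨fun v => by simp, by simp⟩

theorem rel_mul {g h : chevE7.group F} {A B : M56 F} (a : Rel F g A) (b : Rel F h B) :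
    Rel F (g * h) (A * B) := by
  refine ⟨fun v => ?_, ?_⟩
  · rw [Matrix.mul_assoc, b.1, ← Matrix.mul_assoc, a.1, Matrix.mulVec_mulVec, Matrix.mul_assoc]
    rfl
  · rw [Matrix.transpose_mul]
    calc Bᵀ * Aᵀ * J56 F * (A * B) = Bᵀ * (Aᵀ * J56 F * A) * B := by simp only [Matrix.mul_assoc]
      _ = J56 F := by rw [a.2, b.2]

theorem rel_inv {g : chevE7.group F} {A B : M56 F} (a : Rel F g A) (h1 : B * A = 1)
    (h2 : A * B = 1) : Rel F g⁻¹ B := by
  refine ⟨fun v => ?_, ?_⟩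
  · have e := a.1 ((g⁻¹).1.1 *ᵥ v)
    have e' : g.1.1 *ᵥ (g⁻¹).1.1 *ᵥ v = v := by
      rw [Matrix.mulVec_mulVec]
      have : g.1.1 * (g⁻¹).1.1 = (g * g⁻¹).1.1 := rfl
      rw [this, mul_inv_cancel]; simp
    rw [e'] at e
    calc B * ρ56 F v = B * (ρ56 F v * A) * B := by
          rw [Matrix.mul_assoc, Matrix.mul_assoc, h2, Matrix.mul_one]
      _ = _ := by rw [← e, ← Matrix.mul_assoc, h1, Matrix.one_mul]
  · calc Bᵀ * J56 F * B = Bᵀ * (Aᵀ * J56 F * A) * B := by rw [a.2]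
      _ = (A * B)ᵀ * J56 F * (A * B) := by
          rw [Matrix.transpose_mul]; simp only [Matrix.mul_assoc]
      _ = J56 F := by rw [h2]; simp

/-- The elements that act on the module. -/
def SS (F : Type) [Field F] : Subgroup (chevE7.group F) where
  carrier := {g | ∃ A, Rel F g A}
  one_mem' := ⟨1, rel_one⟩
  mul_mem' := fun ⟨_, a⟩ ⟨_, b⟩ => ⟨_, rel_mul a b⟩
  inv_mem' := fun ⟨_, a⟩ => let ⟨B, h1, h2⟩ := inv_ex a.2; ⟨B, rel_inv a h1 h2⟩

theorem sr_lt : ∀ r ∈ sr14, r < chevE7.nroots := by decide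

theorem rel_uniq [CharP F 2] (hS : SchStmt) {g : chevE7.group F} {A B : M56 F} (a : Rel F g A)
    (b : Rel F g B) : A = B := by
  obtain ⟨C, h1, h2⟩ := inv_ex b.2
  have h := rel_mul (rel_inv b h1 h2) a
  rw [inv_mul_cancel] at h
  have e := (hS F).1 (C * A) (fun r hr => by
    have := h.1 (eV chevE7 F r)
    rwa [show ((1 : chevE7.group F).1.1) = 1 from rfl, Matrix.one_mulVec, ρ56,
      rhoT_eV (sr_lt r hr)] at this) h.2
  calc A = B * C * A := by rw [h2, Matrix.one_mul]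
    _ = B := by rw [Matrix.mul_assoc, e, Matrix.mul_one]

theorem rep (hG : GenStmt) (hX : RelXStmt) (hS : SchStmt) : RepStmt := by
  intro F _ _
  have h : ∀ g, ∃ A, Rel F g A := fun g => by
    have : g ∈ SS F := by rw [hG F (SS F) fun r hr t => ⟨_, hX F r hr t⟩]; trivial
    exact this
  choose f hf using h
  exact ⟨⟨⟨f, rel_uniq hS (hf 1) rel_one⟩, fun g h => rel_uniq hS (hf _) (rel_mul (hf g) (hf h))⟩,
    fun g A => ⟨fun a => rel_uniq hS a (hf g), fun e => e ▸ hf g⟩⟩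

theorem good (hR : RepStmt) (hX : RelXStmt) (hS : SchStmt) (hT : TorStmt) : GoodStmt := by
  obtain ⟨π, hπ⟩ := hR (ZMod 2)
  have hr : ∀ g, Rel (ZMod 2) g (π g) := fun g => (hπ g _).2 rfl
  have nf : ∀ v : Fin 56 → ZMod 2, (∀ g, π g *ᵥ v = v) → v = 0 := fun v hv =>
    (hS (ZMod 2)).2 v fun r hr' => by
      have := hv (C7.xg (ZMod 2) r 1)
      rwa [← (hπ _ _).1 (hX (ZMod 2) r hr' 1), one_smul, Matrix.add_mulVec, Matrix.one_mulVec,
        add_eq_left] at this
  refine ⟨π, ?_, nf, fun g => (hr g).2, hT π hr⟩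
  have hs : IsSimpleGroup G0 := (S1054.result chevE7 (by simp)).1
  rcases hs.eq_bot_or_eq_top_of_normal π.ker inferInstance with e | e
  · exact (MonoidHom.ker_eq_bot_iff π).1 e
  · have := nf 1 fun g => by
      rw [show π g = 1 from (e ▸ Subgroup.mem_top g : g ∈ π.ker), Matrix.one_mulVec]
    exact absurd (congrFun this 0) (by decide)

end Cfsg.Agent.H70.E72Rep
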