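import Cfsg.Agent.H6.E82Defs
import Cfsg.Agent.S1054

/-! Project E82, piece CASEA: a maximal subgroup with socle `L₂(64)` fixes no non-zero vector. -/

set_option autoImplicit false

namespace Cfsg.Agent.H70.E82CaseA

open Cfsg.Lie Cfsg.Agent.H6.E82

theorem act_mul (g h : G0) (v : V) : act (ι (g * h)) v = act (ι g) (act (ι h) v) := by
  rw [map_mul, map_mul, Module.End.mul_apply]

/-- The pointwise stabiliser. -/
def stab (A : Set V) : Subgroup G0 where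
  carrier := {g | ∀ v ∈ A, act (ι g) v = v}
  mul_mem' ha hb v hv := by rw [act_mul, hb v hv, ha v hv]
  one_mem' v _ := by rw [map_one, map_one, Module.End.one_apply]
  inv_mem' {g} hg v hv := by
    conv_lhs => rw [← hg v hv]
    rw [← act_mul, inv_mul_cancel, map_one, map_one, Module.End.one_apply]

theorem mem_stab {A : Set V} {g : G0} : g ∈ stab A ↔ ∀ v ∈ A, act (ι g) v = v := Iff.rfl

theorem conj_mem {A : Set V} {h g : G0} (hA : ∀ v ∈ A, act (ι h⁻¹) v ∈ A) (hg : g ∈ stab A) :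
    h * g * h⁻¹ ∈ stab A := fun v hv => by
  rw [act_mul, act_mul, hg _ (hA v hv), ← act_mul, mul_inv_cancel, map_one, map_one,
    Module.End.one_apply]

/-- **CASEA** -/
theorem caseA (hb : BrbStmt) (hg : BrgStmt) (hf : FrameStmt) (hv : VgStmt) : CaseAStmt := by
  intro H ψ hH hE x _ hP hC
  have hS : IsSimpleGroup G0 := (S1054.result (F := ZMod 2) chevE8 (by simp)).1
  let A0 : Set V := {v | Fr v = v ∧ ∀ s, act (ι (ψ s)) v = v}
  let Ok : Set V → Prop := fun A => A ⊆ A0 ∧ ∀ h ∈ H, ∀ v ∈ A, act (ι h) v ∈ A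
  let D : Set V → Set V := fun A => {v | ∃ a ∈ A, ∃ b ∈ A, br a b = v}
  have k0 : Ok A0 := ⟨le_rfl, fun h hh v hv => ⟨by rw [hf.2.2.2.1, hf.2.2.1, hv.1], fun s => by
    obtain ⟨s', e⟩ := hE.2.2.1 h⁻¹ (inv_mem hh) s
    rw [← act_mul, show ψ s * h = h * ψ s' by rw [← e]; group, act_mul, hv.2]⟩⟩
  have k1 : ∀ A, Ok A → Ok (D A) := fun A hA =>
    ⟨by
      rintro _ ⟨a, ha, b, hb', rfl⟩
      exact ⟨by rw [hb.2.2.2.2.2.2.2, (hA.1 ha).1, (hA.1 hb').1],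
        fun s => by rw [(hg _ a b).1, (hA.1 ha).2, (hA.1 hb').2]⟩, by
      rintro h hh _ ⟨a, ha, b, hb', rfl⟩
      exact ⟨_, hA.2 h hh a ha, _, hA.2 h hh b hb', (hg _ a b).1.symm⟩⟩
  have k2 : ∀ A, Ok A → (∀ a ∈ A, ∀ b ∈ A, br a b = 0) → ∀ v ∈ A, v = 0 := fun A hA hc v hvA => by
    obtain ⟨g, g1, g2, g3⟩ := hP.2 A (fun v hv => ⟨(hA.1 hv).1, (hA.1 hv).2 x⟩) hc
    have h1 : H ≤ Subgroup.normalizer (stab A : Set G0) := fun h hh =>
      Subgroup.mem_normalizer_iff.2 fun k => ⟨conj_mem (hA.2 _ (inv_mem hh)), fun hk => by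
        simpa [mul_assoc] using conj_mem (h := h⁻¹) (by rw [inv_inv]; exact hA.2 _ hh) hk⟩
    have h2 : (stab A).Normal := Subgroup.normalizer_eq_top_iff.1 (hH.2 _ (lt_of_le_of_ne h1
      fun e => g2 (hC g (e ▸ Subgroup.le_normalizer (mem_stab.2 g3)) g1)))
    rcases h2.eq_bot_or_eq_top with e | e
    · exact absurd (Subgroup.mem_bot.1 (e ▸ mem_stab.2 g3) ▸ one_mem _) g2
    · exact hv.1 v fun k => mem_stab.1 (e ▸ Subgroup.mem_top k) v hvA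
  have k3 := k2 _ (k1 _ (k1 _ k0)) (by
    rintro _ ⟨_, ⟨a0, h0, a1, h1, rfl⟩, _, ⟨a2, h2, a3, h3, rfl⟩, rfl⟩
      _ ⟨_, ⟨a4, h4, a5, h5, rfl⟩, _, ⟨a6, h6, a7, h7, rfl⟩, rfl⟩
    refine hP.1 ![a0, a1, a2, a3, a4, a5, a6, a7] fun i => ?_
    fin_cases i
    exacts [h0.2 x, h1.2 x, h2.2 x, h3.2 x, h4.2 x, h5.2 x, h6.2 x, h7.2 x])
  have k4 := k2 _ (k1 _ k0) fun a ha b hb => k3 _ ⟨a, ha, b, hb, rfl⟩
  have k5 := k2 _ k0 fun a ha b hb => k4 _ ⟨a, ha, b, hb, rfl⟩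
  refine (Submodule.eq_bot_iff _).2 fun v h => by_contra fun h0 => ?_
  obtain ⟨v', h1, h2, h3⟩ := hv.2 (Set.range ψ) v h0 (by
    rintro _ ⟨s, rfl⟩
    exact h s trivial)
  exact h1 (k5 v' ⟨h2, fun s => h3 _ ⟨s, rfl⟩⟩)

end Cfsg.Agent.H70.E82CaseA
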