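import Cfsg.Agent.H6.E82Defs

/-! Project E82, piece L65B: the rational labels of order `65`. -/

set_option autoImplicit false
set_option maxRecDepth 100000

namespace Cfsg.Agent.H70.E82L65b

open Equiv Cfsg.Lie Cfsg.Agent.H37 Cfsg.Agent.H40 Cfsg.Agent.H34 Cfsg.Agent.H29
open Cfsg.Agent.H6.E82

/-- The words. -/
def words : List (List ℕ) :=
  [[], [2], [3], [2, 3], [3, 2], [2, 3, 2]].flatMap fun u =>
    [[], [5], [6], [5, 6], [6, 5], [5, 6, 5]].map fun v => u ++ v

/-- Some word carries the point to a representative. -/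
def fin (a : List ℕ) : Bool :=
  words.any fun l => (List.range 6).any fun i => decide (l.foldl (svN 65 cartE8) a = rep i)

/-- The test. -/
noncomputable def ok (a b c d : ℕ) : Bool :=
  mapF id (a65 a b c d) fun p => Bool.rec true (decide (a = 0 ∧ b = 0 ∧ c = 0 ∧ d = 0) || fin p)
    (jointB tn8 65 2 p 1 0 [])

theorem tab : allN (fun a => allN (fun b => allN (fun c => allN (fun d => ok a b c d) 5) 5) 5) 5 =
    true := by
  decide +kernel

/-- **L65B** -/
theorem l65b : L65bStmt := by
  intro f hf w _ h1 a ha b hb c hc d hd hr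
  have h := allN_iff.1 (allN_iff.1 (allN_iff.1 (allN_iff.1 tab a ha) b hb) c hc) d hd
  rw [ok, mapF_eq, List.map_id, ratB_of tabOKE8 tabN8 (k := 2) (by decide) hr hf
    (by simpa using h1)] at h
  refine (Bool.or_eq_true_iff.1 h).imp of_decide_eq_true fun h => ?_
  obtain ⟨l, hl, h2⟩ := List.any_eq_true.1 h
  obtain ⟨i, hi, h3⟩ := List.any_eq_true.1 h2
  obtain ⟨l', rfl⟩ := exists_finList' (n := chevE8.rank) (L := l)
    ((by decide : ∀ l ∈ words, ∀ r ∈ l, r < 8) l hl)
  obtain ⟨u, hu, h4⟩ := hr.word (by decide) (A := cartE8) (by decide +kernel) l' hf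
  exact ⟨i, List.mem_range.1 hi, u, hu, of_decide_eq_true h3 ▸ h4⟩

end Cfsg.Agent.H70.E82L65b
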