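import Mathlib
import Cfsg.Agent.H50.E83Defs2

/-! The last step of the toralisation of a `2⁴` in `E₈` in characteristic three. -/

set_option autoImplicit false
set_option maxRecDepth 100000

namespace Cfsg.Agent.H70.E83S4

open Equiv Cfsg.Lie H37 H40 H34 H29 Module Cfsg.Agent.H50.E83

/-- Bit `r` of entry `j` is the parity of the coefficient of the simple root `j` in the root `r`. -/
def MM : List ℕ := [107839786668602559172822053798754911021733838661528612749448004485120,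
  1753097492003848511995418724622658205829124388897766921341740243671335039,
  20704396542038367424733491914620092534419798955723322403167678861672256,
  51844003768978489081421662274780806913344498170800302062942232843960800,
  1658049777132531129987109508961341997330299938279832027942784460591610895,
  220094909834748922245869575695743920516767951287799003329953312530483192,
  1325461430136442926808816863125755873400476431580858341075940120903299075,
  883314821845904021463758718625403431782944244673388587339954784337649662]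

def bt (m r : ℕ) : ZMod 2 := if m.testBit r then 1 else 0

def X (a : ℕ) : ℕ → ℕ
  | 0 => 0
  | j + 1 => X a j ^^^ (if a.testBit j then MM.getD j 0 else 0)

def cnt (m : ℕ) : ℕ → ℕ
  | 0 => 0
  | r + 1 => cnt m r + if m.testBit r then 0 else 1

def LL (m : ℕ) : List ℕ := (List.range 240).filter fun r => decide (120 ≤ r) && !m.testBit r

def L9 : List (List ℕ) :=
  [[120, 126, 141, 162, 184, 193, 216, 237], [120, 136, 148, 165, 169, 193, 216, 237],
  [120, 137, 147, 164, 170, 193, 216, 237], [121, 126, 141, 162, 184, 191, 214, 239],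
  [121, 136, 148, 165, 169, 191, 214, 239], [121, 137, 147, 164, 170, 191, 214, 239],
  [122, 126, 141, 162, 184, 192, 215, 238], [122, 136, 148, 165, 169, 192, 215, 238],
  [122, 137, 147, 164, 170, 192, 215, 238]]

set_option synthInstance.maxSize 2000 in
theorem chk1 : ∀ a < 256, cnt (X a 8) 240 = 112 → cnt (X a 8 ^^^ X 12 8) 240 = 112 →
    cnt (X a 8 ^^^ X 32 8) 240 = 112 → cnt (X a 8 ^^^ X 12 8 ^^^ X 32 8) 240 = 112 →
    LL (X 12 8 ||| X 32 8 ||| X a 8) ∈ L9 := by
  decide +kernel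

theorem chk2 : ∀ r < 240, ∀ j < 8, (gt rcE8 r j % 2 = 1 ↔ (MM.getD j 0).testBit r = true) := by
  decide +kernel

theorem chk3 : ∀ r < 240, ((∀ j < 8, 0 ≤ gt rcE8 r j) ↔ 120 ≤ r) := by
  decide +kernel

theorem chk4 : ∀ L ∈ L9, L.length = 8 ∧
    (∀ r ∈ L, ∀ s ∈ L, r ≠ s → ∑ i ∈ Finset.range 8, co chevE8 r i * chevE8.cartan i s = 0) ∧
    ∀ i < 8, ∀ k < 8, (L.map fun r => chevE8.cartan i r * gt rcE8 r k).sum = if i = k then 2 else 0 := by
  decide +kernel

theorem bt_xor (m m' r : ℕ) : bt (m ^^^ m') r = bt m r + bt m' r := by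
  simp only [bt, Nat.testBit_xor]
  cases m.testBit r <;> cases m'.testBit r <;> decide

theorem bt_X (a r n : ℕ) : bt (X a n) r = ∑ j ∈ Finset.range n, bt (MM.getD j 0) r * bt a j := by
  induction n with
  | zero => simp [X, bt]
  | succ n ih =>
    rw [X, bt_xor, ih, Finset.sum_range_succ]
    congr 1
    by_cases h : a.testBit n = true <;> simp [bt, h]

theorem cnt_eq (m n : ℕ) : cnt m n = ∑ r ∈ Finset.range n, if bt m r = 0 then 1 else 0 := by
  induction n with
  | zero => rfl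
  | succ n ih =>
    rw [cnt, ih, Finset.sum_range_succ]
    congr 1
    by_cases h : m.testBit n = true <;> simp [bt, h]

/-- The bits of `m` are the parities of `f`. -/
def Rep (f : Rt → ℤ) (m : ℕ) : Prop := ∀ r : Rt, (f r : ZMod 2) = bt m r

theorem Rep.z0 {f : Rt → ℤ} {m : ℕ} (h : Rep f m) : z0 2 f = cnt m 240 := by
  rw [cnt_eq, Finset.sum_range, H29.z0]
  exact Finset.sum_congr rfl fun r _ => by rw [h r]

theorem Rep.even {f : Rt → ℤ} {m : ℕ} (h : Rep f m) (r : Rt) : Even (f r) ↔ m.testBit r = false := by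
  rw [← ZMod.intCast_eq_zero_iff_even, h r, bt]
  cases m.testBit r <;> simp

theorem cast_rc (r : Rt) (j : Fin chevE8.rank) : (C8.R.rc r j : ZMod 2) = bt (MM.getD j 0) r := by
  rw [H29.rc_eq C8 tabOKE8, bt]
  have h := chk2 r r.2 j j.2
  split_ifs with h1
  · rw [← ZMod.intCast_mod _ 2]
    rw [show ((2 : ℕ) : ℤ) = 2 from rfl, h.2 h1]
    rfl
  · rw [ZMod.intCast_eq_zero_iff_even, Int.even_iff]
    rw [← h] at h1
    omega

theorem rep_X {f : Rt → ℤ} (hf : IsAdd C8.R f) {a : ℕ}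
    (h : ∀ j : Fin chevE8.rank, (f (C8.R.simple j) : ZMod 2) = bt a j) : Rep f (X a 8) := fun r => by
  rw [hf r, bt_X, Finset.sum_range]
  push_cast
  exact Finset.sum_congr rfl fun j _ => by rw [cast_rc, h]

theorem rep_f1 : Rep f1 (X 12 8) := rep_X (isAdd_vN C8 _) fun j => by
  rw [vN_simple]
  revert j
  decide

theorem rep_f2 : Rep f2 (X 32 8) := rep_X (isAdd_vN C8 _) fun j => by
  rw [vN_simple]
  revert j
  decide

theorem exists_rep {g : Rt → ℤ} (hg : IsAdd C8.R g) : ∃ a < 256, Rep g (X a 8) := by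
  refine ⟨Nat.ofBits fun j : Fin chevE8.rank => decide (Odd (g (C8.R.simple j))), Nat.ofBits_lt_two_pow _,
    rep_X hg fun j => ?_⟩
  rw [bt, Nat.testBit_ofBits_lt _ _ j.2]
  by_cases h : Odd (g (C8.R.simple j))
  · rw [if_pos (by simpa using h)]
    exact (ZMod.intCast_eq_one_iff_odd).2 h
  · rw [if_neg (by simpa using h)]
    exact (ZMod.intCast_eq_zero_iff_even).2 (Int.not_odd_iff_even.1 h)

theorem pos_iff (r : Rt) : C8.R.Pos r ↔ 120 ≤ (r : ℕ) := by
  rw [← chk3 r r.2]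
  constructor
  · intro h j hj
    rw [← H29.rc_eq C8 tabOKE8 r ⟨j, hj⟩]
    exact h _
  · intro h j
    rw [H29.rc_eq C8 tabOKE8]
    exact h j j.2

/-- The positive roots on which the three labels are even. -/
noncomputable def Ps (g : Rt → ℤ) : Finset Rt :=
  Finset.univ.filter fun r => Even (f1 r) ∧ Even (f2 r) ∧ Even (g r) ∧ C8.R.Pos r

theorem mem_Ps {g : Rt → ℤ} {r : Rt} :
    r ∈ Ps g ↔ Even (f1 r) ∧ Even (f2 r) ∧ Even (g r) ∧ C8.R.Pos r := by
  simp [Ps]

theorem sum_Ps {g : Rt → ℤ} {a : ℕ} (h : Rep g (X a 8)) (F : ℕ → ℤ) :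
    ∑ r ∈ Ps g, F r = ((LL (X 12 8 ||| X 32 8 ||| X a 8)).map F).sum := by
  rw [Ps, Finset.sum_filter, LL, ← List.sum_toFinset _ (List.nodup_range.filter _),
    List.toFinset_filter, List.toFinset_range, Finset.sum_filter, Finset.sum_range]
  refine Finset.sum_congr rfl fun r _ => if_congr ?_ rfl rfl
  rw [rep_f1.even, rep_f2.even, h.even, pos_iff]
  simp only [Nat.testBit_or, Bool.and_eq_true, decide_eq_true_eq, Bool.not_eq_eq_eq_not,
    Bool.not_true, Bool.or_eq_false_iff]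
  tauto

theorem mem_LL {g : Rt → ℤ} {a : ℕ} (h : Rep g (X a 8)) {r : Rt} (hr : r ∈ Ps g) :
    (r : ℕ) ∈ LL (X 12 8 ||| X 32 8 ||| X a 8) := by
  rw [mem_Ps, rep_f1.even, rep_f2.even, h.even, pos_iff] at hr
  simp only [LL, List.mem_filter, List.mem_range, Nat.testBit_or, Bool.and_eq_true,
    decide_eq_true_eq, Bool.not_eq_eq_eq_not, Bool.not_true, Bool.or_eq_false_iff]
  exact ⟨r.2, hr.2.2.2, ⟨hr.1, hr.2.1⟩, hr.2.2.1⟩

theorem frame {g : Rt → ℤ} (hg : IsAdd C8.R g)
    (hz : ∀ i j : ℤ, z0 2 (fun r => g r + i * f1 r + j * f2 r) = 112) :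
    (Ps g).card = 8 ∧ (∀ r ∈ Ps g, ∀ s ∈ Ps g, r ≠ s → C8.R.pair r s = 0) ∧
    ∀ r k, ∑ s ∈ Ps g, C8.R.pair r s * C8.R.rc s k = 2 * C8.R.co r k := by
  obtain ⟨a, ha, h⟩ := exists_rep hg
  have h0 : Rep (fun r => g r + 0 * f1 r + 0 * f2 r) (X a 8) := fun r => by simpa using h r
  have h1 : Rep (fun r => g r + 1 * f1 r + 0 * f2 r) (X a 8 ^^^ X 12 8) := fun r => by
    rw [bt_xor, ← h r, ← rep_f1 r]; simp
  have h2 : Rep (fun r => g r + 0 * f1 r + 1 * f2 r) (X a 8 ^^^ X 32 8) := fun r => by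
    rw [bt_xor, ← h r, ← rep_f2 r]; simp
  have h3 : Rep (fun r => g r + 1 * f1 r + 1 * f2 r) (X a 8 ^^^ X 12 8 ^^^ X 32 8) := fun r => by
    rw [bt_xor, bt_xor, ← h r, ← rep_f1 r, ← rep_f2 r]; simp
  obtain ⟨k1, k2, k3⟩ := chk4 _ (chk1 a ha (h0.z0 ▸ hz 0 0) (h1.z0 ▸ hz 1 0) (h2.z0 ▸ hz 0 1)
    (h3.z0 ▸ hz 1 1))
  refine ⟨?_, fun r hr s hs hrs => ?_, fun r k => ?_⟩
  · have := sum_Ps h fun _ => 1
    rw [List.map_const', List.sum_replicate, k1, Finset.sum_const] at this
    simp only [nsmul_eq_mul, mul_one] at this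
    exact_mod_cast this
  · have := k2 r (mem_LL h hr) s (mem_LL h hs) fun e => hrs (Fin.ext e)
    rw [Finset.sum_range] at this
    rw [RS.pair_def]
    exact (Finset.sum_congr rfl fun i _ => by rw [C8.co_eq, C8.wt_eq]).trans this
  · have e : ∀ i : Fin chevE8.rank, ∑ s ∈ Ps g, C8.R.wt s i * C8.R.rc s k = if i = k then 2 else 0 := by
      intro i
      have := k3 i i.2 k k.2
      rw [← sum_Ps h fun s => chevE8.cartan i s * gt rcE8 s k] at this
      simp only [Fin.ext_iff, ← this]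
      exact Finset.sum_congr rfl fun s _ => by rw [C8.wt_eq, H29.rc_eq C8 tabOKE8]
    simp only [RS.pair_def, Finset.sum_mul, mul_assoc]
    rw [Finset.sum_comm]
    simp only [← Finset.mul_sum, e]
    simp [mul_comm]

theorem prim2 : IsPrimitiveRoot (-1 : Kˣ) 2 := by
  refine IsPrimitiveRoot.coe_units_iff.1 ?_
  exact IsPrimitiveRoot.neg_one 3 (by decide)

theorem even_ν {h n : GK} {f : Rt → ℤ} (hl : Lab C8 (-1) h f) (hn : n ∈ P8.N) (hc : Commute h n)
    {r : Rt} (hr : Even (f r)) : Even (f (P8.ν n r)) := by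
  have := hl.rel_N prim2 hn (g := f) (by rwa [← hc.eq, mul_inv_cancel_right]) r
  rw [← ZMod.intCast_eq_zero_iff_even] at hr ⊢
  exact this.trans hr

theorem even_neg {f : Rt → ℤ} (hf : IsAdd C8.R f) {r : Rt} (hr : Even (f r)) :
    Even (f (C8.R.neg r)) := by
  have : f (C8.R.neg r) = - f r := by
    rw [hf r, hf (C8.R.neg r), C8.R.rc_neg]
    simp
  rw [this]
  exact hr.neg

theorem act_eV (mu : MuStmt) {h : GK} {f : Rt → ℤ} (hl : Lab C8 (-1) h f) {r : Rt}
    (hr : Even (f r)) : act h (eV chevE8 K r) = eV chevE8 K r := by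
  have := (mu.2.1 _ h f hl 1 (eV chevE8 K r)).2 ⟨fun e => absurd rfl e, fun s hs => ?_⟩
  · rw [mem_eig, one_smul] at this
    exact this
  · have : (s : ℕ) ≠ r := fun e => hs (by rw [Fin.ext e, hr.neg_one_zpow]; rfl)
    simp [eV, this]

/-- The root `s` as a linear form. -/
noncomputable def al (s : Rt) : V →ₗ[K] K where
  toFun v := ∑ i, v (Sum.inl i) * ((C8.R.wt s i : ℤ) : K)
  map_add' v w := by simp [add_mul, Finset.sum_add_distrib]
  map_smul' c v := by simp [Finset.mul_sum, mul_assoc]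

theorem al_hR (r s : Rt) : al s (hR chevE8 K r) = ((C8.R.pair r s : ℤ) : K) := by
  rw [RS.pair_def]
  push_cast
  simp only [C8.co_eq]
  rfl

theorem card_le (nact : NactStmt) {n : GK} (hn : n ∈ P8.N) (hw : ∀ r, P8.ν n (P8.ν n r) = r)
    (Ψ T : Finset Rt) (hT : T ⊆ Ψ) (hΨ : ∀ r ∈ Ψ, P8.ν n r ∈ Ψ)
    (ho : ∀ r ∈ Ψ, ∀ s ∈ Ψ, r ≠ s → C8.R.pair r s = 0) (hle : ∀ r ∈ T, r ≤ P8.ν n r) :
    T.card ≤ finrank K (eig n 1 ⊓ Cart : Submodule K V) := by
  let v : T → (eig n 1 ⊓ Cart : Submodule K V) := fun r =>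
    ⟨hR chevE8 K r.1 + hR chevE8 K (P8.ν n r.1), by
      refine ⟨mem_eig.2 ?_, fun s => by simp [hR]⟩
      rw [map_add, (nact n hn).2, (nact n hn).2, hw, one_smul, add_comm]⟩
  have h2 : (2 : K) ≠ 0 := by
    have := (CharP.cast_eq_zero_iff K 3 2).not.2 (by decide)
    exact_mod_cast this
  have hv : LinearIndependent K v := by
    refine Fintype.linearIndependent_iff.2 fun c hc s => ?_
    have := congrArg (fun x : (eig n 1 ⊓ Cart : Submodule K V) => al s.1 x.1) hc
    simp only [AddSubmonoidClass.coe_finsetSum, SetLike.val_smul, map_sum, map_smul, v, map_add,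
      al_hR, ZeroMemClass.coe_zero, map_zero, smul_eq_mul] at this
    rw [Finset.sum_eq_single s (fun r _ hrs => ?_) (by simp), RS.pair_self] at this
    · refine (mul_eq_zero.1 this).resolve_right ?_
      by_cases e : P8.ν n s.1 = s.1
      · rw [e, RS.pair_self, ← two_mul]
        exact_mod_cast mul_ne_zero h2 h2
      · rw [ho _ (hΨ _ (hT s.2)) _ (hT s.2) e]
        simpa using h2
    · have e1 : r.1 ≠ s.1 := fun e => hrs (Subtype.ext e)
      have e2 : P8.ν n r.1 ≠ s.1 := fun e => e1 (le_antisymm (e ▸ hle _ r.2) (by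
        have := hle _ s.2
        rwa [← e, hw, e] at this))
      rw [ho _ (hT r.2) _ (hT s.2) e1, ho _ (hΨ _ (hT r.2)) _ (hT s.2) e2]
      simp
  simpa using hv.fintype_card_le_finrank

theorem s4 (mu : MuStmt) (nact : NactStmt) (lb : LbStmt) : S4Stmt := by
  intro h1 h2 h3 n g l1 l2 l3 hz hn hnn c1 c2 c3 hp hd
  obtain ⟨k1, k2, k3⟩ := frame l3.1 hz
  have hW : P8.ν n ∈ C8.R.W := P8.ν_mem n hn
  have hw : ∀ r, P8.ν n (P8.ν n r) = r := fun r => by
    rw [← Perm.mul_apply, ← P8.ν_mul n hn n hn, hnn, Split.ν_one, Perm.one_apply]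
  have hΨ : ∀ r ∈ Ps g, P8.ν n r ∈ Ps g := fun r hr => by
    rw [mem_Ps] at hr ⊢
    exact ⟨even_ν l1 hn c1 hr.1, even_ν l2 hn c2 hr.2.1, even_ν l3 hn c3 hr.2.2.1,
      hp r hr.1 hr.2.1 hr.2.2.1 hr.2.2.2⟩
  let B := (Ps g).filter fun r => P8.ν n r < r
  have hB : ∀ r, r ∈ B ↔ r ∈ Ps g ∧ P8.ν n r < r := fun r => Finset.mem_filter
  have hBp : ∀ r ∈ B, C8.R.Pos r := fun r hr => (mem_Ps.1 ((hB r).1 hr).1).2.2.2
  have hBw : ∀ r ∈ B, C8.R.Pos (P8.ν n r) := fun r hr => (mem_Ps.1 (hΨ r ((hB r).1 hr).1)).2.2.2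
  have hBn : ∀ r ∈ B, P8.ν n r ∉ B := fun r hr hr' => by
    have := ((hB _).1 hr').2
    rw [hw] at this
    exact lt_asymm this ((hB _).1 hr).2
  have e1 := card_le nact hn hw (Ps g) ((Ps g).filter fun r => ¬ P8.ν n r < r)
    (Finset.filter_subset _ _) hΨ k2 fun r hr => not_lt.1 (Finset.mem_filter.1 hr).2
  have e2 := Finset.card_filter_add_card_filter_not (s := Ps g) fun r => P8.ν n r < r
  have e3 : (B ∪ B.image C8.R.neg).card = B.card + B.card := by
    rw [Finset.card_union_of_disjoint, Finset.card_image_of_injective _ C8.R.neg_involutive.injective]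
    rw [Finset.disjoint_left]
    intro r hr hr'
    obtain ⟨s, hs, rfl⟩ := Finset.mem_image.1 hr'
    exact (C8.R.pos_neg_iff s).1 (hBp _ hr) (hBp _ hs)
  have e4 := lb n hn hnn {h1, h2, h3} (B ∪ B.image C8.R.neg)
    (by
      rintro z (rfl | rfl | rfl)
      exacts [l1.mem_H, l2.mem_H, l3.mem_H])
    (by
      rintro z (rfl | rfl | rfl)
      exacts [c1, c2, c3])
    (fun r hr => by
      have : Even (f1 r) ∧ Even (f2 r) ∧ Even (g r) := by
        rcases Finset.mem_union.1 hr with hr | hr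
        · have := mem_Ps.1 ((hB r).1 hr).1
          exact ⟨this.1, this.2.1, this.2.2.1⟩
        · obtain ⟨s, hs, rfl⟩ := Finset.mem_image.1 hr
          have := mem_Ps.1 ((hB s).1 hs).1
          exact ⟨even_neg l1.1 this.1, even_neg l2.1 this.2.1, even_neg l3.1 this.2.2.1⟩
      rw [mem_Fix]
      rintro z (rfl | rfl | rfl)
      exacts [act_eV mu l1 this.1, act_eV mu l2 this.2.1, act_eV mu l3 this.2.2])
    (fun r hr hr' => by
      rcases Finset.mem_union.1 hr with hr | hr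
      · rcases Finset.mem_union.1 hr' with hr' | hr'
        · exact hBn r hr hr'
        · obtain ⟨s, hs, e⟩ := Finset.mem_image.1 hr'
          exact (C8.R.pos_neg_iff s).1 (e ▸ hBw r hr) (hBp s hs)
      · obtain ⟨s, hs, rfl⟩ := Finset.mem_image.1 hr
        rw [C8.R.W_neg hW] at hr'
        rcases Finset.mem_union.1 hr' with hr' | hr'
        · exact (C8.R.pos_neg_iff _).1 (hBp _ hr') (hBw s hs)
        · obtain ⟨t, ht, e⟩ := Finset.mem_image.1 hr'
          exact hBn s hs (C8.R.neg_inj.1 e ▸ ht))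
  have e5 : B = ∅ := Finset.card_eq_zero.1 (by
    change B.card + _ = _ at e2
    omega)
  have e6 : ∀ r ∈ Ps g, r ≤ P8.ν n r := fun r hr => not_lt.1 fun h => by
    have := (hB r).2 ⟨hr, h⟩
    rw [e5] at this
    exact Finset.notMem_empty _ this
  have e7 : ∀ r ∈ Ps g, P8.ν n r = r := fun r hr =>
    le_antisymm (by simpa only [hw] using e6 _ (hΨ r hr)) (e6 r hr)
  refine Split.mem_H_of hn (Equiv.ext fun r => C8.R.rc_inj (funext fun k => ?_))
  have e8 : C8.R.co (P8.ν n r) k = C8.R.co r k := by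
    have a1 := k3 (P8.ν n r) k
    rw [Finset.sum_congr rfl fun s hs => by
      rw [show C8.R.pair (P8.ν n r) s = C8.R.pair r s by
        conv_lhs => rw [← e7 s hs]
        exact C8.R.pair_W hW r s], k3] at a1
    omega
  refine mul_right_cancel₀ (C8.R.len_ne_zero (C8.R.simple k)) ?_
  rw [C8.R.rc_co, e8, C8.R.W_len hW, Perm.one_apply, C8.R.rc_co]

end Cfsg.Agent.H70.E83S4
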