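import Cfsg.Agent.H2.FXDefs
import Cfsg.Agent.H50.E83Mu
import Cfsg.Agent.H50.E83Asm
import Cfsg.Agent.H67.E83Tr4

/-! Project FX, piece DIM: lower bounds for the fixed spaces of elements of order 2, 5, 7, 13. -/

set_option autoImplicit false
set_option maxRecDepth 100000

namespace Cfsg.Agent.H70.FXDim

open Equiv Cfsg.Lie Cfsg.Agent.H37 Cfsg.Agent.H40 Cfsg.Agent.H34 Cfsg.Agent.H29 Module
open Cfsg.Agent.H50.E83

theorem alc5 : allAlc [2, 3, 4, 6, 5, 4, 3, 2] 5 (fun a => Nat.ble 40 (zN 5 tn8 a)) = true := by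
  decide +kernel

theorem alc13 : allAlc [2, 3, 4, 6, 5, 4, 3, 2] 13 (fun a => Nat.ble 12 (zN 13 tn8 a)) = true := by
  decide +kernel

theorem bound {s b : ℕ} (h3 : s.Coprime 3) (h0 : 0 < s) (hq : s ∣ 36465)
    (hb : allAlc [2, 3, 4, 6, 5, 4, 3, 2] s (fun a => Nat.ble b (zN s tn8 a)) = true) {g : G0}
    (hg : g ^ s = 1) : 8 + b ≤ mu (ι g) 1 := by
  obtain ⟨ζ, hζ, -⟩ := exists_prim_unit K (N := s) (by
    rw [Ne, CharP.cast_eq_zero_iff K 3]
    exact (Nat.Prime.coprime_iff_not_dvd Nat.prime_three).1 h3.symm)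
  obtain ⟨h, f, hl, hc, -⟩ := ss g s ζ h3 hζ hg
  obtain ⟨u, hu, a, ha, -, hr⟩ := hl.1.alc tabOKE8 (s := s) h0 (by decide) _ thE8 hb
  have h1 := muStmt.2.2.1 ζ s h f hζ hl 0
  rw [zpow_zero, Units.val_one, if_pos (by simp),
    z0_congr (g := fun r => f (u r)) u (fun r => by simp),
    ← hr.zN_eq tabOKE8 tabN8 hq (hl.1.comp hu), muStmt.1 _ _ _ hc] at h1
  have := Nat.le_of_ble_eq_true ha
  omega

theorem two {g : G0} (hg : g ^ 2 = 1) : (g = 1 → mu (ι g) 1 = 248) ∧ 120 ≤ mu (ι g) 1 := by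
  have h1 := muStmt.2.2.2.2.1 (ι g) (by rw [← map_mul, ← sq, hg, map_one])
  have h2 : g = 1 → tau (ι g) = 248 := fun e => by rw [e, map_one, muStmt.2.2.2.2.2]
  have h3 := (H67.E83Tr4.tr4Stmt muStmt ss g (by
    rw [show 4 = 2 * 2 from rfl, pow_mul, hg, one_pow])).1 hg
  rw [tau] at h2 h3
  refine ⟨fun e => by have := h2 e; omega, ?_⟩
  by_cases e : g = 1
  · have := h2 e
    omega
  · have := h3 e
    omega

/-- **FX-DIM** -/
theorem dim (c7 : H89.L27.C7Stmt) : H2FX.DimStmt := by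
  refine fun g => ⟨fun hg => (two hg).2, bound (by decide) (by decide) (by decide) alc5,
    fun hg => ?_, bound (by decide) (by decide) (by decide) alc13⟩
  by_cases h1 : g = 1
  · have := (two (g := g) (by rw [h1, one_pow])).2
    omega
  obtain ⟨ζ, hζ, -⟩ := exists_prim_unit K (N := 7) (by
    rw [Ne, CharP.cast_eq_zero_iff K 3]; norm_num)
  rcases c7 g ζ hζ hg h1 with e | ⟨e, -⟩ <;> omega

end Cfsg.Agent.H70.FXDim
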