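import Cfsg.Agent.H98.GbL
import Cfsg.Agent.H70.GbDer0

/-! Project GB, piece R2L: the characters with homogeneous support form one block. -/

set_option autoImplicit false

namespace Cfsg.Agent.H70.GbR2l

open Cfsg Finset Matrix Cfsg.Agent.H98.GB Cfsg.Agent.H70.GbDer0
open scoped ComplexConjugate MatrixGroups Kronecker

universe u

variable {F : Type u} [Field F] {a b n : ℕ} (h : a + b = n)

/-- block diagonal matrices -/
noncomputable def blk : GL (Fin a) F × GL (Fin b) F →* GL (Fin n) F where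
  toFun y := tri h y.1 0 y.2
  map_one' := tri_one h
  map_mul' x y := by simp [tri_mul]

theorem blk_inj : Function.Injective (blk (F := F) h) := fun _ _ e =>
  Prod.ext (tri_inj e).1 (tri_inj e).2.2

theorem range_blk {z : F} (hz : z ≠ 1) {u : GL (Fin a) F} (hu : u.1 = z • 1) :
    (blk h).range = H17.Cg (blk h (u, 1)) := by
  refine le_antisymm ?_ fun g hg => ?_
  · rintro _ ⟨y, rfl⟩
    rw [H17.mem_Cg, ← map_mul, ← map_mul]
    exact congrArg _ (Prod.ext (Units.ext (by simp [hu])) (by simp))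
  replace hg : g * tri h u 0 1 = tri h u 0 1 * g := H17.mem_Cg.1 hg
  obtain ⟨s, c, t, rfl⟩ := exists_tri h (g := g) fun w hw => (mem_stdS h).2 fun j => by
    obtain ⟨w, rfl⟩ := exists_emb h hw
    have := congrArg (fun x : GL (Fin n) F => (x.1 *ᵥ emb h w) (eqv h (Sum.inr j))) hg
    simp only [Units.val_mul, ← mulVec_mulVec, tri_emb, tri_inr, hu, smul_mulVec, one_mulVec,
      map_smul, mulVec_smul, Units.val_one, Pi.smul_apply, smul_eq_mul] at this
    exact (mul_eq_zero.1 (by linear_combination this : (z - 1) * _ = 0)).resolve_left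
      (sub_ne_zero.2 hz)
  rw [tri_mul, tri_mul] at hg
  have := (tri_inj hg).2.1
  simp only [hu, Matrix.mul_zero, Units.val_one, Matrix.mul_one, zero_add, Matrix.smul_mul,
    Matrix.one_mul, Matrix.zero_mul, add_zero] at this
  have h0 : c = 0 := (smul_eq_zero.1 (by rw [sub_smul, one_smul, ← this, sub_self] :
    (z - 1) • c = 0)).resolve_left (sub_ne_zero.2 hz)
  exact ⟨(s, t), h0 ▸ rfl⟩

/-- splitting off the first block -/
def spl (j d : ℕ) : Fin d ⊕ Fin j × Fin d ≃ Fin (j + 1) × Fin d where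
  toFun := Sum.elim (fun i => (0, i)) fun p => (p.1.succ, p.2)
  invFun p := Fin.cases (Sum.inl p.2) (fun a => Sum.inr (a, p.2)) p.1
  left_inv := by rintro (i | ⟨a, i⟩) <;> simp
  right_inv := by
    rintro ⟨a, i⟩
    cases a using Fin.cases <;> simp

theorem tri_kron {j : ℕ} (g' : GL (Fin a) F) (g : GL (Fin b) F) (e : Fin j × Fin a ≃ Fin b)
    (hg : g.1 = Matrix.reindex e e ((1 : Matrix (Fin j) (Fin j) F) ⊗ₖ g'.1)) :
    ∃ e' : Fin (j + 1) × Fin a ≃ Fin n, (tri h g' 0 g).1 =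
      Matrix.reindex e' e' ((1 : Matrix (Fin (j + 1)) (Fin (j + 1)) F) ⊗ₖ g'.1) := by
  refine ⟨(spl j a).symm.trans (((Equiv.refl _).sumCongr e).trans (eqv h)), ?_⟩
  ext x y
  obtain ⟨x, rfl⟩ := (((Equiv.refl _).sumCongr e).trans (eqv h)).surjective x
  obtain ⟨y, rfl⟩ := (((Equiv.refl _).sumCongr e).trans (eqv h)).surjective y
  rcases x with x | ⟨x, x'⟩ <;> rcases y with y | ⟨y, y'⟩ <;>
    simp [coe_tri, hg, spl, one_apply, (Fin.succ_ne_zero _).symm]

theorem exists_set {N : ℕ} (hN : 0 < N) (j : ℕ) : ∃ S : Finset ℕ, #S = N ∧ H19.wtS S = j := by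
  obtain ⟨k, rfl⟩ : ∃ k, N = k + 1 := ⟨N - 1, by omega⟩
  have h1 : k + j ∉ range k := by simp
  refine ⟨insert (k + j) (range k), by simp [card_insert_of_notMem h1], ?_⟩
  have h2 := H19.sum_eq_wtS (range k)
  rw [H19.wtS_range, card_range] at h2
  rw [H19.wtS, sum_insert h1, card_insert_of_notMem h1, card_range, h2, Nat.choose_succ_succ' k 1,
    Nat.choose_one_right, one_add_one_eq_two]
  omega

/-- **GB-R2L** -/
theorem r2l (hG : R2GStmt.{u}) (ha : R2LaStmt.{u}) (hb : R2LbStmt.{u}) (hK : BLKStmt.{u})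
    (hI : IRRStmt.{u}) (hL : LABStmt.{u}) : R2LStmt.{u} := by
  intro F _ _ _ C hp Γ hΓ hd
  obtain ⟨a1, g', a2⟩ := ha F C Γ hΓ hd
  refine ⟨g', fun j n hj => ?_⟩
  induction j, hj using Nat.le_induction generalizing n with
  | base =>
    intro e _
    obtain rfl : C.dg Γ = n := by simpa using e
    refine ⟨a1, g', Equiv.uniqueProd _ _, ?_, a2⟩
    ext x y
    simp
  | succ j hj ih =>
    intro e hn
    have h : C.dg Γ + C.dg Γ * j = n := by rw [← e]; ring
    obtain ⟨b1, g, ε, b2, b3⟩ := ih _ rfl (by omega)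
    obtain ⟨z, hz⟩ := exists_prime_orderOf_dvd_card' (G := Fˣ) C.p (by
      rwa [Nat.card_units, Nat.card_eq_fintype_card])
    have d0 := (hL F C).dg_pos Γ
    have : Nonempty (Fin (C.dg Γ)) := ⟨⟨0, d0⟩⟩
    let u : GL (Fin (C.dg Γ)) F := GeneralLinearGroup.scalar _ z
    have hu : u.1 = (z : F) • 1 := by simp [u, smul_one_eq_diagonal]
    have ho : orderOf u = C.p ^ 1 := by
      rw [pow_one, ← hz]
      exact orderOf_injective _ (Units.map_injective fun _ _ => Matrix.scalar_inj.1) z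
    have z1 : (z : F) ≠ 1 := fun e => C.hp.one_lt.ne' (by
      rw [← hz, Units.val_eq_one.1 e, orderOf_one])
    obtain ⟨c1, c2⟩ := hb F C Γ hΓ _ n h hn z u hz hu
    obtain ⟨S, s1, s2⟩ := exists_set (N := C.N) (Nat.mul_pos (by omega) (by omega)) (j + 1)
    have l1 : C.IsLab n (Function.update (fun _ => range C.N) Γ S) := ⟨fun φ => by
      by_cases hφ : φ = Γ <;> simp [hφ, s1], by
      rw [wt, sum_eq_single Γ (fun φ _ hφ => by simp [hφ, H19.wtS_range]) (by simp)]
      simp [s2, e]⟩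
    obtain ⟨d1, d2⟩ := hG _ C.p C.M C.hM _ _ (blk h) (blk_inj h) u ⟨1, ho⟩ (range_blk h z1 hu) _ _ _
      ((hK F C n hn).2.2 Γ) ⟨⟨_, (hI F C n hn _ l1).2.1⟩, _, fun φ hφ =>
        Function.update_of_ne (fun e : φ = Γ => hφ (by rw [e]; exact hΓ)) _ _, l1, rfl⟩ a1 b1 c1 fun B hB hS => by
      obtain ⟨χ, h1, h2⟩ := c2 B hB hS
      exact ⟨χ, h1, 1, 1, by simpa using C.hp.one_lt.ne', by simpa using C.hp.one_lt.ne',
        by rwa [mul_one]⟩
    obtain ⟨ε', h3⟩ := tri_kron h g' g ε b2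
    exact ⟨d1, _, ε', h3, (d2 g' g).trans_ne (mul_ne_zero a2 b3)⟩

end Cfsg.Agent.H70.GbR2l
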