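import Cfsg.Agent.H98.GbG

/-! Project GB, piece SPL: splitting of the twisted count along the kernel of a character. -/

set_option autoImplicit false

namespace Cfsg.Agent.H70.GbSpl

open Cfsg Cfsg.Agent.H98.GB Cfsg.Agent.H22

universe u

theorem cj_eq {G : Type u} [Group G] (K : Subgroup G) [K.Normal] (x : G) (θ : IrrCharacter K) :
    cj K x θ.1 = (cjIrr K x θ).1 := by
  funext k
  rw [cjIrr_apply]
  exact Subtype.val_injective.extend_apply θ.1 0 ⟨x⁻¹ * k * x, _⟩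

/-- **GB-SPL** -/
theorem spl (h0 : CL0Stmt.{u}) (hO : ONEStmt.{u}) (ha : SPLaStmt.{u}) (hb : SPLbStmt.{u}) :
    SPLStmt.{u} := by
  intro G _ _ p _ M hM l N hN hl X hX t ht B hB ⟨χ, hχ, θ₀, hθ₀, ho⟩ A hA
  classical
  have := Fintype.ofFinite l.ker
  have := Fintype.ofFinite (l.ker →* ℂˣ)
  have : N.Normal := ⟨fun n hn g => by
    simpa [mul_assoc] using N.mul_mem (hN g n) hn⟩
  obtain ⟨θ, h1, h2⟩ := exists_over_between hl ho
  obtain ⟨x, rfl⟩ := exists_cjIrr_of_over l.ker (ht.1 χ hχ).2 h1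
  obtain ⟨a1, a2⟩ := ha G p M hM l X hX t ht
  have b1 := lamClosed_cjSet l.ker x a1
  have b2 : cjIrr l.ker x (t χ) ∈ cjSet l.ker x (t '' X) := ⟨_, ⟨χ, hχ, rfl⟩, rfl⟩
  have hA' : ∀ a, a ∈ Finset.univ.filter (fun a : l.ker →* ℂˣ => N.subgroupOf l.ker ≤ a.ker) ↔
      N.subgroupOf l.ker ≤ a.ker := fun a => by simp
  refine le_trans (Nat.mul_le_mul_left _ ?_) (hb G p M hM l N hN hl X _ b1 ?_ ?_ A hA _ hA')
  · rw [← blockRank_image (Subgroup.subgroupOfEquivOfLe hl).symm]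
    refine h0 l.ker p (N.subgroupOf l.ker) (fun a b => hN a b) _ hA' _ _ fun φ hφ => ?_
    obtain ⟨ψ, h3, h4⟩ := Covers.exists_over hM.2.1 (H17.isPBlock_blockOf (cjIrr l.ker x (t χ)))
      (isPBlock_image _ hB) ⟨_, H17.mem_blockOf_self hM.2.1 _, _, ⟨θ₀, hθ₀, rfl⟩, h2⟩ hφ
    exact ⟨ψ, blockOf_subset hM.2.1 b1 b2 h3, h4⟩
  · rintro y hy _ ⟨a, ha, rfl⟩ _ ⟨b, hb, rfl⟩ e
    refine a2 (x⁻¹ * y * x) (fun h => hy ?_) a ha b hb ?_
    · simpa [mul_assoc] using (inferInstance : l.ker.Normal).conj_mem _ h x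
    · rw [cj_eq] at e ⊢
      rw [cjIrr_mul, cjIrr_mul, Subtype.ext e, cjIrr_inv_cjIrr]
  · rintro _ ⟨_, ⟨ψ, hψ, rfl⟩, rfl⟩ ξ h
    rw [over_cjIrr_iff _ (H17.irr_isClassFunction ξ)] at h
    exact (hO G l ψ (ht.1 ψ hψ).1 _ (ht.1 ψ hψ).2).2.2.1 ξ h ▸ hψ

end Cfsg.Agent.H70.GbSpl
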