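import Mathlib

/-! Permutation lemmas for the exclusion of `S₉`. -/

set_option autoImplicit false

namespace Cfsg.Agent.H70.KO

open Equiv

variable {Ω : Type*}

theorem ai (y : Perm Ω) (x : Ω) : y (y⁻¹ x) = x := y.apply_symm_apply x
theorem ia (y : Perm Ω) (x : Ω) : y⁻¹ (y x) = x := y.symm_apply_apply x

/-- no orbit of length three -/
def Q (g : Perm Ω) : Prop := ∀ x, g (g (g x)) = x → g x = x

theorem Q_of_pow {g : Perm Ω} {m : ℕ} (hm : m.Coprime 3) (h : g ^ m = 1) : Q g := by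
  intro x hx
  have k : ∀ k : ℕ, (g ^ (3 * k)) x = x := by
    intro k
    induction k with
    | zero => rfl
    | succ k ih =>
      rw [show 3 * (k + 1) = 3 * k + 3 by ring, pow_add, Perm.mul_apply,
        show (g ^ 3) x = x from hx, ih]
  have h3 : ¬ 3 ∣ m := fun e => by
    have := Nat.dvd_gcd e (dvd_refl 3)
    rw [hm] at this; omega
  have e1 : (g ^ m) x = x := by rw [h]; rfl
  rcases (by omega : m = 1 + 3 * (m / 3) ∨ m = 2 + 3 * (m / 3)) with e | e
  · rw [e, pow_add, Perm.mul_apply, k, pow_one] at e1; exact e1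
  · rw [e, pow_add, Perm.mul_apply, k] at e1
    have e2 : g (g x) = x := e1
    rw [e2] at hx; exact hx

/-- a three-cycle or the identity -/
structure T (g : Perm Ω) : Prop where
  cube : ∀ x, g (g (g x)) = x
  orb : ∀ x y, g x ≠ x → g y ≠ y → y = x ∨ y = g x ∨ y = g (g x)

theorem T.fix {β y : Perm Ω} (hβ : T β) (hc : Commute y β) (hy : Q y) {x : Ω} (hx : β x ≠ x) :
    y x = x := by
  have c : ∀ z, y (β z) = β (y z) := fun z => congrArg (· z) hc.eq
  have h1 : β (y x) ≠ y x := fun e => hx (y.injective ((c x).trans e))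
  rcases hβ.orb x _ hx h1 with e | e | e
  · exact e
  · exact hy x (by rw [e, c, e, c, c, e, hβ.cube])
  · exact hy x (by simp only [c, e, hβ.cube])

theorem T.exists_p {δ σ : Perm Ω} (hδ : T δ) (hs : σ * δ * σ⁻¹ = δ⁻¹) {x : Ω} (hx : δ x ≠ x) :
    ∃ p, δ p ≠ p ∧ σ p = p ∧ ∀ y, δ y ≠ y → σ y = y → y = p := by
  have c : ∀ z, σ (δ z) = δ (δ (σ z)) := fun z => by
    have : σ (δ z) = δ⁻¹ (σ z) := by
      rw [← hs]; simp
    rw [this]
    exact δ.injective (by rw [hδ.cube]; simp)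
  have key : ∀ p, δ p ≠ p → σ p = p → ∀ y, δ y ≠ y → σ y = y → y = p := by
    intro p hp e y hy ey
    rcases hδ.orb p y hp hy with r | r | r
    · exact r
    · rw [r, c, e] at ey
      exact absurd (δ.injective ey) hp
    · rw [r, c, c, e, hδ.cube] at ey
      exact absurd (δ.injective ey).symm hp
  have h1 : δ (σ x) ≠ σ x := fun e => hx (σ.injective (by rw [c, e, e]))
  have h2 : δ (δ x) ≠ δ x := fun e => hx (δ.injective e)
  have h3 : δ (δ (δ x)) ≠ δ (δ x) := fun e => h2 (δ.injective e)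
  rcases hδ.orb x _ hx h1 with e | e | e
  · exact ⟨x, hx, e, key x hx e⟩
  · have : σ (δ (δ x)) = δ (δ x) := by rw [c, c, e, hδ.cube]
    exact ⟨_, h3, this, key _ h3 this⟩
  · have : σ (δ x) = δ x := by rw [c, e, hδ.cube]
    exact ⟨_, h2, this, key _ h2 this⟩

theorem T.conj {γ : Perm Ω} (h : T γ) (y : Perm Ω) : T (y * γ * y⁻¹) := by
  refine ⟨fun x => by simp [h.cube], fun x z hx hz => ?_⟩
  have k : ∀ w, (y * γ * y⁻¹) w ≠ w → γ (y⁻¹ w) ≠ y⁻¹ w := fun w hw e =>
    hw (by simp only [Perm.mul_apply, e, ai])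
  rcases h.orb _ _ (k x hx) (k z hz) with e | e | e
  · exact Or.inl (y⁻¹.injective e)
  · exact Or.inr (Or.inl (y⁻¹.injective (by simp [e])))
  · exact Or.inr (Or.inr (y⁻¹.injective (by simp [e])))

theorem T.eq_of {γ γ' : Perm Ω} (h : T γ) (h' : T γ') (hs : ∀ x, γ' x = x ↔ γ x = x)
    (hq : Q (γ' * γ⁻¹)) : γ' = γ := by
  have inv : ∀ x, γ⁻¹ x = γ (γ x) := fun x => γ.injective (by rw [h.cube]; simp)
  have alt : ∀ x, γ x ≠ x → γ' x = γ x ∨ γ' x = γ (γ x) := by
    intro x hx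
    have h1 : γ' x ≠ x := fun e => hx ((hs x).1 e)
    have h2 : γ (γ' x) ≠ γ' x := fun e => h1 (γ'.injective ((hs _).2 e))
    rcases h.orb x _ hx h2 with e | e | e
    · exact absurd e h1
    · exact Or.inl e
    · exact Or.inr e
  have step : ∀ x, γ x ≠ x → γ' x = γ x → γ' (γ x) = γ (γ x) := by
    intro x hx e
    rcases alt (γ x) (fun e => hx (γ.injective e)) with r | r
    · exact r
    · rw [h.cube] at r
      have := h'.cube x
      rw [e, r, e] at this
      exact absurd this hx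
  by_cases hex : ∃ x, γ x ≠ x ∧ γ' x = γ x
  · obtain ⟨x, hx, e⟩ := hex
    ext z
    by_cases hz : γ z = z
    · rw [hz, (hs z).2 hz]
    · rcases h.orb x z hx hz with r | r | r
      · rw [r, e]
      · rw [r, step x hx e]
      · rw [r, step _ (fun e => hx (γ.injective e)) (step x hx e)]
  · ext z
    by_cases hz : γ z = z
    · rw [hz, (hs z).2 hz]
    · exfalso
      have all : ∀ x, γ x ≠ x → (γ' * γ⁻¹) x = γ x := by
        intro x hx
        have h2 : γ (γ (γ x)) ≠ γ (γ x) := fun e => hx (γ.injective (γ.injective e))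
        rw [Perm.mul_apply, inv, ((alt _ h2).resolve_left fun e => hex ⟨_, h2, e⟩), h.cube]
      have h1 : γ (γ z) ≠ γ z := fun e => hz (γ.injective e)
      have h2 : γ (γ (γ z)) ≠ γ (γ z) := fun e => h1 (γ.injective e)
      have := hq z (by rw [all z hz, all _ h1, all _ h2, h.cube])
      rw [all z hz] at this
      exact hz this

theorem T.side {γ : Perm Ω} (h : T γ) {p : Ω} (hp : γ p = p) (Y : Subgroup (Perm Ω))
    (pres : ∀ y ∈ Y, ∀ x, (γ x ≠ x ∨ x = p) → (γ (y x) ≠ y x ∨ y x = p))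
    (hq : ∀ y ∈ Y, Q y) (nrm : ∀ y ∈ Y, γ * y * γ⁻¹ ∈ Y)
    (fpf : ∀ y ∈ Y, Commute y γ → y = 1) (ne : ∃ y ∈ Y, y ≠ 1) :
    ∃ u ∈ Y, u p ≠ p ∧ ∀ x, γ x = x → x ≠ p → u x = x := by
  have mem : ∀ y ∈ Y, y * γ * y⁻¹ * γ⁻¹ ∈ Y := fun y hy => by
    have := Y.mul_mem hy (nrm _ (Y.inv_mem hy))
    simpa only [mul_assoc] using this
  have mv : ∀ y ∈ Y, y p = p → y = 1 := by
    intro y hy e
    have k : ∀ w ∈ Y, w p = p → ∀ x, γ x ≠ x → γ (w x) ≠ w x := fun w hw ew x hx =>
      (pres w hw x (Or.inl hx)).resolve_right fun r => hx (by rw [w.injective (r.trans ew.symm), hp])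
    have ei : y⁻¹ p = p := by rw [Perm.inv_eq_iff_eq, e]
    have := h.eq_of (h.conj y) (fun x => ⟨fun r => by
        by_contra hx
        exact k _ (Y.inv_mem hy) ei x hx (y.injective (by simpa using r)), fun r => by
        by_contra hx
        have h1 : γ (y⁻¹ x) ≠ y⁻¹ x := fun e => hx (by simp only [Perm.mul_apply, e, ai])
        have := k y hy e _ h1
        simp only [ai] at this
        exact this r⟩) (hq _ (mem y hy))
    exact fpf y hy (mul_inv_eq_iff_eq_mul.1 this)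
  obtain ⟨y, hy, hy1⟩ := ne
  refine ⟨_, mem y hy, fun e => hy1 (fpf y hy ?_), fun x hx hxp => ?_⟩
  · have := mv _ (mem y hy) e
    rw [mul_inv_eq_one, mul_inv_eq_iff_eq_mul] at this
    exact this
  · have h1 : γ⁻¹ x = x := by rw [Perm.inv_eq_iff_eq, hx]
    have h2 : γ (y⁻¹ x) = y⁻¹ x := by
      by_contra r
      rcases pres y hy _ (Or.inl r) with r' | r'
      · simp only [ai] at r'
        exact r' hx
      · simp only [ai] at r'
        exact hxp r'
    simp only [Perm.mul_apply, h1, h2, ai]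

theorem comm_false {β γ u w : Perm Ω} {p : Ω} (dis : ∀ x, β x = x ∨ γ x = x)
    (hu : u p ≠ p) (hu' : ∀ x, γ x = x → x ≠ p → u x = x)
    (hw : w p ≠ p) (hw' : ∀ x, β x = x → x ≠ p → w x = x) (hq : Q (u * w * u⁻¹ * w⁻¹)) :
    False := by
  have ui : u⁻¹ p ≠ p := fun e => hu (by rw [Perm.inv_eq_iff_eq] at e; exact e.symm)
  have wi : w⁻¹ p ≠ p := fun e => hw (by rw [Perm.inv_eq_iff_eq] at e; exact e.symm)
  have a1 : w (u p) = u p := hw' _ ((dis _).resolve_right fun e =>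
    hu (u.injective (hu' _ e hu))) hu
  have a2 : w (u⁻¹ p) = u⁻¹ p := hw' _ ((dis _).resolve_right fun e =>
    ui (by have := hu' _ e ui; simp only [ai] at this; exact this.symm)) ui
  have b1 : u (w p) = w p := hu' _ ((dis _).resolve_left fun e =>
    hw (w.injective (hw' _ e hw))) hw
  have b2 : u (w⁻¹ p) = w⁻¹ p := hu' _ ((dis _).resolve_left fun e =>
    wi (by have := hw' _ e wi; simp only [ai] at this; exact this.symm)) wi
  have c1 : w⁻¹ (u p) = u p := by rw [Perm.inv_eq_iff_eq, a1]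
  have c2 : u⁻¹ (w⁻¹ p) = w⁻¹ p := by rw [Perm.inv_eq_iff_eq, b2]
  have k1 : (u * w * u⁻¹ * w⁻¹) p = u p := by simp only [Perm.mul_apply, c2, ai]
  have k2 : (u * w * u⁻¹ * w⁻¹) (u p) = w p := by simp only [Perm.mul_apply, c1, b1, ia]
  have k3 : (u * w * u⁻¹ * w⁻¹) (w p) = p := by simp only [Perm.mul_apply, a2, ai, ia]
  exact hu (k1 ▸ hq p (by rw [k1, k2, k3]))

/-- the configuration in the symmetric group -/
theorem core {β γ δ σ : Perm Ω} (hβ : T β) (hγ : T γ) (hδ : T δ) (hδ1 : ∃ x, δ x ≠ x)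
    (cov : ∀ x, β x ≠ x ∨ γ x ≠ x ∨ δ x ≠ x)
    (d1 : ∀ x, β x = x ∨ γ x = x) (d2 : ∀ x, β x = x ∨ δ x = x) (d3 : ∀ x, γ x = x ∨ δ x = x)
    (qs : Q σ) (sβ : Commute σ β) (sγ : Commute σ γ) (sδ : σ * δ * σ⁻¹ = δ⁻¹)
    (Y₁ Y₂ Y : Subgroup (Perm Ω)) (l₁ : Y₁ ≤ Y) (l₂ : Y₂ ≤ Y) (hq : ∀ y ∈ Y, Q y)
    (ys : ∀ y ∈ Y, Commute y σ)
    (c₁ : ∀ y ∈ Y₁, Commute y β) (n₁ : ∀ y ∈ Y₁, γ * y * γ⁻¹ ∈ Y₁)
    (f₁ : ∀ y ∈ Y₁, Commute y γ → y = 1) (e₁ : ∃ y ∈ Y₁, y ≠ 1)
    (c₂ : ∀ y ∈ Y₂, Commute y γ) (n₂ : ∀ y ∈ Y₂, β * y * β⁻¹ ∈ Y₂)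
    (f₂ : ∀ y ∈ Y₂, Commute y β → y = 1) (e₂ : ∃ y ∈ Y₂, y ≠ 1) : False := by
  obtain ⟨x0, hx0⟩ := hδ1
  obtain ⟨p, hp, sp, up⟩ := hδ.exists_p sδ hx0
  have fx : ∀ x, σ x = x ↔ (β x ≠ x ∨ γ x ≠ x ∨ x = p) := fun x =>
    ⟨fun e => (cov x).imp_right fun r => r.imp_right fun r => up x r e, fun r => by
      rcases r with r | r | r
      · exact hβ.fix sβ qs r
      · exact hγ.fix sγ qs r
      · rw [r, sp]⟩
  have pr : ∀ y ∈ Y, ∀ x, σ x = x → σ (y x) = y x := fun y hy x e => by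
    have := congrArg (· x) (ys y hy).eq
    simp only [Perm.mul_apply] at this
    rw [← this, e]
  have pβ : β p = p := (d2 p).resolve_right hp
  have pγ : γ p = p := (d3 p).resolve_right hp
  obtain ⟨u, hu, u1, u2⟩ := hγ.side pγ Y₁ (fun y hy x hx => by
    rcases (fx _).1 (pr y (l₁ hy) x ((fx x).2 (Or.inr hx))) with r | r
    · have e := y.injective (hβ.fix (c₁ y hy) (hq y (l₁ hy)) r)
      rw [e] at r ⊢
      exact hx
    · exact r) (fun y hy => hq y (l₁ hy)) n₁ f₁ e₁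
  obtain ⟨w, hw, w1, w2⟩ := hβ.side pβ Y₂ (fun y hy x hx => by
    rcases (fx _).1 (pr y (l₂ hy) x ((fx x).2 (hx.imp_right Or.inr))) with r | r | r
    · exact Or.inl r
    · have e := y.injective (hγ.fix (c₂ y hy) (hq y (l₂ hy)) r)
      rw [e] at r ⊢
      exact hx
    · exact Or.inr r) (fun y hy => hq y (l₂ hy)) n₂ f₂ e₂
  exact comm_false d1 u1 u2 w1 w2 (hq _ (Y.mul_mem (Y.mul_mem (Y.mul_mem (l₁ hu) (l₂ hw))
    (Y.inv_mem (l₁ hu))) (Y.inv_mem (l₂ hw))))

/-- the number of fixed points -/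
def nf [Fintype Ω] [DecidableEq Ω] (g : Perm Ω) : ℕ := (Finset.univ.filter fun x => g x = x).card

theorem nf_conj [Fintype Ω] [DecidableEq Ω] (g y : Perm Ω) : nf (y * g * y⁻¹) = nf g := by
  refine (Finset.card_bij (fun x _ => y x) (fun x hx => ?_) (fun x _ z _ e => y.injective e)
    (fun x hx => ⟨y⁻¹ x, ?_, by simp⟩)).symm
  · simp only [Finset.mem_filter, Finset.mem_univ, true_and] at hx ⊢
    simp [hx]
  · simp only [Finset.mem_filter, Finset.mem_univ, true_and] at hx ⊢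
    exact y.injective (by simpa using hx)

theorem nf_one [Fintype Ω] [DecidableEq Ω] : nf (1 : Perm Ω) = Fintype.card Ω := by
  simp [nf]

theorem nf_lt [Fintype Ω] [DecidableEq Ω] {g : Perm Ω} (h : g ≠ 1) : nf g < Fintype.card Ω := by
  obtain ⟨x, hx⟩ : ∃ x, g x ≠ x := by
    by_contra r
    push Not at r
    exact h (Equiv.ext r)
  exact Finset.card_lt_card ⟨Finset.subset_univ _, fun r => hx (by simpa using r (Finset.mem_univ x))⟩

theorem nf_supp [Fintype Ω] [DecidableEq Ω] (g : Perm Ω) :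
    nf g + g.support.card = Fintype.card Ω := by
  rw [nf, Perm.support, Finset.card_filter_add_card_filter_not, Finset.card_univ]

theorem burn {A : Type} [AddCommGroup A] [Fintype A] [Fintype Ω] [DecidableEq Ω]
    (e : A → Perm Ω) (h : ∀ a b, e (a + b) = e a * e b) :
    Fintype.card A ∣ ∑ a, nf (e a) := by
  classical
  let φ : Multiplicative A →* Perm Ω := MonoidHom.mk' (fun a => e a.toAdd) fun a b => h _ _
  let _ : MulAction (Multiplicative A) Ω := MulAction.compHom Ω φ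
  have _ : Fintype (Quotient (MulAction.orbitRel (Multiplicative A) Ω)) := Fintype.ofFinite _
  have := MulAction.sum_card_fixedBy_eq_card_orbits_mul_card_group (Multiplicative A) Ω
  refine ⟨Fintype.card (Quotient (MulAction.orbitRel (Multiplicative A) Ω)), ?_⟩
  rw [mul_comm, ← Fintype.card_multiplicative (α := A), ← this]
  refine Fintype.sum_equiv Multiplicative.ofAdd _ _ fun a => ?_
  rw [nf, Fintype.card_subtype]
  congr 1

theorem T_of_nf [Fintype Ω] [DecidableEq Ω] {g : Perm Ω} (h3 : g ^ 3 = 1)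
    (h : g.support.card = 3) : T g := by
  have cube : ∀ x, g (g (g x)) = x := fun x => congrArg (· x) h3
  refine ⟨cube, fun x y hx hy => ?_⟩
  have h1 : g (g x) ≠ g x := fun e => hx (g.injective e)
  have h2 : g (g x) ≠ x := fun e => hx (by have := cube x; rwa [e] at this)
  have sub : ({x, g x, g (g x)} : Finset Ω) ⊆ g.support := by
    intro z hz
    simp only [Finset.mem_insert, Finset.mem_singleton] at hz
    rcases hz with rfl | rfl | rfl
    · exact Perm.mem_support.2 hx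
    · exact Perm.mem_support.2 h1
    · exact Perm.mem_support.2 fun e => h1 (g.injective e)
  have c3 : ({x, g x, g (g x)} : Finset Ω).card = 3 :=
    Finset.card_eq_three.2 ⟨_, _, _, hx.symm, h2.symm, h1.symm, rfl⟩
  have := Finset.eq_of_subset_of_card_le sub (by rw [c3, h])
  have hy' := Perm.mem_support.2 hy
  rw [← this] at hy'
  simpa using hy'

theorem dis_of_card [Fintype Ω] [DecidableEq Ω] {g k : Perm Ω}
    (h : (g * k).support.card = g.support.card + k.support.card) (x : Ω) : g x = x ∨ k x = x := by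
  have h1 := Finset.card_le_card (Perm.support_mul_le g k)
  have h2 := Finset.card_union_add_card_inter g.support k.support
  have h3 : (g.support ∩ k.support).card = 0 := by
    change _ ≤ (g.support ∪ k.support).card at h1
    omega
  by_contra r
  push Not at r
  have : x ∈ g.support ∩ k.support :=
    Finset.mem_inter.2 ⟨Perm.mem_support.2 r.1, Perm.mem_support.2 r.2⟩
  rw [Finset.card_eq_zero.1 h3] at this
  exact absurd this (Finset.notMem_empty x)

theorem sum_cls {A : Type} [Fintype A] (cls : A → Fin 4) (g : Fin 4 → ℕ) :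
    ∑ a, g (cls a) = ∑ t, (Finset.univ.filter fun a => cls a = t).card * g t := by
  rw [← Finset.sum_fiberwise Finset.univ cls]
  refine Finset.sum_congr rfl fun t _ => ?_
  rw [Finset.sum_congr rfl fun a ha => by rw [(Finset.mem_filter.1 ha).2], Finset.sum_const,
    smul_eq_mul]

end Cfsg.Agent.H70.KO
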