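import Mathlib
import Cfsg.Agent.H50.L81Defs

/-! Composition series of modules of `SL₂(81)` in characteristic three. -/

set_option autoImplicit false

namespace Cfsg.Agent.H70.L81Ser

open Module H82 H50.SL2S H50.L81 H50.E83
open scoped MatrixGroups

section
variable {F k : Type*} [Field F] [Field k] (ι : F →+* k) [Fintype F] (p : ℕ) [Fact p.Prime]
  [CharP k p]

include p in
theorem simple_emb {V : Type*} [AddCommGroup V] [Module k V] [FiniteDimensional k V]
    [Nontrivial V] (ρ : SL(2, F) →* Module.End k V)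
    (hs : ∀ W : Submodule k V, (∀ g, W ≤ W.comap (ρ g)) → W = ⊥ ∨ W = ⊤) :
    ∃ r < Fintype.card F, ∃ Φ : V →ₗ[k] (SL(2, F) → k), Function.Injective Φ ∧
      (∀ g v, Φ (ρ g v) = RR k g (Φ v)) ∧ LinearMap.range Φ = Sp k (cc ι) (dd ι) r := by
  classical
  obtain ⟨φ, h4, h5, r, h6, h7, h8⟩ := exists_form ι ρ p
  have hinj : Function.Injective (Phi ρ φ) := by
    rw [← LinearMap.ker_eq_bot]
    refine (hs _ fun g v hv => ?_).resolve_right fun e => h4 (LinearMap.ext fun v => ?_)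
    · rw [Submodule.mem_comap, LinearMap.mem_ker, Phi_rho, LinearMap.mem_ker.1 hv, map_zero]
    · have := congrFun (LinearMap.mem_ker.1 (e.ge (Submodule.mem_top (x := v)))) 1
      simpa [Phi_apply] using this
  obtain ⟨r, hr, v0, hv0⟩ := exists_cc ι ρ p hinj h5 h6 h7 h8
  refine ⟨r, hr, Phi ρ φ, hinj, Phi_rho ρ φ, le_antisymm ?_ ?_⟩
  · rintro _ ⟨v, rfl⟩
    refine ((hs ((Sp k (cc ι) (dd ι) r).comap (Phi ρ φ)) fun g v hv => ?_).resolve_left
      fun e => ?_).ge (Submodule.mem_top (x := v))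
    · rw [Submodule.mem_comap, Submodule.mem_comap, Phi_rho]
      exact RR_Sp ι g r hv
    · have : v0 = 0 := (Submodule.mem_bot k).1 (e ▸ by
        simpa [hv0] using mem_Sp (cc ι) (dd ι) r (1 : k) 0)
      have := congrFun (this ▸ hv0) (ww F)
      simp [cc, ent2] at this
  · exact Sp_le p fun j hj hp => mono_mem ι.injective hr p (fun t => LinearMap.mem_range.2
      ⟨ρ (ll t) v0, by
        have := RR_lin ι (ll t) 1 0
        simp only [ent, one_smul, zero_smul, map_one, map_zero, add_zero, one_mul, zero_mul] at this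
        rw [Phi_rho, hv0, map_pow, this]⟩) hj hp

end

theorem step (p : Par) {W : Type} [AddCommGroup W] [Module K W] [FiniteDimensional K W]
    (ρ : SL →* Module.End K W) (hρ : ρ (-1) = 1) {U U' : Submodule K W} (hU : Inv ρ U) (hU' : Inv ρ U') (h : U < U') :
    ∃ U'' r, Step ρ p U U'' r ∧ U < U'' ∧ U'' ≤ U' := by
  obtain ⟨X, ⟨hX, hUX, hXU⟩, hmin⟩ := (wellFounded_lt (α := Submodule K W)).has_min
    {X | Inv ρ X ∧ U < X ∧ X ≤ U'} ⟨U', hU', h, le_rfl⟩
  let ρ1 : SL →* Module.End K X :=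
    { toFun := fun g => (ρ g).restrict (hX g)
      map_one' := by ext x; simp
      map_mul' := fun a b => by ext x; simp }
  have hW : ∀ g, U.comap X.subtype ≤ (U.comap X.subtype).comap (ρ1 g) := fun g v hv => hU g _ hv
  let ρ2 : SL →* Module.End K (X ⧸ U.comap X.subtype) :=
    { toFun := fun g => (U.comap X.subtype).mapQ _ (ρ1 g) (hW g)
      map_one' := by ext x; simp
      map_mul' := fun a b => by ext x; simp }
  have : Nontrivial (X ⧸ U.comap X.subtype) :=
    Submodule.Quotient.nontrivial_iff.2 fun e => hUX.not_ge fun v hv =>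
      (e.ge (Submodule.mem_top (x := (⟨v, hv⟩ : X))) :)
  obtain ⟨r, hr, Φ, hinj, hΦ, hrange⟩ := simple_emb p.κ 3 ρ2 fun Y hY => by
    by_cases e : Y = ⊥
    · exact .inl e
    right
    obtain ⟨y, hy, hy0⟩ := Submodule.exists_mem_ne_zero_of_ne_bot e
    obtain ⟨y, rfl⟩ := Submodule.Quotient.mk_surjective _ y
    have h1 : (Y.comap (U.comap X.subtype).mkQ).map X.subtype ≤ X := Submodule.map_subtype_le _ _
    have h2 : (Y.comap (U.comap X.subtype).mkQ).map X.subtype = X := by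
      refine h1.eq_or_lt.resolve_right (hmin _ ⟨?_, lt_of_le_of_ne (fun u hu => ?_) fun e' => ?_,
        h1.trans hXU⟩)
      · rintro g _ ⟨v, hv, rfl⟩
        exact ⟨ρ1 g v, hY g hv, rfl⟩
      · refine ⟨⟨u, hUX.le hu⟩, ?_, rfl⟩
        show Submodule.Quotient.mk _ ∈ Y
        rw [(Submodule.Quotient.mk_eq_zero _).2 (show _ ∈ U.comap X.subtype from hu)]
        exact Y.zero_mem
      · refine hy0 ((Submodule.Quotient.mk_eq_zero _).2 ?_)
        show (y : W) ∈ U
        rw [e']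
        exact ⟨y, hy, rfl⟩
    refine top_unique fun z _ => ?_
    obtain ⟨z, rfl⟩ := Submodule.Quotient.mk_surjective _ z
    obtain ⟨z', hz', e'⟩ := h2.ge z.2
    obtain rfl : z' = z := Subtype.ext e'
    exact hz'
  obtain ⟨Ψ, hΨ⟩ := LinearMap.exists_extend (Φ ∘ₗ (U.comap X.subtype).mkQ)
  have hΨ' : ∀ v : X, Ψ v = Φ (Submodule.Quotient.mk v) := fun v => DFunLike.congr_fun hΨ v
  have hev : Even r := by
    have h1 : cc p.κ ^ r ∈ LinearMap.range Φ := by
      rw [hrange]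
      simpa using mem_Sp (cc p.κ) (dd p.κ) r (1 : K) 0
    obtain ⟨v, hv⟩ := h1
    obtain ⟨v, rfl⟩ := Submodule.Quotient.mk_surjective _ v
    have h2 : ρ2 (-1) (Submodule.Quotient.mk v) = Submodule.Quotient.mk v := by
      have : ρ1 (-1) v = v := Subtype.ext (by
        show ρ (-1) (v : W) = v
        rw [hρ]; rfl)
      exact congrArg Submodule.Quotient.mk this
    have h3 := congrFun (hΦ (-1) (Submodule.Quotient.mk v)) (ww F)
    rw [h2, hv, RR_apply] at h3
    have h4 : (1 : K) = (-1) ^ r := by simpa [cc, ent2] using h3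
    by_contra h5
    rw [(Nat.not_even_iff_odd.1 h5).neg_one_pow] at h4
    have h6 : ((2 : ℕ) : K) = 0 := by
      rw [Nat.cast_ofNat]
      linear_combination h4
    exact absurd ((CharP.cast_eq_zero_iff K 3 2).1 h6) (by norm_num)
  refine ⟨X, r, ⟨card_F ▸ hr, hev, hUX.le, hX, Ψ, fun g v hv => ?_, ?_, fun v hv => ?_⟩, hUX, hXU⟩
  · rw [reg_apply, hΨ' ⟨v, hv⟩, ← hΦ]
    exact hΨ' ⟨ρ g v, hX g v hv⟩
  · rw [SP, ← hrange]
    ext f
    constructor
    · rintro ⟨v, hv, rfl⟩
      exact ⟨_, (hΨ' ⟨v, hv⟩).symm⟩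
    · rintro ⟨v, rfl⟩
      obtain ⟨v, rfl⟩ := Submodule.Quotient.mk_surjective _ v
      exact ⟨v, v.2, hΨ' v⟩
  · rw [hΨ' ⟨v, hv⟩, map_eq_zero_iff Φ hinj, Submodule.Quotient.mk_eq_zero]
    rfl

theorem ser_inv {p : Par} {W : Type} [AddCommGroup W] [Module K W] {ρ : SL →* Module.End K W}
    {U : Submodule K W} {L : List ℕ} (h : Ser ρ p U L) : Inv ρ U ∧ ∀ r ∈ L, r < 81 ∧ Even r := by
  induction h with
  | nil => exact ⟨fun g v hv => by rw [(Submodule.mem_bot K).1 hv, map_zero]; exact Submodule.zero_mem _,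
      fun r hr => absurd hr List.not_mem_nil⟩
  | cons _ hs ih =>
    refine ⟨hs.2.2.2.1, fun r hr => ?_⟩
    rcases List.mem_cons.1 hr with rfl | hr
    exacts [⟨hs.1, hs.2.1⟩, ih.2 r hr]

theorem ser : SerStmt := by
  intro p W _ _ _ ρ hρ
  refine ⟨fun U U' hU hU' h => ?_, fun U L h => ser_inv h, fun U L U' h hle hU' => ?_⟩
  · obtain ⟨X, r, h1, -, h2⟩ := step p ρ hρ hU hU' h
    exact ⟨X, r, h1, h2⟩
  · induction U using (wellFounded_gt (α := Submodule K W)).induction generalizing L with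
    | _ U ih =>
      rcases hle.eq_or_lt with rfl | hlt
      · exact ⟨[], h⟩
      obtain ⟨X, r, h1, h2, h3⟩ := step p ρ hρ (ser_inv h).1 hU' hlt
      obtain ⟨L', hL'⟩ := ih X h2 (r :: L) (.cons h h1) h3
      exact ⟨L' ++ [r], by simpa using hL'⟩

end Cfsg.Agent.H70.L81Ser
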