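import Mathlib
import Cfsg.Agent.H71.P3Defs

/-! A proper point-transitive subgroup of a symplectic group contains no transvection. -/

set_option autoImplicit false

namespace Cfsg.Agent.H70.P3Tv

open Cfsg Module Cfsg.Agent.H27 Cfsg.Agent.H71.P3
open scoped Pointwise MatrixGroups

variable {F V : Type} [Field F] [AddCommGroup V] [Module F V]

/-- The elements supported on `T`. -/
def suppG (S : Sp F V) (T : Submodule F V) : Subgroup (V ≃ₗ[F] V) where
  carrier := {g | S.Supp T g}
  one_mem' _ _ := rfl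
  mul_mem' {g h} hg hh v hv := by rw [LinearEquiv.mul_apply, hh v hv, hg v hv]
  inv_mem' {g} hg v hv := by
    conv_lhs => rw [← hg v hv]
    exact g.symm_apply_apply v

theorem coord (S : Sp F V) {u w : V} (h : S.B u w = 1) {a b : Fin 2 → F}
    (e : a 0 • u + a 1 • w = b 0 • u + b 1 • w) : a = b := by
  have h1 := congrArg (fun x => S.B x w) e
  have h2 := congrArg (fun x => S.B u x) e
  simp only [map_add, map_smul, LinearMap.add_apply, LinearMap.smul_apply, smul_eq_mul, h,
    S.alt.self_eq_zero, mul_one, mul_zero, add_zero, zero_add] at h1 h2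
  funext i
  fin_cases i
  exacts [h1, h2]

variable [Finite F] [Finite V]

theorem exists_j (neg : NegStmt) (rho : RhoStmt) (S : Sp F V) {K : Subgroup (V ≃ₗ[F] V)}
    (hK : K ≤ S.G) (ht : ∀ x, x ≠ 0 → ∃ a, a ≠ 0 ∧ S.t x a ∈ K) {u w : V} (h : S.B u w = 1) :
    ∃ j ∈ K, j u = -u ∧ ∀ v, S.B v u = 0 → S.B v w = 0 → j v = v := by
  have hu : u ≠ 0 := by rintro rfl; simp at h
  have hw : w ≠ 0 := by rintro rfl; simp at h
  have h' : S.B w u = -1 := by rw [← S.alt.neg_eq, h]
  obtain ⟨a, ha, hta⟩ := ht u hu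
  obtain ⟨b, hb, htb⟩ := ht w hw
  obtain ⟨ρ, hρ⟩ := rho S (K ⊓ suppG S (Submodule.span F {0, u, w})) (inf_le_left.trans hK) 0 u w h
    (by simp) (by simp) fun g hg => hg.2
  simp only [Submodule.span_zero_singleton, Submodule.mem_bot, sub_eq_zero] at hρ
  have key : ∀ (g : ↥(K ⊓ suppG S (Submodule.span F {0, u, w}))) (x y : Fin 2 → F),
      (g : V ≃ₗ[F] V) (x 0 • u + x 1 • w) = y 0 • u + y 1 • w →
      (ρ g : Matrix (Fin 2) (Fin 2) F).mulVec x = y := fun g x y e =>
    coord S h ((hρ g x).symm.trans e)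
  let g : ↥(K ⊓ suppG S (Submodule.span F {0, u, w})) :=
    ⟨S.t u a, hta, fun v hv => altTv_apply_of_orth _ _ (hv u (Submodule.subset_span (by simp)))⟩
  let g' : ↥(K ⊓ suppG S (Submodule.span F {0, u, w})) :=
    ⟨S.t w b, htb, fun v hv => altTv_apply_of_orth _ _ (hv w (Submodule.subset_span (by simp)))⟩
  have e1 := key g ![1, 0] ![1, 0] (by simp [g, altTv_apply, S.alt.self_eq_zero])
  have e2 := key g ![0, 1] ![-a, 1] (by simp [g, altTv_apply, h', add_comm])
  have e3 := key g' ![0, 1] ![0, 1] (by simp [g', altTv_apply, S.alt.self_eq_zero])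
  have e4 := key g' ![1, 0] ![1, b] (by simp [g', altTv_apply, h])
  obtain ⟨j, hj⟩ := (neg F S.odd ρ.range).1 _ ⟨g, rfl⟩ _ ⟨g', rfl⟩ ![1, 0] ![0, 1]
    (fun e => by
      rw [e] at e2
      have := congrFun e2 0
      simp [ha] at this)
    (fun e => by
      rw [e] at e4
      have := congrFun e4 1
      simp [hb.symm] at this)
    (fun e => by simpa using congrFun e 0) (fun e => by simpa using congrFun e 1)
    (fun e => by
      obtain ⟨c, hc⟩ := Submodule.mem_span_singleton.1 e
      simpa using congrFun hc 1) e1 e3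
  refine ⟨j, j.2.1, ?_, fun v h1 h2 => j.2.2 v fun s hs => ?_⟩
  · have := hρ j ![1, 0]
    rw [hj] at this
    simpa [Matrix.neg_mulVec] using this
  · induction hs using Submodule.span_induction with
    | mem x hx =>
      rcases hx with rfl | rfl | rfl
      exacts [map_zero _, h1, h2]
    | zero => exact map_zero _
    | add x y _ _ hx hy => rw [map_add, hx, hy, add_zero]
    | smul c x _ hx => rw [map_smul, hx, smul_zero]

theorem exists_swap (neg : NegStmt) (rho : RhoStmt) (S : Sp F V) {K : Subgroup (V ≃ₗ[F] V)}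
    (hK : K ≤ S.G) (ht : ∀ x, x ≠ 0 → ∃ a, a ≠ 0 ∧ S.t x a ∈ K) {x y : V} (hx : x ≠ 0)
    (hy : y ∉ F ∙ x) (h : S.B x y = 0) : ∃ g ∈ K, g x = y := by
  have h2 := S.two_ne_zero
  have hn : x - y ∉ F ∙ (x + y) := fun e => by
    obtain ⟨c, hc⟩ := Submodule.mem_span_singleton.1 e
    by_cases hc1 : c + 1 = 0
    · have : (2 : F) • x = 0 := by
        rw [eq_neg_of_add_eq_zero_left hc1] at hc
        linear_combination (norm := module) -hc
      exact hx ((smul_eq_zero.1 this).resolve_left h2)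
    · refine hy (Submodule.mem_span_singleton.2 ⟨(c + 1)⁻¹ * (1 - c), ?_⟩)
      rw [mul_smul, inv_smul_eq_iff₀ hc1]
      linear_combination (norm := module) -hc
  obtain ⟨w, hw1, hw2⟩ := exists_orth_ne_zero S.nd S.alt.isRefl _ hn
  have hw3 : S.B (x + y) w = 0 := hw1 _ (Submodule.mem_span_singleton_self _)
  obtain ⟨j, hj, j1, j2⟩ := exists_j neg rho S hK ht (u := x - y) (w := (S.B (x - y) w)⁻¹ • w)
    (by rw [map_smul, smul_eq_mul, inv_mul_cancel₀ hw2])
  have j3 := j2 (x + y)
    (by simp [S.alt.self_eq_zero, h, S.alt.isRefl _ _ h]) (by rw [map_smul, hw3, smul_zero])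
  refine ⟨j, hj, smul_right_injective V h2 ?_⟩
  rw [map_sub] at j1
  rw [map_add] at j3
  change (2 : F) • j x = (2 : F) • y
  linear_combination (norm := module) j1 + j3

omit [Finite F] in
theorem exists_perp (S : Sp F V) (x : V) : ∃ y, y ∉ F ∙ x ∧ S.B x y = 0 := by
  by_contra hc
  push Not at hc
  have h1 : LinearMap.ker (S.B x) ≤ F ∙ x := fun y hy => by
    by_contra h
    exact hc y h hy
  have h2 := Submodule.finrank_mono h1
  have h3 := LinearMap.finrank_range_add_finrank_ker (S.B x)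
  have h4 : finrank F (LinearMap.range (S.B x)) ≤ 1 := by
    simpa using Submodule.finrank_le (LinearMap.range (S.B x))
  have h5 : finrank F (F ∙ x) ≤ 1 := by simpa using finrank_span_le_card ({x} : Set V) (R := F)
  have := S.hk
  have := S.dim
  omega

theorem tv (neg : NegStmt) (rho : RhoStmt) : TvStmt := by
  intro F V _ _ _ _ _ S K hK pt hne w₀ c₀ hw hc hm
  have conj : ∀ g ∈ K, ∀ x a, S.t x a ∈ K → S.t (g x) a ∈ K := fun g hg x a h => by
    rw [Sp.t, ← altTv_conj S.alt (hK hg)]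
    exact mul_mem (mul_mem hg h) (inv_mem hg)
  have ht : ∀ x, x ≠ 0 → ∃ a, a ≠ 0 ∧ S.t x a ∈ K := fun x hx => by
    obtain ⟨g, hg, c, e⟩ := pt w₀ x hw hx
    have hc0 : c ≠ 0 := by
      rintro rfl
      rw [zero_smul, LinearEquiv.map_eq_zero_iff] at e
      exact hw e
    refine ⟨c ^ 2 * c₀, mul_ne_zero (pow_ne_zero _ hc0) hc, ?_⟩
    rw [Sp.t, ← altTv_smul, ← e]
    exact conj g hg _ _ hm
  refine hne (isomGroup_le_of_altTv_mem S.nd S.alt K fun x c => ?_)
  by_cases hx : x = 0
  · have : altTv S.alt x c = 1 := by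
      ext v
      simp [altTv_apply, hx]
    rw [this]
    exact one_mem _
  obtain ⟨a, ha, hxa⟩ := ht x hx
  obtain ⟨y, hy, hxy⟩ := exists_perp S x
  have sq : ∀ l : F, altTv S.alt x (l ^ 2 * a) ∈ K := fun l => by
    by_cases hl : l = 0
    · rw [hl, zero_pow two_ne_zero, zero_mul, altTv_zero]
      exact one_mem _
    obtain ⟨g, hg, e⟩ := exists_swap neg rho S hK ht hx hy hxy
    obtain ⟨g', hg', e'⟩ := exists_swap neg rho S hK ht (smul_ne_zero hl hx) (y := y)
      (by rwa [Submodule.span_singleton_smul_eq (IsUnit.mk0 _ hl)])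
      (by rw [map_smul, LinearMap.smul_apply, hxy, smul_zero])
    have := conj _ (inv_mem hg') _ _ (conj g hg _ _ hxa)
    rw [e, ← e', show g'⁻¹ (g' (l • x)) = l • x from g'.symm_apply_apply _] at this
    rwa [← altTv_smul]
  have h2 := S.two_ne_zero
  have e : c = ((c / a + 1) / 2) ^ 2 * a + -(((c / a - 1) / 2) ^ 2 * a) := by
    field_simp
    ring
  rw [e, ← altTv_mul, ← altTv_inv]
  exact mul_mem (sq _) (inv_mem (sq _))

end Cfsg.Agent.H70.P3Tv
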