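import Mathlib
import Cfsg.Agent.H87.PWDefs
import Cfsg.Agent.S0711

/-!
Bochert's bound on the minimal degree of a 4-transitive permutation group (piece BOCH of project PW).
-/

set_option autoImplicit false
open Equiv Finset

namespace Cfsg.Agent.H70.Boch

variable {β : Type} [Fintype β] [DecidableEq β]

/-- four pairwise distinct points -/
structure D4 (a b c d : β) : Prop where
  ab : a ≠ b
  ac : a ≠ c
  ad : a ≠ d
  bc : b ≠ c
  bd : b ≠ d
  cd : c ≠ d

/-- fourfold transitivity, elementwise -/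
def T4 (G : Subgroup (Perm β)) : Prop :=
  ∀ a b c d a' b' c' d' : β, D4 a b c d → D4 a' b' c' d' →
    ∃ k ∈ G, k a = a' ∧ k b = b' ∧ k c = c' ∧ k d = d'

omit [Fintype β] [DecidableEq β] in
theorem D4.inj {a b c d : β} (h : D4 a b c d) : Function.Injective ![a, b, c, d] := by
  intro i j e
  have h1 := h.ab
  have h2 := h.ac
  have h3 := h.ad
  have h4 := h.bc
  have h5 := h.bd
  have h6 := h.cd
  fin_cases i <;> fin_cases j <;> simp_all

omit [Fintype β] [DecidableEq β] in
theorem t4_of {G : Subgroup (Perm β)} (hG : MulAction.IsMultiplyPretransitive G β 4) : T4 G := by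
  intro a b c d a' b' c' d' h h'
  obtain ⟨k, hk⟩ := MulAction.isMultiplyPretransitive_iff.1 hG ⟨_, h.inj⟩ ⟨_, h'.inj⟩
  have e : ∀ i : Fin 4, (k : Perm β) (![a, b, c, d] i) = ![a', b', c', d'] i := fun i =>
    congrArg (fun f : Fin 4 ↪ β => f i) hk
  exact ⟨k, k.2, e 0, e 1, e 2, e 3⟩

open Classical in
/-- the elements of `G` with four prescribed values -/
noncomputable def N (G : Subgroup (Perm β)) (a b c d a' b' c' d' : β) : Finset (Perm β) :=
  univ.filter fun h => h ∈ G ∧ h a = a' ∧ h b = b' ∧ h c = c' ∧ h d = d'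

theorem mem_N {G : Subgroup (Perm β)} {a b c d a' b' c' d' : β} {h : Perm β} :
    h ∈ N G a b c d a' b' c' d' ↔ h ∈ G ∧ h a = a' ∧ h b = b' ∧ h c = c' ∧ h d = d' := by
  simp [N]

theorem N_le {G : Subgroup (Perm β)} (hG : T4 G) {a b c d a' b' c' d' e f i j e' f' i' j' : β}
    (h1 : D4 a b c d) (h2 : D4 a' b' c' d') (h3 : D4 e f i j) (h4 : D4 e' f' i' j') :
    (N G a b c d a' b' c' d').card ≤ (N G e f i j e' f' i' j').card := by
  obtain ⟨k, hk, k1, k2, k3, k4⟩ := hG _ _ _ _ _ _ _ _ h3 h1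
  obtain ⟨l, hl, l1, l2, l3, l4⟩ := hG _ _ _ _ _ _ _ _ h2 h4
  apply Finset.card_le_card_of_injOn (fun h => l * h * k)
  · intro h hh
    rw [Finset.mem_coe, mem_N] at hh
    rw [Finset.mem_coe, mem_N]
    obtain ⟨g0, g1, g2, g3, g4⟩ := hh
    refine ⟨G.mul_mem (G.mul_mem hl g0) hk, ?_, ?_, ?_, ?_⟩ <;>
      simp only [Perm.mul_apply, *]
  · intro h _ h' _ e
    simpa using e

theorem N_eq {G : Subgroup (Perm β)} (hG : T4 G) {a b c d a' b' c' d' e f i j e' f' i' j' : β}
    (h1 : D4 a b c d) (h2 : D4 a' b' c' d') (h3 : D4 e f i j) (h4 : D4 e' f' i' j') :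
    (N G a b c d a' b' c' d').card = (N G e f i j e' f' i' j').card :=
  le_antisymm (N_le hG h1 h2 h3 h4) (N_le hG h3 h4 h1 h2)

open Classical in
/-- the elements of `G` with two prescribed values -/
noncomputable def C (G : Subgroup (Perm β)) (a b a' b' : β) : Finset (Perm β) :=
  univ.filter fun h => h ∈ G ∧ h a = a' ∧ h b = b'

theorem mem_C {G : Subgroup (Perm β)} {a b a' b' : β} {h : Perm β} :
    h ∈ C G a b a' b' ↔ h ∈ G ∧ h a = a' ∧ h b = b' := by
  simp [C]

/-- equidistribution -/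
theorem count2 {G : Subgroup (Perm β)} {a b a' b' x y : β} {μ : ℕ} (hab : a ≠ b)
    (hμ : ∀ z w, D4 a b z w → (N G a b z w a' b' x y).card = μ) (P : Finset (β × β))
    (hP : ∀ p ∈ P, p.1 ≠ a ∧ p.1 ≠ b ∧ p.2 ≠ a ∧ p.2 ≠ b ∧ p.1 ≠ p.2) :
    ((C G a b a' b').filter fun h => (h⁻¹ x, h⁻¹ y) ∈ P).card = P.card * μ := by
  rw [Finset.card_eq_sum_card_fiberwise (f := fun h : Perm β => (h⁻¹ x, h⁻¹ y)) (t := P)
    (s := (C G a b a' b').filter fun h => (h⁻¹ x, h⁻¹ y) ∈ P)
    (fun h hh => (Finset.mem_filter.1 (Finset.mem_coe.1 hh)).2)]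
  rw [Finset.sum_const_nat]
  rintro ⟨z, w⟩ hp
  obtain ⟨p1, p2, p3, p4, p5⟩ := hP _ hp
  rw [← hμ z w ⟨hab, p1.symm, p3.symm, p2.symm, p4.symm, p5⟩]
  congr 1
  ext h
  simp only [Finset.mem_filter, mem_C, mem_N, Prod.mk.injEq]
  constructor
  · rintro ⟨⟨⟨g0, g1, g2⟩, -⟩, e1, e2⟩
    refine ⟨g0, g1, g2, ?_, ?_⟩
    · rw [← e1]; exact h.apply_symm_apply x
    · rw [← e2]; exact h.apply_symm_apply y
  · rintro ⟨g0, g1, g2, g3, g4⟩
    have e1 : h⁻¹ x = z := by rw [← g3]; exact h.symm_apply_apply z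
    have e2 : h⁻¹ y = w := by rw [← g4]; exact h.symm_apply_apply w
    exact ⟨⟨⟨g0, g1, g2⟩, by rw [e1, e2]; exact hp⟩, e1, e2⟩

/-- the fixed points -/
def Fx (g : Perm β) : Finset β := univ.filter fun x => g x = x

theorem mem_Fx {g : Perm β} {x : β} : x ∈ Fx g ↔ g x = x := by simp [Fx]

theorem Fx_card (g : Perm β) : (Fx g).card + g.support.card = Fintype.card β := by
  have := Finset.card_filter_add_card_filter_not (s := (univ : Finset β)) (fun x => g x = x)
  rw [Finset.card_univ] at this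
  exact this

theorem arith {s f : ℕ} (hs : 6 ≤ s) (hf : 8 ≤ f) (hn : 30 ≤ f + s)
    (h : (f - 1) * (f * (f + s - 3) + (f - 2) * (s - 3)) + (s - 2) * (f * f - f) ≤
      (f + s - 2) * (f + s - 3) * f) : f ≤ s + 4 := by
  obtain ⟨t, rfl⟩ : ∃ t, s = t + 6 := ⟨s - 6, by omega⟩
  obtain ⟨e, rfl⟩ : ∃ e, f = e + 8 := ⟨f - 8, by omega⟩
  have e1 : e + 8 - 1 = e + 7 := by omega
  have e2 : e + 8 + (t + 6) - 3 = e + t + 11 := by omega
  have e3 : e + 8 - 2 = e + 6 := by omega
  have e4 : t + 6 - 3 = t + 3 := by omega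
  have e5 : t + 6 - 2 = t + 4 := by omega
  have e6 : (e + 8) * (e + 8) - (e + 8) = (e + 8) * (e + 7) := by
    rw [Nat.sub_eq_iff_eq_add (by nlinarith)]; ring
  have e7 : e + 8 + (t + 6) - 2 = e + t + 12 := by omega
  rw [e1, e2, e3, e4, e5, e6, e7] at h
  -- f (s - 4) < s ^ 2 - 8
  have key : (e + 8) * (t + 2) < (t + 6) * (t + 6) - 8 := by
    have e8 : (t + 6) * (t + 6) - 8 = t * t + 12 * t + 28 := by
      rw [Nat.sub_eq_iff_eq_add (by nlinarith)]; ring
    rw [e8]
    by_contra hc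
    push Not at hc
    have := Nat.mul_le_mul_left (e + 8) hc
    nlinarith
  have e8 : (t + 6) * (t + 6) - 8 = t * t + 12 * t + 28 := by
    rw [Nat.sub_eq_iff_eq_add (by nlinarith)]; ring
  rw [e8] at key
  by_contra hc
  push Not at hc
  rcases Nat.lt_or_ge t 6 with ht | ht
  · have : 16 ≤ e + t := by omega
    interval_cases t <;> omega
  · have : t + 3 ≤ e := by omega
    nlinarith

/-- the commutator of `g` with its conjugate by `h` -/
def cm (g h : Perm β) : Perm β := g * (h * g * h⁻¹) * g⁻¹ * (h * g * h⁻¹)⁻¹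

omit [Fintype β] [DecidableEq β] in
theorem cm_apply (g h : Perm β) (x : β) :
    cm g h x = g (h (g (h⁻¹ (g⁻¹ (h (g⁻¹ (h⁻¹ x))))))) := by
  simp [cm, Perm.mul_apply]

omit [Fintype β] [DecidableEq β] in
theorem ai (y : Perm β) (x : β) : y (y⁻¹ x) = x := y.apply_symm_apply x

omit [Fintype β] [DecidableEq β] in
theorem ia (y : Perm β) (x : β) : y⁻¹ (y x) = x := y.symm_apply_apply x

omit [Fintype β] [DecidableEq β] in
theorem inv_of {y : Perm β} {x z : β} (h : y x = z) : y⁻¹ z = x := by rw [← h, ia]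

omit [Fintype β] [DecidableEq β] in
theorem cm_ne {g h : Perm β} {a c : β} (ha : g a ≠ a) (hc : g c = c) (h1 : h a = a)
    (h2 : h (g a) = c) : cm g h ≠ 1 := by
  intro e
  have e1 : g * (h * g * h⁻¹) = (h * g * h⁻¹) * g := by
    have : g * (h * g * h⁻¹) = cm g h * ((h * g * h⁻¹) * g) := by unfold cm; group
    rw [this, e, one_mul]
  have e2 := congrArg (fun k : Perm β => k a) e1
  simp only [Perm.mul_apply] at e2
  rw [inv_of h1, h2, hc, ← h2] at e2
  have e3 := g.injective (h.injective e2)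
  have e4 : h a = g a := by rw [e3]; nth_rewrite 1 [ai]; rw [← e3]
  exact ha (e4.symm.trans h1)

omit [Fintype β] [DecidableEq β] in
theorem cm_fix1 {g h : Perm β} {x y : β} (hx : g x = x) (hy : g y = y)
    (e : g (h⁻¹ y) = h⁻¹ x) : cm g h x = x := by
  rw [cm_apply, inv_of e, ai, inv_of hy, e, ai, hx]

omit [Fintype β] [DecidableEq β] in
theorem cm_fix2 {g h : Perm β} {x : β} (e : g (h⁻¹ x) = h⁻¹ x)
    (e' : g (h⁻¹ (g⁻¹ x)) = h⁻¹ (g⁻¹ x)) : cm g h x = x := by
  rw [cm_apply, inv_of e, ai, e', ai, ai]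

section main
variable {G : Subgroup (Perm β)} {g : Perm β} {a c : β} {μ : ℕ}

theorem card_C (ha : g a ≠ a) {x y : β} (hd : D4 a c x y)
    (hμ : ∀ z w x y, D4 a (g a) z w → D4 a c x y → (N G a (g a) z w a c x y).card = μ) :
    (C G a (g a) a c).card = (Fintype.card β - 2) * (Fintype.card β - 3) * μ := by
  have h1 := count2 (G := G) (a' := a) (b' := c) (x := x) (y := y) ha.symm
    (fun z w h => hμ z w x y h hd) (((univ : Finset β) \ {a, g a}).offDiag) (by
      intro p hp
      simp only [Finset.mem_offDiag, Finset.mem_sdiff, Finset.mem_univ, true_and,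
        Finset.mem_insert, Finset.mem_singleton, not_or] at hp
      exact ⟨hp.1.1, hp.1.2, hp.2.1.1, hp.2.1.2, hp.2.2⟩)
  rw [Finset.filter_true_of_mem] at h1
  · rw [h1, Finset.offDiag_card, Finset.card_sdiff_of_subset (Finset.subset_univ _),
      Finset.card_univ, Finset.card_pair ha.symm]
    congr 1
    have : Fintype.card β - 3 = Fintype.card β - 2 - 1 := by omega
    rw [this, Nat.mul_sub_one]
  · intro h hh
    obtain ⟨-, g1, g2⟩ := mem_C.1 hh
    simp only [Finset.mem_offDiag, Finset.mem_sdiff, Finset.mem_univ, true_and,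
      Finset.mem_insert, Finset.mem_singleton, not_or]
    refine ⟨⟨fun e => hd.ac ?_, fun e => hd.bc ?_⟩, ⟨fun e => hd.ad ?_, fun e => hd.bd ?_⟩,
      fun e => hd.cd (h⁻¹.injective e)⟩
    · rw [← g1, ← e, ai]
    · rw [← g2, ← e, ai]
    · rw [← g1, ← e, ai]
    · rw [← g2, ← e, ai]

omit [Fintype β] [DecidableEq β] in
theorem fix_ne (ha : g a ≠ a) {z : β} (hz : g z = z) : z ≠ a ∧ z ≠ g a :=
  ⟨fun e => ha (e ▸ hz), fun e => ha (g.injective (by rw [← e, hz]))⟩

theorem bound_S (ha : g a ≠ a) (hc : g c = c)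
    (hμ : ∀ z w x y, D4 a (g a) z w → D4 a c x y → (N G a (g a) z w a c x y).card = μ)
    {x : β} (hx : g x ≠ x) (h1 : x ≠ a) (h2 : x ≠ g a) :
    ((Fx g).card * (Fx g).card - (Fx g).card) * μ ≤
      ((C G a (g a) a c).filter fun h => cm g h x = x).card := by
  have hd : D4 a c x (g⁻¹ x) :=
    ⟨(fix_ne ha hc).1.symm, h1.symm, fun e => h2 (by rw [e, ai]), fun e => hx (e ▸ hc),
      fun e => hx (by have : g c = x := by rw [e, ai]
                      rw [← this, hc, hc]),
      fun e => hx (by nth_rewrite 1 [e]; rw [ai])⟩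
  have h3 := count2 (G := G) (a' := a) (b' := c) (x := x) (y := g⁻¹ x) ha.symm
    (fun z w h => hμ z w _ _ h hd) ((Fx g).offDiag) (by
      intro p hp
      simp only [Finset.mem_offDiag, mem_Fx] at hp
      exact ⟨(fix_ne ha hp.1).1, (fix_ne ha hp.1).2, (fix_ne ha hp.2.1).1, (fix_ne ha hp.2.1).2,
        hp.2.2⟩)
  rw [← Finset.offDiag_card, ← h3]
  apply Finset.card_le_card
  intro h hh
  simp only [Finset.mem_filter, Finset.mem_offDiag, mem_Fx] at hh ⊢
  exact ⟨hh.1, cm_fix2 hh.2.1 hh.2.2.1⟩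

theorem bound_A (ha : g a ≠ a)
    (hμ : ∀ z w x y, D4 a (g a) z w → D4 a c x y → (N G a (g a) z w a c x y).card = μ)
    {x y : β} (hd : D4 a c x y) :
    (Fx g).card * (Fintype.card β - 3) * μ ≤
      ((C G a (g a) a c).filter fun h => g (h⁻¹ x) = h⁻¹ x).card := by
  have h3 := count2 (G := G) (a' := a) (b' := c) (x := x) (y := y) ha.symm
    (fun z w h => hμ z w _ _ h hd) ((Fx g ×ˢ ((univ : Finset β) \ {a, g a})) \ (Fx g).diag) (by
      intro p hp
      simp only [Finset.mem_sdiff, Finset.mem_product, mem_Fx, Finset.mem_univ, true_and,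
        Finset.mem_insert, Finset.mem_singleton, not_or, Finset.mem_diag, not_and] at hp
      exact ⟨(fix_ne ha hp.1.1).1, (fix_ne ha hp.1.1).2, hp.1.2.1, hp.1.2.2, hp.2 hp.1.1⟩)
  have h4 : (Fx g).card * (Fintype.card β - 3) ≤
      ((Fx g ×ˢ ((univ : Finset β) \ {a, g a})) \ (Fx g).diag).card := by
    refine le_trans ?_ (Finset.le_card_sdiff _ _)
    rw [Finset.card_product, Finset.diag_card, Finset.card_sdiff_of_subset (Finset.subset_univ _),
      Finset.card_univ, Finset.card_pair ha.symm]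
    have : Fintype.card β - 3 = Fintype.card β - 2 - 1 := by omega
    rw [this, Nat.mul_sub_one]
  refine le_trans (Nat.mul_le_mul_right μ h4) ?_
  rw [← h3]
  apply Finset.card_le_card
  intro h hh
  simp only [Finset.mem_filter, Finset.mem_sdiff, Finset.mem_product, mem_Fx] at hh ⊢
  exact ⟨hh.1, hh.2.1.1⟩

theorem bound_B (ha : g a ≠ a)
    (hμ : ∀ z w x y, D4 a (g a) z w → D4 a c x y → (N G a (g a) z w a c x y).card = μ)
    {x y : β} (hd : D4 a c y x) :
    (g.support.card - 3) * μ ≤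
      ((C G a (g a) a c).filter fun h => g (h⁻¹ y) = h⁻¹ x).card := by
  have h3 := count2 (G := G) (a' := a) (b' := c) (x := y) (y := x) ha.symm
    (fun z w h => hμ z w _ _ h hd) ((g.support \ {a, g a, g⁻¹ a}).image fun z => (z, g z)) (by
      intro p hp
      simp only [Finset.mem_image, Finset.mem_sdiff, Perm.mem_support, Finset.mem_insert,
        Finset.mem_singleton, not_or] at hp
      obtain ⟨z, ⟨z1, z2, z3, z4⟩, rfl⟩ := hp
      exact ⟨z2, z3, fun e => z4 (inv_of e).symm, fun e => z2 (g.injective e), z1.symm⟩)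
  have h4 : g.support.card - 3 ≤
      ((g.support \ {a, g a, g⁻¹ a}).image fun z => (z, g z)).card := by
    rw [Finset.card_image_of_injective _ (fun z w e => congrArg Prod.fst e)]
    refine le_trans ?_ (Finset.le_card_sdiff _ _)
    have : ({a, g a, g⁻¹ a} : Finset β).card ≤ 3 := Finset.card_le_three
    omega
  refine le_trans (Nat.mul_le_mul_right μ h4) ?_
  rw [← h3]
  apply Finset.card_le_card
  intro h hh
  simp only [Finset.mem_filter, Finset.mem_image, Prod.mk.injEq] at hh ⊢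
  obtain ⟨h0, z, -, e1, e2⟩ := hh
  exact ⟨h0, by rw [← e1, e2]⟩

theorem bound_F (ha : g a ≠ a) (hc : g c = c) (hf : 3 ≤ (Fx g).card)
    (hμ : ∀ z w x y, D4 a (g a) z w → D4 a c x y → (N G a (g a) z w a c x y).card = μ)
    {x : β} (hx : x ∈ (Fx g).erase c) :
    ((Fx g).card * (Fintype.card β - 3) + ((Fx g).card - 2) * (g.support.card - 3)) * μ ≤
      ((C G a (g a) a c).filter fun h => cm g h x = x).card := by
  have hx1 : x ≠ c := (Finset.mem_erase.1 hx).1
  have hx2 : g x = x := mem_Fx.1 (Finset.mem_erase.1 hx).2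
  have hcard : (((Fx g).erase c).erase x).card = (Fx g).card - 2 := by
    rw [Finset.card_erase_of_mem hx, Finset.card_erase_of_mem (mem_Fx.2 hc)]; omega
  have hd : ∀ y ∈ ((Fx g).erase c).erase x, D4 a c y x := by
    intro y hy
    simp only [Finset.mem_erase, mem_Fx] at hy
    exact ⟨(fix_ne ha hc).1.symm, (fix_ne ha hy.2.2).1.symm, (fix_ne ha hx2).1.symm, hy.2.1.symm,
      hx1.symm, hy.1⟩
  obtain ⟨y0, hy0⟩ : (((Fx g).erase c).erase x).Nonempty := by
    rw [← Finset.card_pos, hcard]; omega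
  have hd0 : D4 a c x y0 := by
    have := hd y0 hy0
    exact ⟨this.ab, this.ad, this.ac, this.bd, this.bc, this.cd.symm⟩
  have h1 : ∑ y ∈ (Fx g).erase c, ((C G a (g a) a c).filter fun h => g (h⁻¹ y) = h⁻¹ x).card ≤
      ((C G a (g a) a c).filter fun h => cm g h x = x).card := by
    rw [← Finset.card_biUnion]
    · apply Finset.card_le_card
      intro h hh
      simp only [Finset.mem_biUnion, Finset.mem_filter, Finset.mem_erase, mem_Fx] at hh ⊢
      obtain ⟨y, hy, h0, e⟩ := hh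
      exact ⟨h0, cm_fix1 hx2 hy.2 e⟩
    · intro y _ y' _ hne
      rw [Function.onFun, Finset.disjoint_left]
      intro h h1 h2
      simp only [Finset.mem_filter] at h1 h2
      exact hne (h⁻¹.injective (g.injective (h1.2.trans h2.2.symm)))
  refine le_trans ?_ h1
  rw [← Finset.add_sum_erase _ _ hx, add_mul]
  refine Nat.add_le_add (bound_A ha hμ hd0) ?_
  rw [← hcard, mul_assoc, ← smul_eq_mul, ← Finset.sum_const]
  exact Finset.sum_le_sum fun y hy => bound_B ha hμ (hd y hy)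

theorem ineq (hG : T4 G) (hg : g ∈ G) (hmin : ∀ k ∈ G, k ≠ 1 → g.support.card ≤ k.support.card)
    (hs : 2 ≤ g.support.card) (hf : 3 ≤ (Fx g).card) :
    ((Fx g).card - 1) * ((Fx g).card * (Fintype.card β - 3) +
        ((Fx g).card - 2) * (g.support.card - 3)) +
      (g.support.card - 2) * ((Fx g).card * (Fx g).card - (Fx g).card) ≤
      (Fintype.card β - 2) * (Fintype.card β - 3) * (Fx g).card := by
  obtain ⟨a, ha⟩ : g.support.Nonempty := by rw [← Finset.card_pos]; omega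
  rw [Perm.mem_support] at ha
  obtain ⟨c, x0, y0, hc, hx0, hy0, n1, n2, n3⟩ := Finset.two_lt_card_iff.1 (show 2 < (Fx g).card by omega)
  rw [mem_Fx] at hc hx0 hy0
  have d1 : D4 a (g a) x0 y0 := ⟨ha.symm, (fix_ne ha hx0).1.symm, (fix_ne ha hy0).1.symm,
    (fix_ne ha hx0).2.symm, (fix_ne ha hy0).2.symm, n3⟩
  have d2 : D4 a c x0 y0 := ⟨(fix_ne ha hc).1.symm, (fix_ne ha hx0).1.symm, (fix_ne ha hy0).1.symm,
    n1, n2, n3⟩
  obtain ⟨μ, hμ0, hμ⟩ : ∃ μ, 0 < μ ∧ ∀ z w x y, D4 a (g a) z w → D4 a c x y →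
      (N G a (g a) z w a c x y).card = μ := by
    refine ⟨(N G a (g a) x0 y0 a c x0 y0).card, ?_, fun z w x y h h' => N_eq hG h h' d1 d2⟩
    obtain ⟨k, hk⟩ := hG _ _ _ _ _ _ _ _ d1 d2
    exact Finset.card_pos.2 ⟨k, mem_N.2 hk⟩
  have up : ∑ h ∈ C G a (g a) a c, (Fx (cm g h)).card ≤
      (Fintype.card β - 2) * (Fintype.card β - 3) * μ * (Fx g).card := by
    rw [← card_C ha d2 hμ, ← smul_eq_mul, ← Finset.sum_const]
    apply Finset.sum_le_sum
    intro h hh
    obtain ⟨g0, g1, g2⟩ := mem_C.1 hh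
    have hk : h * g * h⁻¹ ∈ G := G.mul_mem (G.mul_mem g0 hg) (G.inv_mem g0)
    have h1 := hmin (cm g h) (G.mul_mem (G.mul_mem (G.mul_mem hg hk) (G.inv_mem hg)) (G.inv_mem hk))
      (cm_ne ha hc g1 g2)
    have h2 := Fx_card g
    have h3 := Fx_card (cm g h)
    omega
  have sw : ∑ h ∈ C G a (g a) a c, (Fx (cm g h)).card =
      ∑ x : β, ((C G a (g a) a c).filter fun h => cm g h x = x).card := by
    simp only [Fx, Finset.card_filter]
    exact Finset.sum_comm
  have dis : Disjoint ((Fx g).erase c) (g.support \ {a, g a}) := by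
    rw [Finset.disjoint_left]
    intro x h1 h2
    exact Perm.mem_support.1 (Finset.mem_sdiff.1 h2).1 (mem_Fx.1 (Finset.mem_erase.1 h1).2)
  have low : ∑ x ∈ (Fx g).erase c, ((C G a (g a) a c).filter fun h => cm g h x = x).card +
      ∑ x ∈ g.support \ {a, g a}, ((C G a (g a) a c).filter fun h => cm g h x = x).card ≤
      ∑ x : β, ((C G a (g a) a c).filter fun h => cm g h x = x).card := by
    rw [← Finset.sum_union dis]
    exact Finset.sum_le_sum_of_subset (Finset.subset_univ _)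
  have l1 : ((Fx g).card - 1) * (((Fx g).card * (Fintype.card β - 3) +
      ((Fx g).card - 2) * (g.support.card - 3)) * μ) ≤
      ∑ x ∈ (Fx g).erase c, ((C G a (g a) a c).filter fun h => cm g h x = x).card := by
    rw [← Finset.card_erase_of_mem (mem_Fx.2 hc), ← smul_eq_mul, ← Finset.sum_const]
    exact Finset.sum_le_sum fun x hx => bound_F ha hc hf hμ hx
  have l2 : (g.support.card - 2) * (((Fx g).card * (Fx g).card - (Fx g).card) * μ) ≤
      ∑ x ∈ g.support \ {a, g a}, ((C G a (g a) a c).filter fun h => cm g h x = x).card := by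
    have h1 : g.support.card - 2 ≤ (g.support \ {a, g a}).card := by
      refine le_trans ?_ (Finset.le_card_sdiff _ _)
      rw [Finset.card_pair ha.symm]
    refine le_trans (Nat.mul_le_mul_right _ h1) ?_
    rw [← smul_eq_mul, ← Finset.sum_const]
    apply Finset.sum_le_sum
    intro x hx
    simp only [Finset.mem_sdiff, Perm.mem_support, Finset.mem_insert, Finset.mem_singleton,
      not_or] at hx
    exact bound_S ha hc hμ hx.1 hx.2.1 hx.2.2
  apply Nat.le_of_mul_le_mul_right _ hμ0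
  rw [add_mul, mul_assoc, mul_assoc (g.support.card - 2), mul_right_comm _ (Fx g).card μ]
  omega

end main

theorem boch : Cfsg.Agent.H87.PW.BochStmt := by
  intro β _ _ G hG hA hn g0 hg0 hg1
  classical
  obtain ⟨g, hg, hmin⟩ := Finset.exists_min_image
    ((univ : Finset (Perm β)).filter fun k => k ∈ G ∧ k ≠ 1) (fun k => k.support.card)
    ⟨g0, by simp [hg0, hg1]⟩
  simp only [Finset.mem_filter, Finset.mem_univ, true_and, and_imp] at hg hmin
  have hs : 6 ≤ g.support.card := by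
    by_contra h
    exact hA (Cfsg.Agent.S0711.result G (k := 4) (by omega) (by omega) hG g hg.1 hg.2 (by omega)).2
  have h0 := hmin g0 hg0 hg1
  have h1 := Fx_card g
  rcases Nat.lt_or_ge (Fx g).card 8 with hf | hf
  · omega
  · have h2 := ineq (t4_of hG) hg.1 hmin (by omega) (by omega)
    rw [← h1] at h2
    have := arith hs hf (by omega) h2
    omega

end Cfsg.Agent.H70.Boch
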