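import Mathlib
import Cfsg.Agent.H87.PWDefs

/-!
Pieces FIX and FRAME of project PW.
-/

set_option autoImplicit false
open Equiv

namespace Cfsg.Agent.H70.PwF
open Cfsg.Agent.H87.PW

theorem fix : FixStmt := by
  intro ι α _ _ _ _ hm g hg h3 hs hk
  obtain ⟨π, τ, rfl⟩ := hg
  have hN : 0 < Fintype.card α ^ (Fintype.card ι - 1) := Nat.pow_pos (by omega)
  have hn : Fintype.card (ι → α) = Fintype.card α * Fintype.card α ^ (Fintype.card ι - 1) := by
    rw [Fintype.card_fun, ← pow_succ']
    congr 1; omega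
  by_cases hπ : π = 1
  · subst hπ
    have hj : ∃ j a, τ j a ≠ a := by
      by_contra hc
      push Not at hc
      have : wr (1 : Perm ι) τ = 1 := by
        ext x j; simp [hc, Perm.one_def]
      rw [this, Perm.support_one, Finset.card_empty] at hs
      omega
    obtain ⟨j, a, ha⟩ := hj
    have c3' : ∀ b, τ j (τ j (τ j b)) = b := by
      intro b
      have := congrFun (congrArg (fun k : Perm (ι → α) => k (fun _ => b)) h3) j
      simpa [pow_succ, Perm.one_def] using this
    have n1 : a ≠ τ j a := ha.symm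
    have n3 : τ j a ≠ τ j (τ j a) := fun e => n1 ((τ j).injective e)
    have n2 : a ≠ τ j (τ j a) := fun e => ha (by nth_rewrite 1 [e]; rw [c3'])
    have sub1 : ({a, τ j a, τ j (τ j a)} : Finset α) ⊆ (τ j).support := by
      intro b hb
      simp only [Finset.mem_insert, Finset.mem_singleton] at hb
      rw [Perm.mem_support]
      rcases hb with rfl | rfl | rfl
      · exact ha
      · exact n3.symm
      · rw [c3']; exact n2
    have card3 : ({a, τ j a, τ j (τ j a)} : Finset α).card = 3 :=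
      Finset.card_eq_three.2 ⟨_, _, _, n1, n2, n3, rfl⟩
    have sub2 : ∀ T : Finset α, T ⊆ (τ j).support →
        Finset.univ.filter (fun x : ι → α => x j ∈ T) ⊆ (wr (1 : Perm ι) τ).support := by
      intro T hT x hx
      rw [Perm.mem_support]
      intro e
      have h1 := congrFun e j
      simp only [wr_apply, Perm.one_def, refl_symm, refl_apply] at h1
      exact Perm.mem_support.1 (hT (Finset.mem_filter.1 hx).2) h1
    have e1 : (τ j).support = {a, τ j a, τ j (τ j a)} := by
      symm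
      apply Finset.eq_of_subset_of_card_le sub1
      have := Finset.card_le_card (sub2 _ subset_rfl)
      rw [card_slice, hs] at this
      rw [card3]
      exact Nat.le_of_mul_le_mul_right this hN
    have e2 : Finset.univ.filter (fun x : ι → α => x j ∈ (τ j).support) =
        (wr (1 : Perm ι) τ).support := by
      apply Finset.eq_of_subset_of_card_le (sub2 _ subset_rfl)
      rw [card_slice, hs, e1, card3]
    have e3 : ∀ l, l ≠ j → ∀ b, τ l b = b := by
      intro l hl b
      obtain ⟨d, d1, d2, d3, -⟩ := exists_new hm a (τ j a) (τ j (τ j a)) a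
      have h1 : Function.update (fun _ => b) j d ∉ (wr (1 : Perm ι) τ).support := by
        rw [← e2, e1]; simp [d1, d2, d3]
      rw [Perm.notMem_support] at h1
      have h2 := congrFun h1 l
      simpa [Perm.one_def, Function.update_of_ne hl] using h2
    have e4 : τ j = c3 a (τ j a) (τ j (τ j a)) := by
      ext b
      by_cases b1 : b = a
      · rw [b1, c3_1 n1 n3]
      by_cases b2 : b = τ j a
      · rw [b2, c3_2]
      by_cases b3 : b = τ j (τ j a)
      · rw [b3, c3_3 n2 n3, c3']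
      rw [c3_of_ne b1 b2 b3, ← Perm.notMem_support, e1]
      simp [b1, b2, b3]
    refine ⟨j, a, τ j a, τ j (τ j a), n1, n2, n3, ?_⟩
    ext x l
    by_cases hl : l = j
    · subst hl
      rw [co_self, ← e4]; simp [Perm.one_def]
    · rw [co_ne hl]; simp [Perm.one_def, e3 l hl]
  · exfalso
    obtain ⟨j, hj⟩ : ∃ j, π.symm j ≠ j := by
      by_contra hc
      push Not at hc
      apply hπ
      ext j
      nth_rewrite 1 [← hc j]
      simp
    have h1 : ((wr π τ).supportᶜ).card ≤ (Finset.univ : Finset ({l // l ≠ j} → α)).card := by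
      apply Finset.card_le_card_of_injOn (res j) (fun _ _ => Finset.mem_coe.2 (Finset.mem_univ _))
      intro x hx y hy e
      rw [Finset.mem_coe, Finset.mem_compl, Perm.notMem_support] at hx hy
      refine ext_res ?_ e
      rw [← congrFun hx j, ← congrFun hy j, wr_apply, wr_apply, (res_eq_iff _ _ _).1 e _ hj]
    rw [Finset.card_compl, Finset.card_univ, Fintype.card_fun, Fintype.card_fun, card_ne, hs,
      ← Fintype.card_fun, hn] at h1
    have := Nat.mul_le_mul_right (Fintype.card α ^ (Fintype.card ι - 1)) hm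
    omega

section frame
variable {Ω : Type}

/-- transport of a relation -/
def act (g : Perm Ω) (R : Ω → Ω → Prop) : Ω → Ω → Prop := fun a b => R (g⁻¹ a) (g⁻¹ b)

theorem act_mul (g h : Perm Ω) (R : Ω → Ω → Prop) : act (g * h) R = act g (act h R) := by
  funext a b; simp [act]

theorem act_one (R : Ω → Ω → Prop) : act 1 R = R := by
  funext a b; simp [act]

/-- the transported relations holding at a given pair -/
def Fr (H : Subgroup (Perm Ω)) (R₀ : Ω → Ω → Prop) (x y : Ω) : Type :=
  {R : Ω → Ω → Prop // (∃ h ∈ H, R = act h R₀) ∧ R x y}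

instance [Finite Ω] (H : Subgroup (Perm Ω)) (R₀ : Ω → Ω → Prop) (x y : Ω) : Finite (Fr H R₀ x y) :=
  inferInstanceAs (Finite {R : Ω → Ω → Prop // (∃ h ∈ H, R = act h R₀) ∧ R x y})

/-- moving frames by an element of the group -/
def mv {H : Subgroup (Perm Ω)} {R₀ : Ω → Ω → Prop} {x y x' y' : Ω} {g : Perm Ω} (hg : g ∈ H)
    (hx : g x = x') (hy : g y = y') (R : Fr H R₀ x y) : Fr H R₀ x' y' :=
  ⟨act g R.1, by
    obtain ⟨R, ⟨h, hh, rfl⟩, hR⟩ := R
    refine ⟨⟨g * h, H.mul_mem hg hh, (act_mul _ _ _).symm⟩, ?_⟩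
    subst hx hy
    show act h R₀ (g⁻¹ (g x)) (g⁻¹ (g y))
    simpa using hR⟩

theorem mv_inj {H : Subgroup (Perm Ω)} {R₀ : Ω → Ω → Prop} {x y x' y' : Ω} {g : Perm Ω}
    (hg : g ∈ H) (hx : g x = x') (hy : g y = y') :
    Function.Injective (mv (R₀ := R₀) hg hx hy) := by
  intro R S e
  have e1 : act g R.1 = act g S.1 := congrArg Subtype.val e
  apply Subtype.ext
  rw [← act_one R.1, ← act_one S.1, ← inv_mul_cancel g, act_mul, act_mul, e1]

theorem card_mv [Finite Ω] {H : Subgroup (Perm Ω)} (R₀ : Ω → Ω → Prop) (x y : Ω) {g : Perm Ω}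
    (hg : g ∈ H) : Nat.card (Fr H R₀ x y) = Nat.card (Fr H R₀ (g x) (g y)) :=
  le_antisymm (Nat.card_le_card_of_injective _ (mv_inj hg rfl rfl))
    (Nat.card_le_card_of_injective _ (mv_inj (H.inv_mem hg) (g.symm_apply_apply x)
      (g.symm_apply_apply y)))

theorem card_mod [Finite Ω] {H : Subgroup (Perm Ω)} {R₀ : Ω → Ω → Prop} {x y : Ω} {u : Perm Ω}
    (hu : u ∈ H) (h3 : u ^ 3 = 1) (hx : u x = x) (hy : u y = y) (h0 : act u R₀ = R₀)
    (h1 : ∀ h ∈ H, act u (act h R₀) = act h R₀ → act h R₀ = R₀) :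
    R₀ x y ↔ Nat.card (Fr H R₀ x y) % 3 = 1 := by
  classical
  letI : Fintype (Fr H R₀ x y) := Fintype.ofFinite _
  let f : Function.End (Fr H R₀ x y) := mv hu hx hy
  have hf : f ^ 3 ^ 1 = 1 := by
    funext R
    apply Subtype.ext
    show act u (act u (act u R.1)) = R.1
    rw [← act_mul, ← act_mul, ← pow_two, ← pow_succ, h3, act_one]
  haveI : Fact (Nat.Prime 3) := ⟨Nat.prime_three⟩
  have h2 := Equiv.Perm.card_fixedPoints_modEq hf
  rw [← Nat.card_eq_fintype_card] at h2
  have h4 : ∀ R : Fr H R₀ x y, f R = R → R.1 = R₀ := by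
    rintro ⟨R, ⟨h, hh, rfl⟩, hR⟩ e
    exact h1 h hh (congrArg Subtype.val e)
  by_cases hR : R₀ x y
  · have : Fintype.card f.fixedPoints = 1 := by
      rw [Fintype.card_eq_one_iff]
      refine ⟨⟨⟨R₀, ⟨1, H.one_mem, (act_one _).symm⟩, hR⟩, Subtype.ext h0⟩, ?_⟩
      rintro ⟨R, e⟩
      exact Subtype.ext (Subtype.ext (h4 R e))
    rw [this] at h2
    exact ⟨fun _ => h2, fun _ => hR⟩
  · have : Fintype.card f.fixedPoints = 0 := by
      rw [Fintype.card_eq_zero_iff]
      refine ⟨?_⟩
      rintro ⟨R, e⟩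
      exact hR (h4 R e ▸ R.2.2)
    rw [this] at h2
    refine ⟨fun h => (hR h).elim, fun h => ?_⟩
    unfold Nat.ModEq at h2
    omega

end frame

variable {ι α : Type}

theorem adj_W {w : Perm (ι → α)} (hw : InW w) {x y : ι → α} (h : Adj x y) : Adj (w x) (w y) := by
  obtain ⟨π, τ, rfl⟩ := hw
  exact adj_wr π τ h

theorem act_W {w : Perm (ι → α)} (hw : InW w) : act w Adj = Adj := by
  funext a b
  apply propext
  constructor
  · intro h
    have := adj_W hw h
    simpa using this
  · exact adj_W ((W ι α).inv_mem hw)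

theorem c3_conj [DecidableEq α] (ρ : Perm α) (p q r : α) :
    ρ * c3 p q r * ρ⁻¹ = c3 (ρ p) (ρ q) (ρ r) := by
  simp only [c3, swap_apply_apply]
  group

theorem frame (ha : AutStmt) (hf : FixStmt) : FrameStmt := by
  intro ι α _ _ _ _ H hH hC g hg
  have hm := hH.hm
  have hk := hH.hk
  have key : ∀ x y : ι → α, Adj x y ↔ Nat.card (Fr H Adj x y) % 3 = 1 := by
    intro x y
    obtain ⟨i⟩ : Nonempty ι := Fintype.card_pos_iff.1 (by omega)
    obtain ⟨p, p1, p2, -⟩ := exists_new hm (x i) (y i) (x i) (x i)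
    obtain ⟨q, q1, q2, q3, -⟩ := exists_new hm (x i) (y i) p p
    obtain ⟨r, r1, r2, r3, r4⟩ := exists_new hm (x i) (y i) p q
    have h3c := c3_isThreeCycle q3.symm r3.symm r4.symm
    have hu : co i (c3 p q r) ∈ H := hH.hyp.co_mem _ _ (c3_sign q3.symm r3.symm)
    have h3 : co i (c3 p q r) ^ 3 = 1 := by
      rw [← co_pow, ← h3c.orderOf, pow_orderOf_eq_one, co_one]
    refine card_mod hu h3 ((co_fix_iff _ _ _).2 (c3_of_ne p1.symm q1.symm r1.symm))
      ((co_fix_iff _ _ _).2 (c3_of_ne p2.symm q2.symm r2.symm)) (act_W (co_mem_W _ _)) ?_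
    intro h hh e
    apply act_W
    have e1 : act (h⁻¹ * co i (c3 p q r) * h⁻¹⁻¹) Adj = Adj := by
      rw [inv_inv, act_mul, act_mul, e, ← act_mul, inv_mul_cancel, act_one]
    have v1 : InW (h⁻¹ * co i (c3 p q r) * h⁻¹⁻¹) := by
      apply ha ι α hm
      intro a b
      nth_rewrite 2 [← e1]
      simp only [act]
      rw [Perm.inv_def (_ * _), symm_apply_apply, symm_apply_apply]
    obtain ⟨j, p', q', r', n1, n2, n3, ev⟩ := hf ι α hm _ v1 (by rw [conj_pow, h3]; simp)
      (by rw [Perm.card_support_conj, card_support_co, h3c.card_support]) (by omega)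
    obtain ⟨τ, hτ⟩ := hH.hyp.top (swap j i)
    obtain ⟨ρ, hρ, ρ1, ρ2, ρ3⟩ := exists_even3 hm (a := τ i p') (b := τ i q') (c := τ i r')
      (fun e => n1 ((τ i).injective e)) (fun e => n2 ((τ i).injective e))
      (fun e => n3 ((τ i).injective e)) q3.symm r3.symm r4.symm
    have e2 : wr (swap j i) τ * co j (c3 p' q' r') * (wr (swap j i) τ)⁻¹ =
        co i (c3 (τ i p') (τ i q') (τ i r')) := by
      rw [wr_conj_co, swap_apply_left, c3_conj]
    have e3 : co i ρ * co i (c3 (τ i p') (τ i q') (τ i r')) * (co i ρ)⁻¹ = co i (c3 p q r) := by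
      rw [← co_inv, ← co_mul, ← co_mul, c3_conj, ρ1, ρ2, ρ3]
    have hw : co i ρ * wr (swap j i) τ ∈ H := H.mul_mem (hH.hyp.co_mem _ _ hρ) hτ
    have hw' : co i ρ * wr (swap j i) τ ∈ W ι α := (W ι α).mul_mem (co_mem_W _ _) (wr_mem_W _ _)
    have e4 : (co i ρ * wr (swap j i) τ) * (h⁻¹ * co i (c3 p q r) * h⁻¹⁻¹) *
        (co i ρ * wr (swap j i) τ)⁻¹ = co i (c3 p q r) := by
      rw [ev, ← e3, ← e2]; group
    have e5 := hC (h * (co i ρ * wr (swap j i) τ)⁻¹) (H.mul_mem hh (H.inv_mem hw)) i p q r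
      q3.symm r3.symm r4.symm (by
        nth_rewrite 1 [← e4]
        group)
    have := (W ι α).mul_mem e5 hw'
    rw [inv_mul_cancel_right] at this
    exact this
  apply ha ι α hm
  intro x y
  rw [key, key, card_mv Adj x y hg]

end Cfsg.Agent.H70.PwF
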