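import Mathlib
import Cfsg.Agent.H70.QTSporW
import Cfsg.Agent.H70.HJP
import Cfsg.Agent.H74.Mathieu
import Cfsg.Agent.H46.Ru
import Cfsg.Agent.H46.J4M

/-!
The Mathieu groups, `J₂`, `J₄` and `Ru` have an odd rank two.
-/

set_option autoImplicit false
set_option maxRecDepth 200000

namespace Cfsg.Agent.H70.QS

open Cfsg Subgroup Cfsg.Agent.H81.QT Cfsg.Spor Cfsg.Agent.H46

/-- The check for two commuting independent elements of order `p`. -/
noncomputable def chk2 (O : Ops) (p a b : ℕ) : Bool :=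
  andB (O.eqB (O.pow a p) O.one) (andB (O.eqB (O.pow b p) O.one) (andB (O.eqB (O.mul a b) (O.mul b a))
    (andB (notB (O.eqB a O.one)) (H42.allB (fun i => notB (O.eqB b (O.pow a i))) p))))

theorem rk2C {O : Ops} {G : Type*} [Group G] (C : Coded O G) {p : ℕ} (hp : p.Prime) (hp2 : p ≠ 2)
    {a b : ℕ} (hx : ∃ x, C.R a x) (hy : ∃ y, C.R b y) (h : chk2 O p a b = true) : Rk2 G := by
  obtain ⟨x, hx⟩ := hx
  obtain ⟨y, hy⟩ := hy
  simp only [chk2, andB_iff, notB_iff] at h
  obtain ⟨h1, h2, h3, h4, h5⟩ := h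
  have e := (C.pow_eq_one_iff hx p).1 h1
  refine rk2 hp hp2 e ((C.pow_eq_one_iff hy p).1 h2)
    (C.eq_of_eqB (C.R_mul hx hy) (C.R_mul hy hx) h3) (C.ne_of_eqB hx C.R_one h4)
    (not_mem_single hp.pos e fun i hi => ?_)
  exact C.ne_of_eqB hy (C.R_pow hx i) (notB_iff.1 (H42.of_allB h5 hi))

theorem rk2_M11' : Rk2 M11 :=
  rk2C (H74.codedK M11) Nat.prime_three (by norm_num) (a := 486115426764614359583170501228632096)
    (b := 470733952652581650190237181754609696) (H74.test11.exists (by decide +kernel))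
    (H74.test11.exists (by decide +kernel)) (by decide +kernel)

theorem rk2_M22' : Rk2 M22 :=
  rk2C (H74.codedK M22) Nat.prime_three (by norm_num) (a := 980713314305909143146222587500713184)
    (b := 971343224732624850002458662587214496) (H74.test22.exists (by decide +kernel))
    (H74.test22.exists (by decide +kernel)) (by decide +kernel)

theorem rk2_M24' : Rk2 M24 := Rk2.map (inclusion H74.M22_le) (inclusion_injective _) rk2_M22'

theorem rk2_GG : Rk2 Ru.GG :=
  rk2C Ru.CG Nat.prime_three (by norm_num) ⟨_, Ru.R_z⟩ (Ru.exP3G 0 (by norm_num)) (by decide +kernel)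

variable {S : Type*} [Group S]

theorem rk2_M11 (h : IsoM11 S) : Rk2 S := h.elim fun e => Rk2.equiv e rk2_M11'

theorem rk2_M12 (h : IsoM12 S) : Rk2 S :=
  h.elim fun e => Rk2.equiv e (Rk2.map (inclusion inf_le_left) (inclusion_injective _) rk2_M11')

theorem rk2_M22 (h : IsoM22 S) : Rk2 S := h.elim fun e => Rk2.equiv e rk2_M22'

theorem rk2_M23 (h : IsoM23 S) : Rk2 S :=
  h.elim fun e => Rk2.equiv e (Rk2.map (inclusion inf_le_left) (inclusion_injective _) rk2_M22')

theorem rk2_M24 (h : IsoM24 S) : Rk2 S := h.elim fun e => Rk2.equiv e rk2_M24'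

theorem rk2_Ru (h : IsoRu S) : Rk2 S := h.elim fun e => Rk2.equiv (e.trans Ru.equivGG) rk2_GG

theorem ev_replicate (g : ℕ → S) (a i : ℕ) : H44.ev g (List.replicate i a) = g a ^ i := by
  simp [H44.ev]

theorem rk2_J2 (h : IsoJ2 S) : Rk2 S := by
  obtain ⟨δ, h⟩ := IsoJ2.exists_J2T h
  have hp : ∀ a i b j, eqP (List.replicate i a) (List.replicate j b) = true → δ a ^ i = δ b ^ j :=
    fun a i b j e => by rw [← ev_replicate, ← ev_replicate]; exact (h.eq_iff _ _).2 e
  have hn : ∀ a i b j, eqP (List.replicate i a) (List.replicate j b) = false → δ a ^ i ≠ δ b ^ j :=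
    fun a i b j e e' => by
      rw [← ev_replicate, ← ev_replicate, h.eq_iff, e] at e'
      exact Bool.false_ne_true e'
  have e : δ 25 ^ 5 = 1 := (hp 25 5 0 0 (by decide +kernel)).trans (pow_zero _)
  refine rk2 (x := δ 25) (y := δ 8) Nat.prime_five (by norm_num) e
    ((hp 8 5 0 0 (by decide +kernel)).trans (pow_zero _)) ?_ ?_ (not_mem_single (by norm_num) e fun i hi => ?_)
  · simpa [H44.ev] using (h.eq_iff [25, 8] [8, 25]).2 (by decide +kernel)
  · simpa using hn 25 1 0 0 (by decide +kernel)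
  · have : δ 8 ^ 1 ≠ δ 25 ^ i := by
      interval_cases i <;> exact hn _ _ _ _ (by decide +kernel)
    rwa [pow_one] at this

theorem J4_rel {r : FreeGroup J4.Gen} (h : r ∈ J4.extra) :
    PresentedGroup.mk (coxRelators J4.edges ∪ {r | r ∈ J4.extra}) r = 1 :=
  PresentedGroup.one_of_mem (Or.inr h)

theorem exists_M24_J4 : ∃ φ : M24 →* J4, φ (H42.toM J4.cX) = PresentedGroup.of .x ∧
    φ (H42.toM J4.cY) = PresentedGroup.of .y := by
  have h := fun i (hi : i < J4.extra.length) => J4_rel (List.getElem_mem hi)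
  refine J4.exists_hom _ _ (h 0 (by decide)) (h 1 (by decide)) (h 2 (by decide)) (h 3 (by decide))
    (h 4 (by decide)) (h 5 (by decide)) (h 6 (by decide))

theorem rk2_J4 (hS : ¬ IsMulCommutative S) (h : IsoJ4 S) : Rk2 S := by
  obtain ⟨e⟩ := h
  obtain ⟨φ, hx, hy⟩ := exists_M24_J4
  have := H42.M24_simple
  rcases φ.normal_ker.eq_bot_or_eq_top with h | h
  · exact Rk2.equiv e (Rk2.map φ ((MonoidHom.ker_eq_bot_iff φ).1 h) rk2_M24')
  · exfalso
    apply hS
    have h1 : ∀ a, φ a = 1 := fun a => (MonoidHom.mem_ker).1 (h ▸ mem_top a)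
    rw [h1] at hx hy
    have hc := comm_closure (s := Set.range (PresentedGroup.of : J4.Gen → J4)) (by
      rintro _ ⟨a, rfl⟩ _ ⟨b, rfl⟩
      cases a <;> cases b <;> simp [← hx, ← hy])
    rw [PresentedGroup.closure_range_of] at hc
    exact ⟨⟨fun a b => e.injective (by rw [map_mul, map_mul]; exact hc _ trivial _ trivial)⟩⟩

end Cfsg.Agent.H70.QS
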