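import Mathlib
import Cfsg.Agent.H70.QTSporP
import Cfsg.Agent.H70.QTSporR

/-!
The sporadic groups of the quasithin list other than `J₁` have an odd rank two.
-/

set_option autoImplicit false

namespace Cfsg.Agent.H70.QS

open Cfsg Cfsg.Agent.H81.QT

universe u

theorem thin_spor : ForSimple.{u} (fun S _ => IsSporS S) (fun S _ => ThinList S ∨ Rk2 S) := by
  intro S _ _ _ hS h
  rcases h with h | h | h | h | h | h | h | h | h | h | h
  exacts [.inr (rk2_M11 h), .inr (rk2_M12 h), .inr (rk2_M22 h), .inr (rk2_M23 h), .inr (rk2_M24 h),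
    .inl (.inr (.inr (.inr h))), .inr (rk2_J2 h), .inr (rk2_J4 hS h), .inr (rk2_HS h), .inr (rk2_He h),
    .inr (rk2_Ru h)]

end Cfsg.Agent.H70.QS
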