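import Mathlib

/-! # The tensor cube of the natural module of `GL₂(2)` -/

set_option autoImplicit false

namespace Cfsg.Agent.H66.T6.H70

open Matrix DihedralGroup
open scoped Kronecker

/-- Labels of the eight roots at sixty degrees with the highest root. -/
abbrev B3 : Type := Bool × Bool × Bool

/-- The three coordinates of a label. -/
def cmp (b : B3) : Fin 3 → Bool := ![b.1, b.2.1, b.2.2]

/-- Changing a coordinate. -/
def setb (i : Fin 3) (s : Bool) (b : B3) : B3 :=
  (if i = 0 then s else b.1, if i = 1 then s else b.2.1, if i = 2 then s else b.2.2)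

/-- Flipping coordinates. -/
def fl (s b : B3) : B3 := (b.1 == s.1, b.2.1 == s.2.1, b.2.2 == s.2.2)

/-- The action on the three nonzero vectors of the plane. -/
def ac : DihedralGroup 3 → ZMod 3 → ZMod 3
  | r i, k => k + i
  | sr i, k => -(k + i)

/-- The number of a basis vector. -/
def idx (b : Bool) : ZMod 3 := if b then 0 else 1

/-- The isomorphism with `GL₂(2)`. -/
def ρ (g : DihedralGroup 3) : Matrix Bool Bool (ZMod 2) :=
  Matrix.of fun a b => if ac g (idx b) = 2 ∨ ac g (idx b) = idx a then 1 else 0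

theorem ρ_mul : ∀ g h, ρ (g * h) = ρ g * ρ h := by decide +kernel

theorem ρ_one : ρ 1 = 1 := by decide +kernel

/-- The tensor product of three planes. -/
def K (t : Fin 3 → DihedralGroup 3) : Matrix B3 B3 (ZMod 2) := ρ (t 0) ⊗ₖ (ρ (t 1) ⊗ₖ ρ (t 2))

theorem K_mul (t t' : Fin 3 → DihedralGroup 3) : K (t * t') = K t * K t' := by
  simp only [K, Pi.mul_apply, ρ_mul, mul_kronecker_mul]

theorem K_one : K 1 = 1 := by simp only [K, Pi.one_apply, ρ_one, one_kronecker_one]

theorem K_inj0 : ∀ a b c : DihedralGroup 3, (∀ d, K ![a, b, c] *ᵥ Pi.single d 1 = Pi.single d 1) →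
    a = 1 ∧ b = 1 ∧ c = 1 := by decide +kernel

theorem K_eta (t : Fin 3 → DihedralGroup 3) : K t = K ![t 0, t 1, t 2] := rfl

theorem K_inj {t : Fin 3 → DihedralGroup 3} (h : ∀ d, K t *ᵥ Pi.single d 1 = Pi.single d 1) :
    t = 1 := by
  obtain ⟨h0, h1, h2⟩ := K_inj0 _ _ _ (K_eta t ▸ h)
  funext i
  fin_cases i
  exacts [h0, h1, h2]

/-- The image of a root element of the Levi factor. -/
def tr (i : Fin 3) (s : Bool) : Fin 3 → DihedralGroup 3 := Pi.mulSingle i (sr (if s then 1 else 0))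

/-- The image of a monomial element. -/
def tf (s : B3) : Fin 3 → DihedralGroup 3 := fun i => if cmp s i then 1 else sr 2

theorem K_tr0 : ∀ i s, K (tr i s) = Matrix.of fun b c =>
    (if c = b then 1 else 0) + if c = setb i s b then (if cmp b i = s then 0 else 1) else 0 := by
  decide +kernel

theorem K_tr (i : Fin 3) (s : Bool) (v : B3 → ZMod 2) (b : B3) :
    (K (tr i s) *ᵥ v) b = v b + if cmp b i = s then 0 else v (setb i s b) := by
  simp [mulVec, dotProduct, K_tr0, add_mul, Finset.sum_add_distrib]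

theorem K_tf0 : ∀ s, K (tf s) = Matrix.of fun b c => if c = fl s b then 1 else 0 := by
  decide +kernel

theorem K_tf (s : B3) (v : B3 → ZMod 2) (b : B3) : (K (tf s) *ᵥ v) b = v (fl s b) := by
  simp [mulVec, dotProduct, K_tf0]

/-- The vectors of the plane. -/
def pv (a a' : ZMod 2) (b : B3) : ZMod 2 :=
  if b.1 = b.2.1 ∧ b.1 = b.2.2 then a + a' else if xor b.1 (xor b.2.1 b.2.2) then a else a'

/-- The plane. -/
def P0 (v : B3 → ZMod 2) : Prop := v = pv (v (true, false, false)) (v (false, true, true))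

instance (v : B3 → ZMod 2) : Decidable (P0 v) := inferInstanceAs (Decidable (_ = _))

theorem pv_add : ∀ a a' c c', pv a a' + pv c c' = pv (a + c) (a' + c') := by decide +kernel

theorem P0_pv : ∀ a a', P0 (pv a a') := by decide +kernel

theorem P0.add {v w : B3 → ZMod 2} (h : P0 v) (h' : P0 w) : P0 (v + w) := by
  rw [h, h', pv_add]; exact P0_pv _ _

theorem fin0 : ∀ i j k : ZMod 3, (∀ a a', P0 (K ![r i, r j, r k] *ᵥ pv a a')) ∧
    ((∀ d, P0 (K ![r i, r j, r k] *ᵥ Pi.single d 1 + Pi.single d 1)) →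
      ∀ a a', K ![r i, r j, r k] *ᵥ pv a a' = pv a a') := by decide +kernel

theorem rot : ∀ g : DihedralGroup 3, g * g * g = 1 → ∃ i, g = r i := by decide +kernel

theorem fin1 {t : Fin 3 → DihedralGroup 3} (h : t * t * t = 1) :
    (∀ v, P0 v → P0 (K t *ᵥ v)) ∧
    ((∀ d, P0 (K t *ᵥ Pi.single d 1 + Pi.single d 1)) → ∀ v, P0 v → K t *ᵥ v = v) := by
  obtain ⟨i, hi⟩ := rot _ (congrFun h 0)
  obtain ⟨j, hj⟩ := rot _ (congrFun h 1)
  obtain ⟨k, hk⟩ := rot _ (congrFun h 2)
  rw [K_eta, hi, hj, hk]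
  exact ⟨fun v hv => hv ▸ (fin0 i j k).1 _ _, fun h v hv => hv ▸ (fin0 i j k).2 h _ _⟩

/-- Commutators with root elements. -/
def nv (i : Fin 3) (s : Bool) (v : B3 → ZMod 2) (b : B3) : ZMod 2 :=
  if cmp b i = s then 0 else v (setb i s b)

theorem nv_eq (i : Fin 3) (s : Bool) (v : B3 → ZMod 2) : K (tr i s) *ᵥ v + v = nv i s v := by
  funext b
  rw [Pi.add_apply, K_tr, add_right_comm, CharTwo.add_self_eq_zero, zero_add, nv]

theorem span0 : ∀ d : B3, ∃ a a',
    nv 0 (!d.1) (nv 1 (!d.2.1) (nv 2 (!d.2.2) (pv a a'))) = Pi.single d 1 := by decide +kernel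

theorem six : ∀ g : DihedralGroup 3, g * g * g * (g * g * g) = 1 := by decide +kernel

theorem cube {t : Fin 3 → DihedralGroup 3} {j : ℕ} (h : t ^ (2 * j + 1) = 1) : t * t * t = 1 := by
  have h1 : (t * t * t) ^ 2 = 1 := by rw [pow_two]; exact funext fun i => six _
  have h2 : (t * t * t) ^ (2 * j + 1) = 1 := by
    rw [← pow_three', ← pow_mul, mul_comm, pow_mul, h, one_pow]
  rwa [pow_succ, pow_mul, h1, one_pow, one_mul] at h2

theorem refl0 : ∀ a u : DihedralGroup 3,
    a * 1 * a⁻¹ * (u⁻¹ * sr 1 * u)⁻¹ * (a * 1 * a⁻¹ * (u⁻¹ * sr 1 * u)⁻¹) *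
      (a * 1 * a⁻¹ * (u⁻¹ * sr 1 * u)⁻¹) ≠ 1 := by decide +kernel

theorem fl_of : ∀ s b b' : B3, (∀ i, (cmp s i == cmp b' i) = cmp b i) → b' = fl s b := by
  decide +kernel

theorem fl_fl : ∀ s b : B3, fl s (fl s b) = b := by decide +kernel

theorem eqns : True := by
  have := @cmp.eq_1
  have := @setb.eq_1
  have := @fl.eq_1
  have := @ac.eq_1
  have := @ac.eq_2
  have := @idx.eq_1
  have := @ρ.eq_1
  have := @K.eq_1
  have := @tr.eq_1
  have := @tf.eq_1
  have := @pv.eq_1
  have := @P0.eq_1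
  have := @nv.eq_1
  trivial

end Cfsg.Agent.H66.T6.H70
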