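import Mathlib
import Cfsg.Agent.H6.TIDefs
import Cfsg.Agent.H1.Card

/-!
Piece N4A of project TI.
-/

set_option autoImplicit false

namespace Cfsg.Agent.H70.TiN4A

open Cfsg Subgroup Cfsg.Agent.H6.TI
open Cfsg.Agent.H83 (cj)
open scoped Cfsg.Agent.H63 commutatorElement

universe u

variable {G : Type u} [Group G] {Ω : Set (Subgroup G)} {K A B B' : Subgroup G} {f : G}

theorem conj_cent (g : G) (h : f ∈ C[B]) : g * f * g⁻¹ ∈ C[cj g B] :=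
  H83.cj_centralizer g B ▸ H83.conj_mem_cj h

theorem cent_cj {g : G} (h : f ∈ C[B]) (e : g * f = f * g) : f ∈ C[cj g B] := by
  have := conj_cent g h
  rwa [e, mul_inv_cancel_right] at this

theorem card_inf_mul (T U : Subgroup G) : Nat.card ↥(T ⊓ U) * U.relIndex T = Nat.card T := by
  rw [← (U.subgroupOf T).card_mul_index, ← inf_subgroupOf_left,
    Nat.card_congr (subgroupOfEquivOfLe (inf_le_left : T ⊓ U ≤ T)).toEquiv, inf_subgroupOf_left]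
  rfl

variable [Finite G]

omit [Finite G] in
theorem mn (h : C4 Ω K) (e : Ed Ω A B) : Mn Ω A B :=
  ⟨e, fun P Q e' => by rw [(h.h4 P Q e').1, (h.h4 A B e).1]⟩

omit [Finite G] in
theorem c4 (h : C4 Ω K) (e : Mn Ω A B) : Nat.card (ax A B) = 4 := (h.h4 A B e.toEd).1

omit [Finite G] in
theorem cmul (h : C4 Ω K) (e : Mn Ω A B) (e' : Mn Ω A B') :
    Nat.card ↥(ax A B ⊔ ax A B') * Nat.card ↥(ax A B ⊓ ax A B') = 16 := by
  rw [H1.card_sup_mul_card_inf_of_le_normalizer, c4 h e, c4 h e']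
  refine H83.le_norm_of_le_cent fun a ha => mem_centralizer_iff.2 fun b hb => ?_
  exact h.ba.mul_comm A e.l b hb.1 a ha.1

theorem eq_ax (h : C4 Ω K) (e : Mn Ω A B) (e' : Mn Ω A B') (hle : ax A B ≤ ax A B') :
    ax A B = ax A B' :=
  eq_of_le_of_card_ge hle (by rw [c4 h e, c4 h e'])

theorem inf_le_two (h : C4 Ω K) (e : Mn Ω A B) (e' : Mn Ω A B') (hne : ax A B ≠ ax A B') :
    Nat.card ↥(ax A B ⊓ ax A B') ≤ 2 := by
  have h1 := card_inf_mul (ax A B) (ax A B')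
  rw [c4 h e] at h1
  have h2 : (ax A B').relIndex (ax A B) ≠ 1 := fun e1 => hne (eq_ax h e e' (relIndex_eq_one.1 e1))
  rcases Nat.lt_or_ge ((ax A B').relIndex (ax A B)) 2 with h3 | h3
  · interval_cases (ax A B').relIndex (ax A B) <;> omega
  · nlinarith

theorem two_le {U : Subgroup G} (h : U ≠ ⊥) : 2 ≤ Nat.card U := (one_lt_card_iff_ne_bot U).2 h

/-- a second axis meeting a given one -/
theorem exists_meet (h : C4 Ω K) (e : Mn Ω A B) :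
    ∃ B', Mn Ω A B' ∧ ax A B ≠ ax A B' ∧ ax A B ⊓ ax A B' ≠ ⊥ := by
  have hn := h.nsp
  simp only [Sp, not_forall] at hn
  obtain ⟨A₀, B₀, B₀', e₀, e₀', hne, hs⟩ := hn
  have hm : ax A₀ B₀ ⊓ ax A₀ B₀' ≠ ⊥ := by
    intro e1
    have h1 := cmul h e₀ e₀'
    rw [e1, card_bot, mul_one] at h1
    have h2 := (h.ba.hq e₀.toEd).1
    rw [(h.h4 _ _ e₀.toEd).1, (h.h4 _ _ e₀.toEd).2] at h2
    exact hs (eq_of_le_of_card_ge (sup_le ax_le ax_le) (by omega))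
  obtain ⟨g, rfl⟩ := h.toTI.trans A₀ e₀.l A e.l
  obtain ⟨m, hm', -, e2⟩ := h.ba.conjAx e (e₀.cj h.toTI g).toEd
  have e3 := e2 (e₀.cj h.toTI g)
  refine ⟨cj m (cj g B₀'), (e₀'.cj h.toTI g).cjN h.toTI hm', ?_, ?_⟩
  · rw [← e3, (ax_cjN hm' _).1, (ax_cjN hm' _).1, ax_cj, ax_cj]
    exact fun e4 => hne (H83.cj_inj.1 (H83.cj_inj.1 e4))
  · rw [← e3, (ax_cjN hm' _).1, (ax_cjN hm' _).1, ax_cj, ax_cj, ← H83.cj_inf, ← H83.cj_inf]
    exact fun e4 => hm (H83.cj_eq_bot_iff.1 (H83.cj_eq_bot_iff.1 e4))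

omit [Finite G] in
theorem exists_rho (h : C4 Ω K) (e : Mn Ω A B) :
    ∃ ρ ∈ N[A], ρ ∈ N[B] ∧ Fpf ρ (vv A B) := by
  have hq := (h.h4 _ _ e.toEd).2
  obtain ⟨a, ha, ha'⟩ : ∃ a ∈ A, a ∉ ax A B := by
    by_contra hc
    push Not at hc
    have : qq A B = 1 := relIndex_eq_one.2 hc
    omega
  obtain ⟨b, hb, hb1, hb2⟩ : ∃ b ∈ A, b ∉ ax A B ∧ a * b ∉ ax A B := by
    by_contra hc
    push Not at hc
    have : qq A B = 2 := by
      refine relIndex_eq_two_iff_exists_notMem_and'.2 ⟨a, ha, ha', fun b hb => ?_⟩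
      by_cases h1 : b ∈ ax A B
      · exact Or.inr h1
      · exact Or.inl (hc b hb h1)
    omega
  obtain ⟨ρ, -, r1, r2, -, r3⟩ := h.bb.tor e.toEd a ha ha' b hb hb1
  exact ⟨ρ, r1, r2, (r3 hb2).2⟩

theorem zc_bot (h : C4 Ω K) (hA : A ∈ Ω) : zc Ω A = ⊥ := by
  obtain ⟨B, e⟩ := h.ba.exMn h.ed A hA
  obtain ⟨B', e', hne, -⟩ := exists_meet h e
  obtain ⟨ρ, r1, -, r3⟩ := exists_rho h e
  rw [eq_bot_iff_forall]
  intro x hx
  by_contra hx1
  have hz : ∀ y ∈ zc Ω A, y ∈ ax A B ⊓ ax A B' := fun y hy =>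
    ⟨⟨(mem_zc.1 hy).1, (mem_zc.1 hy).2 B e⟩, ⟨(mem_zc.1 hy).1, (mem_zc.1 hy).2 B' e'⟩⟩
  have hx' : ρ * x * ρ⁻¹ ∈ zc Ω A := by
    have := H83.conj_mem_cj (g := ρ) hx
    rwa [← zc_cj h.toTI, H83.cj_eq_self r1] at this
  have n1 : ρ * x * ρ⁻¹ ≠ x := fun e1 =>
    hx1 (r3 x (mem_sup_left (hz x hx).1) (mul_inv_eq_iff_eq_mul.1 e1))
  have n2 : ρ * x * ρ⁻¹ ≠ 1 := fun e1 => hx1 (by simpa [mul_inv_eq_one] using e1)
  have h1 := inf_le_two h e e' hne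
  have := Fintype.ofFinite ↥(ax A B ⊓ ax A B')
  rw [Nat.card_eq_fintype_card] at h1
  have h2 : 2 < Fintype.card ↥(ax A B ⊓ ax A B') :=
    Fintype.two_lt_card_iff.2 ⟨1, ⟨x, hz x hx⟩, ⟨_, hz _ hx'⟩,
      fun e1 => hx1 (congrArg Subtype.val e1).symm, fun e1 => n2 (congrArg Subtype.val e1).symm,
      fun e1 => n1 (congrArg Subtype.val e1).symm⟩
  omega

omit [Finite G] in
theorem line (h : C4 Ω K) (e : Mn Ω A B) (e' : Mn Ω A B') (he : ax A B = ax A B') (hA : f ∈ C[A])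
    (hB : f ∈ C[B]) : f ∈ C[B'] := by
  obtain ⟨a, ha, rfl⟩ := h.ln.line e e' he
  exact cent_cj hB (mem_centralizer_iff.1 hA a ha)

omit [Finite G] in
theorem uniq (h : C4 Ω K) (e : Mn Ω A B) {a : G} (ha : a ∈ A) (hB : a ∈ C[B]) : a = 1 := by
  by_contra h1
  have e' := h.ba.symm e.toEd
  have hq := (h.h4 _ _ e').2
  have : qq B A = 1 := relIndex_eq_one.2 fun b hb =>
    (h.ba.cA e' b hb a (mem_sup_right ⟨ha, H83.le_norm_of_le_cent le_rfl hB⟩)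
      (fun h2 => e.ne (h.ba.eq A e.l B e.r a ha h2 h1))).1 (mem_centralizer_iff.1 hB b hb)
  omega

/-- the axes whose neighbours are centralized by `f` -/
def XX (Ω : Set (Subgroup G)) (A : Subgroup G) (f : G) : Type u :=
  {U : Subgroup G // ∃ B, Mn Ω A B ∧ U = ax A B ∧ f ∈ C[B]}

theorem par (h : C4 Ω K) (e : Mn Ω A B) (hA : f ∈ C[A]) (hJ : f ∈ C[ax B A]) :
    f ∈ C[B] ↔ Nat.card (XX Ω A f) % 2 = 1 := by
  have : Finite (XX Ω A f) :=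
    inferInstanceAs (Finite {U : Subgroup G // ∃ B, Mn Ω A B ∧ U = ax A B ∧ f ∈ C[B]})
  let act : MulAction (ax B A) (XX Ω A f) :=
    { smul := fun j U => ⟨cj j U.1, by
        obtain ⟨_, B', e', rfl, h'⟩ := U
        exact ⟨cj j B', e'.cjN h.toTI j.2.2, (ax_cjN j.2.2 _).1.symm,
          cent_cj h' (mem_centralizer_iff.1 hJ j j.2)⟩⟩
      one_smul := fun U => Subtype.ext (H83.cj_one _)
      mul_smul := fun j k U => Subtype.ext (H83.cj_mul _ _ _) }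
  have : Fact (Nat.Prime 2) := ⟨Nat.prime_two⟩
  have hP : IsPGroup 2 (ax B A) := (h.ba.two B e.r).to_le ax_le
  have h1 := hP.card_modEq_card_fixedPoints (XX Ω A f)
  have h2 : ∀ U : MulAction.fixedPoints (ax B A) (XX Ω A f), U.1.1 = ax A B ∧ f ∈ C[B] := by
    rintro ⟨⟨_, B', e', rfl, h'⟩, hU⟩
    have h3 : ax A B' = ax A B := by
      rcases h.ba.modU e.toEd (ax A B') ax_le (fun j hj =>
        H83.cj_eq_self_iff.1 (congrArg Subtype.val (hU ⟨j, hj⟩))) with h4 | h4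
      · exact eq_ax h e' e h4
      · exact (eq_ax h e e' h4).symm
    exact ⟨h3, line h e' e h3 hA h'⟩
  unfold Nat.ModEq at h1
  rw [h1]
  constructor
  · intro hB
    have h3 : Nat.card (MulAction.fixedPoints (ax B A) (XX Ω A f)) = 1 :=
      Nat.card_eq_one_iff_exists.2 ⟨⟨⟨ax A B, B, e, rfl, hB⟩, fun j => Subtype.ext
        (H83.cj_eq_self (H83.le_norm_of_le_cent (fun j hj => mem_centralizer_iff.2 fun i hi =>
          h.ba.comm A e.l B e.r e.ne i hi j hj) j.2))⟩,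
        fun U => Subtype.ext (Subtype.ext (h2 U).1)⟩
    rw [h3]
  · intro h3
    by_contra hB
    have : IsEmpty (MulAction.fixedPoints (ax B A) (XX Ω A f)) := ⟨fun U => hB (h2 U).2⟩
    rw [Nat.card_of_isEmpty] at h3
    omega

theorem meet (h : C4 Ω K) (e : Mn Ω A B) (e' : Mn Ω A B') (hm : ax A B ⊓ ax A B' ≠ ⊥)
    (hA : f ∈ C[A]) (hB : f ∈ C[B]) : f ∈ C[B'] := by
  by_cases hne : ax A B = ax A B'
  · exact line h e e' hne hA hB
  have h2 := two_le hm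
  have h3 := h.yy.dy e e' hne (fun B₁ e₁ hle hne₁ => by
    have k1 := cmul h e e'
    have k2 := cmul h e e₁
    have k3 := inf_le_two h e e₁ (Ne.symm hne₁)
    refine eq_of_le_of_card_ge (sup_le le_sup_left hle) ?_
    nlinarith)
  have h4 := card_inf_mul (ax A B) (ax A B')
  have h5 := card_inf_mul (ax B' A) N[ax A B]
  rw [c4 h e] at h4
  rw [c4 h (h.ba.msymm e')] at h5
  have h6 : ax B' A ⊓ N[ax A B] ≠ ⊥ := fun e1 => by
    rw [e1, card_bot, one_mul] at h5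
    nlinarith
  obtain ⟨⟨y, hy, hyN⟩, hy1⟩ := ne_bot_iff_exists_ne_one.1 h6
  have hy1' : y ≠ 1 := fun e1 => hy1 (Subtype.ext e1)
  obtain ⟨a, ha, hc⟩ := h.ln.ce e' f hA
  have yA : y ∈ N[A] := hy.2
  have hc' : y * (f * a) = f * a * y := mem_centralizer_iff.1 hc y hy.1
  have k1 : y * f * y⁻¹ ∈ C[A] := by
    have := conj_cent y hA
    rwa [H83.cj_eq_self yA] at this
  have k2 : y * f * y⁻¹ ∈ C[B] :=
    line h (e.cjN h.toTI yA) e (by rw [(ax_cjN yA B).1, H83.cj_eq_self hyN]) k1 (conj_cent y hB)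
  have k3 : f⁻¹ * (y * f * y⁻¹) = a * (y * a * y⁻¹)⁻¹ := by
    calc f⁻¹ * (y * f * y⁻¹) = f⁻¹ * (y * (f * a)) * (a⁻¹ * y⁻¹) := by group
      _ = f⁻¹ * (f * a * y) * (a⁻¹ * y⁻¹) := by rw [hc']
      _ = _ := by group
  have k4 : a * (y * a * y⁻¹)⁻¹ = 1 :=
    uniq h e (mul_mem ha (inv_mem (H83.conj_mem le_rfl yA ha)))
      (k3 ▸ mul_mem (inv_mem hB) k2)
  have k5 : a ∈ ax A B' :=
    (h.ba.cA e'.toEd a ha y (mem_sup_right hy)
      (fun h7 => e'.ne (h.ba.eq A e.l B' e'.r y h7 hy.1 hy1'))).1 (by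
        rw [mul_inv_eq_one] at k4
        exact (eq_mul_inv_iff_mul_eq.1 k4))
  have k6 : f ∈ C[ax B' A] := by
    have k7 : a ∈ C[ax B' A] := mem_centralizer_iff.2 fun j hj =>
      (h.ba.comm A e.l B' e'.r e'.ne a k5 j hj).symm
    have := mul_mem (H83.cent_anti ax_le hc) (inv_mem k7)
    rwa [mul_inv_cancel_right] at this
  exact (par h e' hA k6).2 ((par h e hA (H83.cent_anti ax_le hB)).1 hB)

theorem all (h : C4 Ω K) (e : Mn Ω A B) (e' : Mn Ω A B') (hA : f ∈ C[A]) (hB : f ∈ C[B]) :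
    f ∈ C[B'] := by
  obtain ⟨⟨k, hk⟩, hk1⟩ := ne_bot_iff_exists_ne_one.1 e'.nb
  have hk1' : k ≠ 1 := fun e1 => hk1 (Subtype.ext e1)
  have nb : ∀ {U : Subgroup G}, k ∈ U → U ⊓ ax A B' ≠ ⊥ := fun hU e1 =>
    hk1' (mem_bot.1 (e1 ▸ (⟨hU, hk⟩ : k ∈ _ ⊓ ax A B')))
  by_cases hkI : k ∈ ax A B
  · exact meet h e e' (nb hkI) hA hB
  obtain ⟨B₁, e₁, hne, hm⟩ := exists_meet h e
  obtain ⟨a, ha, ha'⟩ : ∃ a ∈ ax A B₁, a ∉ ax A B :=
    SetLike.not_le_iff_exists.1 fun hle => hne (eq_ax h e₁ e hle).symm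
  obtain ⟨ρ, r0, r1, -, r2, -⟩ := h.bb.tor e.toEd a ha.1 ha' k hk.1 hkI
  have k1 : f ∈ C[A ⊔ B] := H83.centralizer_sup A B ▸ ⟨hA, hB⟩
  refine meet h (e₁.cjN h.toTI r1) e' (nb ?_) hA
    (cent_cj (meet h e e₁ hm hA hB) (mem_centralizer_iff.1 k1 ρ r0))
  rw [(ax_cjN r1 _).1, ← r2]
  exact H83.conj_mem_cj ha

theorem n4a : N4AStmt.{u} := by
  intro G _ _ Ω K h
  refine ⟨fun A hA => zc_bot h hA, fun A hA t ht => ?_⟩
  have mE : ∀ (P : Subgroup G) (x : G), x ∈ C[P] ⊓ ⨅ Q ∈ {Q | Ed Ω P Q}, C[Q] ↔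
      x ∈ C[P] ∧ ∀ Q, Ed Ω P Q → x ∈ C[Q] := fun P x => by simp [mem_iInf]
  have key := h.hf.glob h.conn (fun P => C[P] ⊓ ⨅ Q ∈ {Q | Ed Ω P Q}, C[Q]) (fun P _ g => by
    ext x
    rw [H83.mem_cj, mE, mE, ← H83.cj_centralizer, H83.mem_cj]
    refine and_congr_right fun _ => ⟨fun a Q e => ?_, fun a Q e => ?_⟩
    · have := a _ (e.cj h.toTI g)
      rwa [← H83.cj_centralizer, H83.mem_cj] at this
    · have h1 := e.cj h.toTI g⁻¹
      rw [H83.cj_inv_cj] at h1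
      have := a _ h1
      rw [← H83.cj_centralizer, H83.mem_cj] at this
      simpa [mul_assoc] using this) (fun P _ => inf_le_left)
    (fun P Q e x hx => ((mE P x).1 hx).2 Q e) A hA
  obtain ⟨B, e⟩ := h.ba.exMn h.ed A hA
  obtain ⟨a, ha, hc⟩ := h.ln.ce e t ht
  have h1 : t * a ∈ C[A] := mul_mem ht (mem_centralizer_iff.2 fun b hb => h.ba.mul_comm A hA b hb a ha)
  have h2 := (mE A _).2 ⟨h1, fun Q e' => all h e (mn h e') h1 hc⟩
  rw [key, mem_bot] at h2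
  rw [eq_inv_of_mul_eq_one_left h2]
  exact inv_mem ha

end Cfsg.Agent.H70.TiN4A
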