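import Cfsg.Agent.H97.U4Defs
import Cfsg.Agent.H8.SylowIn
import Cfsg.Agent.H83.Base

/-!
# Project U4F, piece V1: basic properties of the automizer of `J`
-/

set_option autoImplicit false
set_option linter.unusedSectionVars false

namespace Cfsg.Agent.H70.U4V

open Cfsg.Agent.H97 Cfsg.Agent.H97.U4 Subgroup
open Cfsg.Agent.H97.U5 (Hm)
open scoped Pointwise

universe u

variable {K : Type u} [Field K] [Finite K] {T : Hm K} {p : ℕ} [Fact p.Prime] [CharP K p]
  {Γ : Subgroup (Equiv.Perm (VV T))}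

theorem fix_X {z : VV T} : (∀ t, vX T t z = z) ↔ zV z := by
  refine ⟨fun h => ?_, fun h t => by apply vext <;> simp [h.1, h.2]⟩
  have hd : vd z = 0 := by simpa using congrArg vm (h 1)
  refine ⟨T.eq_zero_of_skew fun w => ?_, hd⟩
  have := congrArg va (h (T.σ w))
  rw [va_vX, hd, T.inv] at this
  linear_combination this

theorem z2_dec {y : VV T} (hy : vd y = 0) :
    ∃ t v v', y = (vX T t v - v) + (vX T 1 v' - v') := by
  have he := T.ep_ne
  obtain ⟨w, hw⟩ := T.exists_skew (c := va y - vm y / T.ep * T.σ (vm y / T.ep) * T.ep) (by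
    simp only [map_sub, map_mul, T.inv, σ_va, T.σ_ep]; ring)
  refine ⟨vm y / T.ep, mkV 0 0 T.ep (by simp) (by simp), mkV 0 w 0 (by simp) (by simp), ?_⟩
  apply vext
  · simp only [va_add, va_sub, va_vX, va_mk, vm_mk, vd_mk, map_zero, map_one]
    linear_combination -hw
  · simp [he]
  · simp [hy]

theorem vd_sub_X (t : K) (v : VV T) : vd (vX T t v - v) = 0 := by simp

theorem zV_sub_X (t : K) {v : VV T} (hv : vd v = 0) : zV (vX T t v - v) := by
  refine ⟨?_, ?_⟩ <;> simp [hv]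

theorem card_dual (F V : Type*) [Field F] [Finite F] [AddCommGroup V] [Module F V] [Finite V] :
    Finite (V →ₗ[F] F) ∧ Nat.card (V →ₗ[F] F) = Nat.card V := by
  have : Module.Finite F V := Module.Finite.of_finite
  exact ⟨Module.finite_of_finite F, by
    rw [Module.natCard_eq_pow_finrank (K := F), Subspace.dual_finrank_eq,
      ← Module.natCard_eq_pow_finrank]⟩

theorem inv_maps {α : Type*} [Finite α] (g : Equiv.Perm α) {s : α → Prop} (h : ∀ x, s x → s (g x)) :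
    ∀ x, s x → s (g⁻¹ x) := fun x hx => by
  obtain ⟨y, hy⟩ := Finite.surjective_of_injective
    (f := fun y : {y // s y} => (⟨g y, h y y.2⟩ : {y // s y}))
    (fun a b e => Subtype.ext (g.injective (congrArg Subtype.val e))) ⟨x, hx⟩
  have e : g y = x := congrArg Subtype.val hy
  rw [← e]
  simpa using y.2

/-- An additive functional on `K` vanishes on `t S₀` for some `t ≠ 0`. -/
theorem exists_killed (ψ : K →+ ZMod p) : ∃ t : K, t ≠ 0 ∧ ∀ d, d + T.σ d = 0 → ψ (t * d) = 0 := by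
  let _ : Module (ZMod p) (sk T) := AddCommGroup.zmodModule fun x => Subtype.ext (by simp)
  obtain ⟨hf, hc'⟩ := card_dual (ZMod p) (sk T)
  have hc : Nat.card (sk T →ₗ[ZMod p] ZMod p) < Nat.card K := by
    rw [hc', ← card_sk T]
    have : Nontrivial (sk T) := ⟨⟨⟨T.ep, by simp [mem_sk]⟩, 0, fun e => T.ep_ne (congrArg Subtype.val e)⟩⟩
    have := Finite.one_lt_card (α := sk T)
    nlinarith
  let f : K → sk T →ₗ[ZMod p] ZMod p := fun t =>
    (ψ.comp ((AddMonoidHom.mulLeft t).comp (sk T).subtype)).toZModLinearMap p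
  have : ¬ Function.Injective f := fun hf => absurd (Nat.card_le_card_of_injective f hf) hc.not_ge
  obtain ⟨s, t, e, hst⟩ := Function.not_injective_iff.1 this
  refine ⟨s - t, sub_ne_zero.2 hst, fun d hd => ?_⟩
  have h1 : ψ (s * d) = ψ (t * d) := LinearMap.congr_fun e ⟨d, hd⟩
  rw [sub_mul, map_sub, h1, sub_self]

theorem exists_fun (Y : AddSubgroup (VV T)) {y : VV T} (hy : y ∉ Y) :
    ∃ φ : VV T →+ ZMod p, φ y ≠ 0 ∧ ∀ v ∈ Y, φ v = 0 := by
  let _ : Module (ZMod p) (VV T) := AddCommGroup.zmodModule (p_smul_V (p := p))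
  obtain ⟨f, h1, h2⟩ := Submodule.exists_le_ker_of_notMem (p := AddSubgroup.toZModSubmodule p Y) hy
  exact ⟨f.toAddMonoidHom, h1, fun v hv => h2 hv⟩

section
variable (h : VG T p Γ)
include h

theorem gsub {g : Equiv.Perm (VV T)} (hg : g ∈ Γ) (x y : VV T) : g (x - y) = g x - g y :=
  eq_sub_of_add_eq (by rw [← h.add g hg, sub_add_cancel])

theorem gzero {g : Equiv.Perm (VV T)} (hg : g ∈ Γ) : g 0 = 0 := by
  simpa using gsub h hg 0 0

/-- `p`-elements of the normalizer lie in `X`. -/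
theorem pn0 {k : Equiv.Perm (VV T)} (hk : k ∈ Γ) (hn : k ∈ NV T) {n : ℕ} (e : k ^ p ^ n = 1) :
    k ∈ XV T :=
  h.syl (zpowers k ⊔ XV T) (sup_le (zpowers_le.2 hk) h.le)
    (H83.isPGroup_sup (H83.isPGroup_zpowers e) (isPGroup_XV T p) (zpowers_le.2 hn)) le_sup_right
    (mem_sup_left (mem_zpowers k))

theorem pn {g u : Equiv.Perm (VV T)} (hg : g ∈ Γ) (hu : u ∈ XV T) (u1 : u ≠ 1)
    (hn : g * u * g⁻¹ ∈ NV T) : g ∈ NV T := by
  obtain ⟨n, e⟩ := H83.isPGroup_iff.1 (isPGroup_XV T p) u hu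
  exact h.ti g hg u hu u1 (pn0 h (mul_mem (mul_mem hg (h.le hu)) (inv_mem hg)) hn (n := n)
    (by rw [conj_pow, e, mul_one, mul_inv_cancel]))

/-- A subgroup containing a conjugate of `X` and meeting `X` contains `X`. -/
theorem key {H : Subgroup (Equiv.Perm (VV T))} {g u : Equiv.Perm (VV T)} (hg : g ∈ Γ)
    (h0 : ∀ x ∈ XV T, g * x * g⁻¹ ∈ H) (hu : u ∈ XV T) (u1 : u ≠ 1) (e : u ∈ H) : XV T ≤ H := by
  have h1 : MulAut.conj g • XV T ≤ Γ ⊓ H := fun v hv => by
    have h2 := H8.mem_conj_smul.1 hv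
    exact ⟨by simpa [mul_assoc] using mul_mem (mul_mem hg (h.le h2)) (inv_mem hg),
      by simpa [mul_assoc] using h0 _ h2⟩
  have hS : H8.IsSylowIn p (MulAut.conj g • XV T) (Γ ⊓ H) :=
    H8.isSylowIn_of_maximal h1 (H8.isPGroup_conj_smul (isPGroup_XV T p) g) fun Q h2 h3 h4 v hv => by
      refine H8.mem_conj_smul.2 (h.syl (MulAut.conj g⁻¹ • Q) (fun a ha => ?_)
        (H8.isPGroup_conj_smul h2 _) (fun a ha => ?_) (H8.mem_conj_smul.2 (by simpa [mul_assoc] using hv)))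
      · have := (h3 (H8.mem_conj_smul.1 ha)).1
        simpa [mul_assoc] using mul_mem (mul_mem (inv_mem hg) this) hg
      · exact H8.mem_conj_smul.2 (h4 (H8.mem_conj_smul.2 (by simpa [mul_assoc] using ha)))
  obtain ⟨k, hk, h2⟩ := hS.exists_conj_le (Q := zpowers u)
    ((isPGroup_XV T p).to_le (zpowers_le.2 hu)) (zpowers_le.2 ⟨h.le hu, e⟩)
  have h3 := H8.mem_conj_smul.1 (h2 (H8.conj_mem_conj_smul.2 (mem_zpowers u)))
  have h4 := h.ti (g⁻¹ * k) (mul_mem (inv_mem hg) hk.1) u hu u1 (by simpa [mul_assoc] using h3)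
  intro v hv
  have h5 := h1 (H8.conj_mem_conj_smul (g := g) |>.2 ((mem_normalizer_iff.1 h4 v).1 hv))
  have h6 : v ∈ Γ ⊓ H := by simpa [mul_assoc] using mul_mem (mul_mem (inv_mem hk) h5) hk
  exact h6.2

theorem nz {g : Equiv.Perm (VV T)} (hg : g ∈ Γ) (hn : g ∈ NV T) :
    (∀ z, zV z → zV (g z)) ∧ ∀ y, vd y = 0 → vd (g y) = 0 := by
  refine ⟨fun z hz => fix_X.1 fun t => ?_, fun y hy => ?_⟩
  · obtain ⟨s, hs⟩ := (mem_XV T).1 ((mem_normalizer_iff''.1 hn (vX T t)).1 (vX_mem T t))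
    have := congrArg g (Equiv.congr_fun hs z)
    rw [fix_X.2 hz s] at this
    simpa using this
  · have k : ∀ t v, vd (g (vX T t v - v)) = 0 := fun t v => by
      obtain ⟨s, hs⟩ := (mem_XV T).1 ((mem_normalizer_iff.1 hn (vX T t)).1 (vX_mem T t))
      have : g (vX T t v) = vX T s (g v) := by simpa using Equiv.congr_fun hs (g v)
      rw [gsub h hg, this, vd_sub_X]
    obtain ⟨t, v, v', rfl⟩ := z2_dec hy
    rw [h.add g hg, vd_add, k, k, add_zero]

theorem t1 {g : Equiv.Perm (VV T)} (hg : g ∈ Γ) {z : VV T} (hz : zV z) (e : vd (g z) = 0) :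
    zV (g z) := by
  by_cases hm : vm (g z) = 0
  · exact ⟨hm, e⟩
  have := key h (H := MulAction.stabilizer (Equiv.Perm (VV T)) (g z)) hg (fun x hx => by
    obtain ⟨t, rfl⟩ := (mem_XV T).1 hx
    simp [fix_X.2 hz t]) (vX_mem T (vm (g z))) (fun e1 => hm ((vX_eq_one T).1 e1)) (by
      change vX T _ _ = _
      apply vext <;> simp [e]
      ring)
  exact fix_X.1 fun t => this (vX_mem T t)

theorem t2 {g : Equiv.Perm (VV T)} (hg : g ∈ Γ) {y : VV T} (hy : vd y = 0) :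
    ∃ z y', zV z ∧ vd y' = 0 ∧ y = z + g y' := by
  let Y : AddSubgroup (VV T) :=
    { carrier := {v | ∃ z y', zV z ∧ vd y' = 0 ∧ v = z + g y'}
      zero_mem' := ⟨0, 0, ⟨rfl, rfl⟩, rfl, by rw [gzero h hg, add_zero]⟩
      add_mem' := by
        rintro _ _ ⟨z, a, h1, h2, rfl⟩ ⟨w, b, h3, h4, rfl⟩
        exact ⟨z + w, a + b, ⟨by simp [h1.1, h3.1], by simp [h1.2, h3.2]⟩, by simp [h2, h4],
          by rw [h.add g hg]; abel⟩
      neg_mem' := by
        rintro _ ⟨z, a, h1, h2, rfl⟩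
        exact ⟨-z, 0 - a, ⟨by simp [h1.1], by simp [h1.2]⟩, by simp [h2],
          by rw [gsub h hg, gzero h hg]; abel⟩ }
  by_contra hn
  obtain ⟨φ, h1, h2⟩ := exists_fun (p := p) Y (y := y) hn
  have hZ : ∀ z, zV z → φ z = 0 := fun z hz =>
    h2 z ⟨z, 0, hz, rfl, by rw [gzero h hg, add_zero]⟩
  let H : Subgroup (Equiv.Perm (VV T)) :=
    { carrier := {k | ∀ v, φ (k v) = φ v}
      one_mem' := fun _ => rfl
      mul_mem' := fun {a b} ha hb v => (ha (b v)).trans (hb v)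
      inv_mem' := fun {a} ha v => by simpa using (ha (a⁻¹ v)).symm }
  obtain ⟨t, t0, ht⟩ := exists_killed (T := T) (φ.comp (AddMonoidHom.mk'
    (fun m : K => (mkV 0 m 0 (by simp) (by simp) : VV T)) fun a b => by apply vext <;> simp))
  have hX := key h (H := H) hg (fun x hx v => by
    obtain ⟨s, rfl⟩ := (mem_XV T).1 hx
    refine sub_eq_zero.1 ?_
    rw [← map_sub]
    exact h2 _ ⟨0, vX T s (g⁻¹ v) - g⁻¹ v, ⟨rfl, rfl⟩, vd_sub_X _ _, by simp [gsub h hg]⟩)
    (vX_mem T t) (fun e1 => t0 ((vX_eq_one T).1 e1)) (fun v => by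
      have e1 : φ (mkV 0 (t * vd v) 0 (by simp) (by simp)) = 0 := ht _ (vd_sk v)
      have e2 := hZ (vX T t v - v - mkV 0 (t * vd v) 0 (by simp) (by simp)) ⟨by simp, by simp⟩
      rw [map_sub, map_sub, e1, sub_zero] at e2
      exact sub_eq_zero.1 e2)
  obtain ⟨s, v, v', rfl⟩ := z2_dec hy
  exact h1 (by rw [map_add, map_sub, map_sub, hX (vX_mem T s) v, hX (vX_mem T 1) v']; simp)

/-- The stabilizer of the chain `V > Z₂ > Z > 0`. -/
theorem chain {k : Equiv.Perm (VV T)} (hk : k ∈ Γ) (h1 : ∀ v, vd (k v) = vd v)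
    (h2 : ∀ y, vd y = 0 → vm (k y) = vm y) (h3 : ∀ z, zV z → k z = z) : k ∈ XV T := by
  let M : Subgroup (Equiv.Perm (VV T)) :=
    { carrier := {k | k ∈ Γ ∧ (∀ v, vd (k v) = vd v) ∧ (∀ y, vd y = 0 → vm (k y) = vm y) ∧
        ∀ z, zV z → k z = z}
      one_mem' := ⟨one_mem _, fun _ => rfl, fun _ _ => rfl, fun _ _ => rfl⟩
      mul_mem' := fun {a b} ha hb => ⟨mul_mem ha.1 hb.1, fun v => (ha.2.1 (b v)).trans (hb.2.1 v),
        fun y hy => (ha.2.2.1 (b y) ((hb.2.1 y).trans hy)).trans (hb.2.2.1 y hy),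
        fun z hz => by rw [Equiv.Perm.mul_apply, hb.2.2.2 z hz, ha.2.2.2 z hz]⟩
      inv_mem' := fun {a} ha => by
        have e1 : ∀ v, vd (a⁻¹ v) = vd v := fun v => by simpa using (ha.2.1 (a⁻¹ v)).symm
        exact ⟨inv_mem ha.1, e1, fun y hy => by simpa using (ha.2.2.1 (a⁻¹ y) ((e1 y).trans hy)).symm,
          fun z hz => by rw [Equiv.Perm.inv_eq_iff_eq, ha.2.2.2 z hz]⟩ }
  refine h.syl M (fun a ha => ha.1) (H83.isPGroup_iff.2 fun a ha => ⟨2, Equiv.ext fun v => ?_⟩)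
    (fun x hx => ?_) ⟨hk, h1, h2, h3⟩
  · have e1 : ∀ v (n : ℕ), vm ((a ^ n) v) = vm v + n * vm (a v - v) := fun v n => by
      induction n with
      | zero => simp
      | succ n ih =>
        have hn := pow_mem ha n
        have := hn.2.2.1 (a v - v) (by simp [ha.2.1 v])
        rw [gsub h hn.1, vm_sub, ih] at this
        rw [pow_succ, Equiv.Perm.mul_apply]
        push_cast
        linear_combination this
    have hb := pow_mem ha p
    have hz : zV ((a ^ p) v - v) := ⟨by simp [e1], by simp [hb.2.1 v]⟩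
    have e2 : ∀ n : ℕ, ((a ^ p) ^ n) v = v + n • ((a ^ p) v - v) := fun n => by
      induction n with
      | zero => simp
      | succ n ih =>
        have hn := pow_mem hb n
        have := hn.2.2.2 _ hz
        rw [gsub h hn.1, ih] at this
        rw [pow_succ, Equiv.Perm.mul_apply, succ_nsmul, ← add_assoc, add_comm]
        exact eq_add_of_sub_eq this
    rw [pow_two, pow_mul, e2, p_smul_V, add_zero]
    rfl
  · obtain ⟨t, rfl⟩ := (mem_XV T).1 hx
    exact ⟨h.le hx, fun _ => rfl, fun y hy => by simp [hy], fun z hz => fix_X.2 hz t⟩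

theorem s2 {g : Equiv.Perm (VV T)} (hg : g ∈ Γ) (e : ∀ y, vd y = 0 → vd (g y) = 0) : g ∈ NV T := by
  have e' : ∀ y, vd y = 0 → vd (g⁻¹ y) = 0 :=
    inv_maps g (s := fun y => vd y = 0) e
  have k : ∀ v, (g * vX T 1 * g⁻¹) v = v + g (vX T 1 (g⁻¹ v) - g⁻¹ v) := fun v => by
    simp [gsub h hg]
  refine h.ti g hg (vX T 1) (vX_mem T 1) (fun e1 => one_ne_zero ((vX_eq_one T).1 e1))
    (chain h (mul_mem (mul_mem hg (h.le (vX_mem T 1))) (inv_mem hg)) (fun v => ?_) (fun y hy => ?_)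
      fun z hz => ?_)
  · rw [k, vd_add, e _ (vd_sub_X _ _), add_zero]
  · have hz := zV_sub_X (T := T) 1 (e' y hy)
    rw [k, vm_add, (t1 h hg hz (e _ hz.2)).1, add_zero]
  · rw [k, fix_X.2 (t1 h (inv_mem hg) hz (e' z hz.2)), sub_self, gzero h hg, add_zero]

theorem s1 {g : Equiv.Perm (VV T)} (hg : g ∈ Γ) (e : ∀ z, zV z → zV (g z)) : g ∈ NV T := by
  have e' : ∀ z, zV z → zV (g⁻¹ z) := inv_maps g e
  refine inv_mem_iff.1 (s2 h (inv_mem hg) fun y hy => ?_)
  obtain ⟨z, y', h1, h2, rfl⟩ := t2 h hg hy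
  rw [h.add _ (inv_mem hg), vd_add, (e' z h1).2]
  simpa using h2

end

/-- **U4F-V1** -/
theorem v1 : V1Stmt T p := fun _ h =>
  ⟨fun _ hg _ hu u1 hn => pn h hg hu u1 hn, fun _ hg hn => nz h hg hn,
    fun _ hg _ hz e => t1 h hg hz e, fun _ hg _ hy => t2 h hg hy, fun _ hg e => s1 h hg e,
    fun _ hg e => s2 h hg e⟩

end Cfsg.Agent.H70.U4V
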