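import Mathlib
import Cfsg.Agent.H41.U6Defs

/-!
# A standard subgroup `2·U₆(2)`: an outer automorphism of order three on the clique
-/

set_option autoImplicit false
set_option maxRecDepth 1000000
set_option maxHeartbeats 4000000

namespace Cfsg.Agent.H70.U6Tau

open Cfsg.Agent.H41 Cfsg.Agent.H41.Rec Cfsg.Agent.H42 Cfsg.Agent.H45 Cfsg.Agent.H60 Equiv

/-- The action on the clique. -/
def a0 : ℕ := 26123517946953879158960450210304

/-- The split coordinates. -/
def W0 : ℕ := 1435072420631327411143853826708224180591183854634388450529823045389197000706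

/-- The second word. -/
def gl : List ℕ := [10, 0, 11, 10, 5, 4, 3, 2, 1, 2, 3, 4, 5, 6, 0, 5, 4, 3, 2, 1, 2, 3, 4, 5, 10, 0, 11, 10]

/-- The sign check on a chunk. -/
noncomputable def chk (c : ℕ) : Bool :=
  allB (fun i => sgnB 9 21 J21.V W0 (a0 :: J21.sl.map Prod.snd) (Nat.add (Nat.mul 256 c) i)) 256

theorem c0 : chk 0 = true := by decide +kernel
theorem c1 : chk 1 = true := by decide +kernel
theorem c2 : chk 2 = true := by decide +kernel
theorem c3 : chk 3 = true := by decide +kernel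
theorem c4 : chk 4 = true := by decide +kernel
theorem c5 : chk 5 = true := by decide +kernel
theorem c6 : chk 6 = true := by decide +kernel
theorem c7 : chk 7 = true := by decide +kernel
theorem c8 : chk 8 = true := by decide +kernel
theorem c9 : chk 9 = true := by decide +kernel
theorem c10 : chk 10 = true := by decide +kernel
theorem c11 : chk 11 = true := by decide +kernel
theorem c12 : chk 12 = true := by decide +kernel
theorem c13 : chk 13 = true := by decide +kernel
theorem c14 : chk 14 = true := by decide +kernel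
theorem c15 : chk 15 = true := by decide +kernel

theorem sgn : allB (sgnB 9 21 J21.V W0 (a0 :: J21.sl.map Prod.snd)) (2 ^ (21 - 9)) = true :=
  allB_iff.mpr fun i hi => by
  have h : ∀ c < 16, chk c = true := fun c hc => by
    interval_cases c
    exacts [c0, c1, c2, c3, c4, c5, c6, c7, c8, c9, c10, c11, c12, c13, c14, c15]
  have h1 := of_allB (h (i / 256) (by omega)) (Nat.mod_lt i (by norm_num : 0 < 256))
  rwa [Nat.add_eq, Nat.mul_eq, Nat.div_add_mod] at h1

theorem exists_tau : ∃ τ ∈ L21.F.aut, ∀ j < 21, τ (sB J21.B j) = sB J21.B (fld 5 a0 j) := by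
  obtain ⟨s1, s2, -⟩ := Amb.sw_wg
  obtain ⟨t1, t2, -⟩ := Amb.sw_gl
  obtain ⟨τ, h1, h2⟩ := Amb.emb21.exists_res (mul_mem s1 t1)
    (Amb.range21 ▸ FS.aut_presv_N (mul_mem s1 t1) (mul_mem s2 t2))
  refine ⟨τ, h1, fun j hj => Amb.emb21.inj ?_⟩
  rw [← h2, ← wp_append]
  exact N24.act.apply_eq ((by decide +kernel : ∀ j < 21, ptW N24.ap ([9, 6, 12, 9] ++ gl)
    (Amb.ι21 (sB J21.B j)) (Amb.ι21 (sB J21.B (fld 5 a0 j))) = true) j hj)

theorem tau : U6S.TauStmt := by
  obtain ⟨τ, h1, h2⟩ := exists_tau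
  have lt : ∀ j < 21, fld 5 a0 j < 21 := by decide +kernel
  have e : ∀ j < 21, fld 5 a0 (fld 5 a0 (fld 5 a0 (fld 5 a0 j))) = fld 5 a0 j := by decide +kernel
  refine ⟨τ, h1, a0, W0, fun j hj => ⟨lt j hj, ?_⟩, by decide +kernel, sgn⟩
  rw [← e j hj, ← h2 _ (lt _ (lt _ (lt j hj))), ← h2 _ (lt _ (lt j hj)), ← h2 _ (lt j hj), ← h2 j hj]
  rfl

end Cfsg.Agent.H70.U6Tau
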